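import Cfsg.Agent.KnownA.Pronormal.SylowGL

/-!
The start of the doubling: dimension one when `q ≡ 1 (mod 4)`, dimension two when `q ≡ 3 (mod 4)`.
-/

set_option autoImplicit false

namespace Cfsg.Agent.KnownA.PronormalLinear

open Matrix

variable {F : Type*} [Field F] [Fintype F]

theorem two_ne_zero_of_odd (hodd : Odd (Fintype.card F)) : (2 : F) ≠ 0 := by
  refine Ring.two_ne_zero fun h => ?_
  exact Nat.not_even_iff_odd.2 hodd (Nat.even_iff.2 (FiniteField.even_card_of_char_two h))

theorem scalar_one (x : GL (Fin 1) F) : ∃ l : Fˣ, x = sc F (Fin 1) l := by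
  refine ⟨GeneralLinearGroup.det x, Units.ext ?_⟩
  ext i j
  obtain rfl : i = 0 := Subsingleton.elim _ _
  obtain rfl : j = 0 := Subsingleton.elim _ _
  simp [sc_val, det_fin_one]

/-- the start when `q ≡ 1 (mod 4)` -/
theorem good_split (h4 : Fintype.card F % 4 = 1) : ∃ S : Subgroup (GL (Fin 1 ⊕ Fin 1) F), Good S := by
  have hodd : Odd (Fintype.card F) := Nat.odd_iff.2 (by omega)
  have h2 := two_ne_zero_of_odd hodd
  have := Fact.mk Nat.prime_two
  obtain ⟨P⟩ : Nonempty (Sylow 2 (GL (Fin 1) F)) := inferInstance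
  set S : Subgroup (GL (Fin 1) F) := (P : Subgroup (GL (Fin 1) F))
  have hc : Nat.card ↥S = 2 ^ padicValNat 2 (Nat.card (GL (Fin 1) F)) := by
    rw [P.card_eq_multiplicity, Nat.factorization_def _ Nat.prime_two]
  have hneg := neg_mem hc
  obtain ⟨r, hr⟩ : IsSquare (-1 : F) := FiniteField.isSquare_neg_one_iff.2 (by omega)
  have hr0 : r ≠ 0 := fun e => by rw [e, mul_zero] at hr; exact neg_ne_zero.2 one_ne_zero hr
  set ι : Fˣ := Units.mk0 r hr0
  have hι : ι * ι = -1 := Units.ext (by simpa [ι] using hr.symm)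
  have hι1 : ι ≠ 1 := fun e => by
    rw [e, mul_one] at hι
    exact h2 (by linear_combination (by simpa using congrArg Units.val hι : (1 : F) = -1))
  have hιneg : ι ≠ -1 := fun e => by
    rw [e] at hι
    exact h2 (by linear_combination (by simpa using congrArg Units.val hι : (1 : F) = -1))
  have hι4 : ι ^ 2 ^ 2 = 1 := by
    rw [show (2 : ℕ) ^ 2 = 2 + 2 from rfl, pow_add, sq, hι]; simp
  have hιmem : sc F (Fin 1) ι ∈ S := scalar_mem hc ⟨2, hι4⟩
  have hιmem' : sc F (Fin 1) ι⁻¹ ∈ S := scalar_mem hc ⟨2, by rw [_root_.inv_pow, hι4, inv_one]⟩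
  have hnorm : ∀ g : GL (Fin 1) F, (∀ a ∈ S, g * a * g⁻¹ ∈ S) → ∃ s ∈ S, ∃ l : Fˣ, g = s * sc F (Fin 1) l :=
    fun g _ => by obtain ⟨l, hl⟩ := scalar_one g; exact ⟨1, one_mem _, l, by rw [one_mul, hl]⟩
  have hsc1 : ∀ l : Fˣ, PM (sc F (Fin 1) l) 1 → l = 1 ∨ l = -1 := by
    intro l h
    rcases h with h | h <;> [left; right] <;> apply Units.ext <;>
      have := congrArg (fun x : GL (Fin 1) F => (x : Matrix (Fin 1) (Fin 1) F) 0 0) h <;>
      simpa [sc_val] using this
  have hcne : ¬ PM (sc F (Fin 1) ι) 1 := fun h => (hsc1 ι h).elim hι1 hιneg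
  have hone : ∀ l : Fˣ, GeneralLinearGroup.det (sc F (Fin 1) l) = l := fun l => by rw [det_sc]; simp
  have hexp : expo (Fintype.card F) (2 * Fintype.card (Fin 1)) = 2 * expo (Fintype.card F) (Fintype.card (Fin 1)) + 1 := by
    rw [Fintype.card_fin, mul_one]; exact expo_double_zero Fintype.one_lt_card h4
  refine ⟨wr S, card_wr_sylow hodd hc hexp, fun g hg => ?_, fun x hx => ?_, fun u hu => ?_, ?_⟩
  · have hg' : ∀ y ∈ wr S, g⁻¹ * y * g ∈ wr S := by
      intro y hy
      have he : (wr S).map (MulAut.conj g).toMonoidHom = wr S :=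
        Subgroup.eq_of_le_of_card_ge (by rintro _ ⟨a, ha, rfl⟩; exact hg a ha)
          (Subgroup.card_map_of_injective (MulAut.conj g).injective).ge
      rw [← he] at hy
      obtain ⟨a, ha, rfl⟩ := hy
      rw [show g⁻¹ * (MulAut.conj g).toMonoidHom a * g = a by
        show g⁻¹ * (g * a * g⁻¹) * g = a; group]
      exact ha
    exact normalizer_wr h2 (fun _ => True) hnorm (fun x _ => scalar_one x) (fun x _ => scalar_one x)
      ⟨_, hιmem, trivial, hcne⟩ (fun a ha => ⟨1, one_mem _, trivial⟩) (fun a ha => ⟨1, one_mem _, trivial⟩)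
      hneg trivial trivial (fun _ _ _ _ => trivial) (fun y hy _ => ⟨hg y hy, trivial⟩) (fun y hy _ => ⟨hg' y hy, trivial⟩)
  · have hd : GeneralLinearGroup.det (blk (sc F (Fin 1) ι, sc F (Fin 1) ι⁻¹)) = 1 := by
      rw [det_blk, hone, hone, mul_inv_cancel]
    have e := hx _ (blk_mem_wr hιmem hιmem') hd
    have hιi : ι⁻¹ = -1 * ι := inv_eq_of_mul_eq_one_right (by rw [mul_comm (-1) ι, ← mul_assoc, hι]; simp)
    have hb : blk (sc F (Fin 1) ι, sc F (Fin 1) ι⁻¹) = blk (1, sc F (Fin 1) (-1)) * sc F (Fin 1 ⊕ Fin 1) ι := by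
      rw [sc_blk, ← map_mul, Prod.mk_mul_mk, one_mul, ← map_mul, ← hιi]
    have hz : blk (1, sc F (Fin 1) (-1)) = sc F (Fin 1 ⊕ Fin 1) (-1) * zB F (Fin 1) := by
      rw [zB, sc_neg_one_blk, ← map_mul, Prod.mk_mul_mk, ← map_mul, mul_one]; simp
    rw [hb, hz, mul_assoc, ← mul_assoc x, ← sc_comm (-1) x, mul_assoc, mul_assoc, mul_right_inj, ← mul_assoc,
      mul_assoc (zB F (Fin 1)) _ x, sc_comm ι x, ← mul_assoc, mul_left_inj] at e
    obtain ⟨a, b, rfl⟩ := eq_blk_of_comm h2 e
    obtain ⟨la, rfl⟩ := scalar_one a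
    obtain ⟨lb, rfl⟩ := scalar_one b
    have hw : blk (1, sc F (Fin 1) (-1)) * wB F (Fin 1) ∈ wr S := mul_mem (blk_mem_wr (one_mem _) hneg) wB_mem_wr
    have hdw : GeneralLinearGroup.det (blk (1, sc F (Fin 1) (-1)) * wB F (Fin 1)) = 1 := by
      apply Units.ext
      simp [blk_val, wB_val, fromBlocks_multiply, sc_val]
      rw [← Matrix.det_reindex_self finSumFinEquiv]
      simp [det_fin_two, fromBlocks, finSumFinEquiv, Fin.addCases]
    have e2 := hx _ hw hdw
    rw [← mul_assoc, ← map_mul, mul_assoc, wB_blk, ← mul_assoc, ← map_mul, Prod.mk_mul_mk, Prod.mk_mul_mk,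
      mul_one, one_mul] at e2
    have e3 := (blk_inj (mul_right_cancel e2)).1
    exact ⟨la, by rw [sc_blk, ← e3]⟩
  · refine ⟨blk (sc F (Fin 1) u, 1), blk_mem_wr (scalar_mem hc hu) (one_mem _), ?_⟩
    rw [det_blk, hone, map_one, mul_one]
  · refine ⟨blk (sc F (Fin 1) ι, sc F (Fin 1) ι⁻¹), blk_mem_wr hιmem hιmem', by rw [det_blk, hone, hone, mul_inv_cancel], fun h => ?_⟩
    rcases h with h | h
    · rw [← map_one blk, Prod.one_eq_mk] at h
      exact hcne (Or.inl (blk_inj h).1)
    · rw [mul_one, sc_neg_one_blk] at h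
      exact hcne (Or.inr (by rw [mul_one]; exact (blk_inj h).1))

/-- the rotation -/
def rot (F : Type*) [Field F] : GL (Fin 2) F :=
  GeneralLinearGroup.mkOfDetNeZero !![0, -1; 1, 0] (by simp [det_fin_two])

/-- the reflection -/
def refl (F : Type*) [Field F] : GL (Fin 2) F :=
  GeneralLinearGroup.mkOfDetNeZero !![1, 0; 0, -1] (by simp [det_fin_two])

theorem rot_val : (rot F : Matrix (Fin 2) (Fin 2) F) = !![0, -1; 1, 0] := rfl

theorem refl_val : (refl F : Matrix (Fin 2) (Fin 2) F) = !![1, 0; 0, -1] := rfl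

theorem gl2_comm_rot {g : GL (Fin 2) F} :
    g * rot F = rot F * g ↔ (g : Matrix (Fin 2) (Fin 2) F) 1 1 = g 0 0 ∧ (g : Matrix (Fin 2) (Fin 2) F) 0 1 = -g 1 0 := by
  rw [← Units.val_inj, Units.val_mul, Units.val_mul, rot_val]
  constructor
  · intro e
    have h1 := congrFun (congrFun e 1) 0
    have h0 := congrFun (congrFun e 1) 1
    simp [Matrix.mul_apply, Fin.sum_univ_two] at h0 h1
    exact ⟨h1, by linear_combination -h0⟩
  · rintro ⟨h1, h0⟩
    ext i j
    fin_cases i <;> fin_cases j <;> simp [Matrix.mul_apply, Fin.sum_univ_two, h1, h0]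

theorem refl_sq : refl F * refl F = 1 := by
  apply Units.ext; rw [Units.val_mul, refl_val]
  ext i j; fin_cases i <;> fin_cases j <;> simp [Matrix.mul_apply, Fin.sum_univ_two]

theorem rot_sq : rot F * rot F = sc F (Fin 2) (-1) := by
  apply Units.ext; rw [Units.val_mul, rot_val, sc_val]
  ext i j; fin_cases i <;> fin_cases j <;> simp [Matrix.mul_apply, Fin.sum_univ_two]

theorem refl_rot : refl F * rot F * refl F = sc F (Fin 2) (-1) * rot F := by
  apply Units.ext; rw [Units.val_mul, Units.val_mul, Units.val_mul, rot_val, refl_val, sc_val]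
  ext i j; fin_cases i <;> fin_cases j <;> simp [Matrix.mul_apply, Fin.sum_univ_two]

/-- the start when `q ≡ 3 (mod 4)` -/
theorem good_nonsplit (h4 : Fintype.card F % 4 = 3) : ∃ S : Subgroup (GL (Fin 2) F), Good S := by
  classical
  have hodd : Odd (Fintype.card F) := Nat.odd_iff.2 (by omega)
  have h2 := two_ne_zero_of_odd hodd
  have := Fact.mk Nat.prime_two
  have hsq : ¬ IsSquare (-1 : F) := fun h => (FiniteField.isSquare_neg_one_iff.1 h) h4
  set J := refl F with hJdef
  have hJJ : J * J = 1 := refl_sq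
  have hJi : J⁻¹ = J := inv_eq_of_mul_eq_one_right hJJ
  set C : Subgroup (GL (Fin 2) F) := Subgroup.centralizer {rot F} with hCdef
  have memC : ∀ {g : GL (Fin 2) F}, g ∈ C ↔ g * rot F = rot F * g := fun {g} => Subgroup.mem_centralizer_singleton_iff
  have commC : ∀ {x y : GL (Fin 2) F}, x ∈ C → y ∈ C → x * y = y * x := by
    intro x y hx hy
    obtain ⟨x1, x0⟩ := gl2_comm_rot.1 (memC.1 hx)
    obtain ⟨y1, y0⟩ := gl2_comm_rot.1 (memC.1 hy)
    apply Units.ext
    rw [Units.val_mul, Units.val_mul]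
    ext i j
    fin_cases i <;> fin_cases j <;> simp [Matrix.mul_apply, Fin.sum_univ_two, x1, x0, y1, y0] <;> ring
  have scC : ∀ l : Fˣ, sc F (Fin 2) l ∈ C := fun l => memC.2 (sc_comm l _)
  have rotC : rot F ∈ C := memC.2 rfl
  have hJC : ∀ {x : GL (Fin 2) F}, x ∈ C → J * x * J ∈ C := by
    intro x hx
    refine memC.2 ?_
    have h1 : rot F = sc F (Fin 2) (-1) * (J * rot F * J) := by
      rw [refl_rot, ← mul_assoc, ← map_mul]; simp
    rw [h1, ← mul_assoc, ← sc_comm (-1) (J * x * J), mul_assoc, mul_assoc (sc F (Fin 2) (-1))]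
    congr 1
    simp only [mul_assoc]
    rw [← mul_assoc J J, hJJ, one_mul, ← mul_assoc J J, hJJ, one_mul, ← mul_assoc x, memC.1 hx, mul_assoc]
  let R : Subgroup (GL (Fin 2) F) :=
    { carrier := {x | x ∈ C ∧ ∃ t, x ^ 2 ^ t = 1}
      one_mem' := ⟨one_mem _, 0, one_pow _⟩
      mul_mem' := by
        rintro x y ⟨hx, s, hs⟩ ⟨hy, t, ht⟩
        refine ⟨mul_mem hx hy, s + t, ?_⟩
        rw [(show Commute x y from commC hx hy).mul_pow]
        nth_rewrite 2 [add_comm s t]
        rw [pow_add, pow_mul, hs, one_pow, pow_add, pow_mul, ht, one_pow, one_mul]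
      inv_mem' := by
        rintro x ⟨hx, s, hs⟩
        exact ⟨inv_mem hx, s, by rw [_root_.inv_pow, hs, inv_one]⟩ }
  have memR : ∀ {x}, x ∈ R ↔ x ∈ C ∧ ∃ t, x ^ 2 ^ t = 1 := Iff.rfl
  have hJR : ∀ {x}, x ∈ R → J * x * J ∈ R := by
    rintro x ⟨hx, t, ht⟩
    refine ⟨hJC hx, t, ?_⟩
    rw [show J * x * J = J * x * J⁻¹ by rw [hJi], conj_pow, ht]; group
  have hJnC : J ∉ C := fun h => by
    have := (gl2_comm_rot.1 (memC.1 h)).1
    simp [hJdef, refl_val] at this
    exact h2 (by linear_combination -this)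
  let S : Subgroup (GL (Fin 2) F) :=
    { carrier := {x | x ∈ R ∨ x * J ∈ R}
      one_mem' := Or.inl (one_mem _)
      mul_mem' := by
        rintro x y (hx | hx) (hy | hy)
        · exact Or.inl (mul_mem hx hy)
        · exact Or.inr (by rw [mul_assoc]; exact mul_mem hx hy)
        · refine Or.inr ?_
          rw [show x * y * J = x * J * (J * y * J) by
            simp only [mul_assoc]; rw [← mul_assoc J J, hJJ, one_mul]]
          exact mul_mem hx (hJR hy)
        · refine Or.inl ?_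
          rw [show x * y = x * J * (J * (y * J) * J) by
            simp only [mul_assoc, hJJ, mul_one]; rw [← mul_assoc J J, hJJ, one_mul]]
          exact mul_mem hx (hJR hy)
      inv_mem' := by
        rintro x (hx | hx)
        · exact Or.inl (inv_mem hx)
        · refine Or.inr ?_
          have := hJR (inv_mem hx)
          rw [_root_.mul_inv_rev, hJi, ← mul_assoc, hJJ, one_mul] at this
          exact this }
  have memS : ∀ {x}, x ∈ S ↔ x ∈ R ∨ x * J ∈ R := Iff.rfl
  -- orders
  have hCcard : Nat.card ↥C = Fintype.card F ^ 2 - 1 := by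
    have hne : ∀ a b : F, (a, b) ≠ (0, 0) → (!![a, -b; b, a] : Matrix (Fin 2) (Fin 2) F).det ≠ 0 := by
      intro a b hab hd
      simp [det_fin_two] at hd
      by_cases hb : b = 0
      · subst hb; simp at hd; exact hab (by rw [hd])
      · exact hsq ⟨a / b, by field_simp; linear_combination -hd⟩
    let f : {p : F × F // p ≠ (0, 0)} → ↥C := fun p => ⟨GeneralLinearGroup.mkOfDetNeZero _ (hne p.1.1 p.1.2 p.2),
      memC.2 (gl2_comm_rot.2 ⟨rfl, rfl⟩)⟩
    rw [← Nat.card_eq_of_bijective f ⟨?_, ?_⟩, Nat.card_eq_fintype_card, Fintype.card_subtype_compl,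
      Fintype.card_subtype_eq, Fintype.card_prod, sq]
    · rintro ⟨⟨a, b⟩, hp⟩ ⟨⟨c, d⟩, hq⟩ e
      have e' := congrArg (fun x : ↥C => ((x.1 : Matrix (Fin 2) (Fin 2) F) 0 0, (x.1 : Matrix (Fin 2) (Fin 2) F) 1 0)) e
      exact Subtype.ext e'
    · rintro ⟨g, hg⟩
      obtain ⟨g1, g0⟩ := gl2_comm_rot.1 (memC.1 hg)
      have hne' : ((g : Matrix (Fin 2) (Fin 2) F) 0 0, (g : Matrix (Fin 2) (Fin 2) F) 1 0) ≠ (0, 0) := by
        intro e
        have hd : (g : Matrix (Fin 2) (Fin 2) F).det ≠ 0 := ((Matrix.isUnit_iff_isUnit_det _).1 g.isUnit).ne_zero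
        apply hd
        obtain ⟨e1, e2⟩ := Prod.mk.injEq _ _ _ _ ▸ e
        rw [det_fin_two, g0, g1, e1, e2]; simp
      refine ⟨⟨_, hne'⟩, Subtype.ext (Units.ext ?_)⟩
      ext i j
      fin_cases i <;> fin_cases j
      exacts [rfl, g0.symm, rfl, g1.symm]
  have hRcard : Nat.card ↥R = 2 ^ padicValNat 2 (Fintype.card F ^ 2 - 1) := by
    obtain ⟨P⟩ : Nonempty (Sylow 2 ↥C) := inferInstance
    have hRp : IsPGroup 2 ↥R := fun x => by
      obtain ⟨-, t, ht⟩ := x.2
      exact ⟨t, Subtype.ext ht⟩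
    have hPR : (P : Subgroup ↥C).map C.subtype ≤ R := by
      rintro _ ⟨x, hx, rfl⟩
      obtain ⟨t, ht⟩ := P.2 ⟨x, hx⟩
      exact ⟨x.2, t, by rw [← map_pow, show x ^ 2 ^ t = 1 from congrArg Subtype.val ht, map_one]⟩
    have h1 := Subgroup.card_le_of_le hPR
    rw [Subgroup.card_map_of_injective C.subtype_injective, P.card_eq_multiplicity,
      Nat.factorization_def _ Nat.prime_two, hCcard] at h1
    obtain ⟨k, hk⟩ := IsPGroup.iff_card.1 hRp
    refine le_antisymm ?_ h1
    rw [hk]
    refine Nat.pow_le_pow_right (by norm_num) ((padicValNat_dvd_iff_le ?_).1 ?_)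
    · have := Nat.one_lt_pow (show 2 ≠ 0 by norm_num) (Fintype.one_lt_card (α := F)); omega
    · rw [← hk, ← hCcard]
      exact Subgroup.card_dvd_of_le fun x hx => hx.1
  have hScard : Nat.card ↥S = 2 * Nat.card ↥R := by
    let f : Bool × ↥R → ↥S := fun p => ⟨if p.1 then p.2.1 * J else p.2.1, by
      split_ifs
      · exact memS.2 (Or.inr (by rw [mul_assoc, hJJ, mul_one]; exact p.2.2))
      · exact memS.2 (Or.inl p.2.2)⟩
    rw [← Nat.card_eq_of_bijective f ⟨?_, ?_⟩, Nat.card_prod]
    · simp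
    · rintro ⟨u, a⟩ ⟨v, b⟩ e
      have e' := congrArg Subtype.val e
      cases u <;> cases v <;> simp only [f, Bool.false_eq_true, if_false, if_true] at e'
      · exact Prod.ext rfl (Subtype.ext e')
      · refine absurd ?_ hJnC
        rw [show J = b.1⁻¹ * a.1 by rw [e', inv_mul_cancel_left]]
        exact mul_mem (inv_mem b.2.1) a.2.1
      · refine absurd ?_ hJnC
        rw [show J = a.1⁻¹ * b.1 by rw [← e', inv_mul_cancel_left]]
        exact mul_mem (inv_mem a.2.1) b.2.1
      · exact Prod.ext rfl (Subtype.ext (mul_right_cancel e'))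
    · rintro ⟨x, hx⟩
      rcases memS.1 hx with hx' | hx'
      · exact ⟨(false, ⟨x, hx'⟩), rfl⟩
      · exact ⟨(true, ⟨_, hx'⟩), Subtype.ext (by show x * J * J = x; rw [mul_assoc, hJJ, mul_one])⟩
  have hq : 1 < Fintype.card F := Fintype.one_lt_card
  set a := padicValNat 2 (Fintype.card F - 1) with hadef
  have ha : a = 1 := by
    obtain ⟨j, hj⟩ : ∃ j, Fintype.card F - 1 = 2 * (2 * j + 1) := ⟨Fintype.card F / 4, by omega⟩
    rw [hadef, hj, padicValNat.mul (by norm_num) (by omega), padicValNat.self (by norm_num),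
      padicValNat.eq_zero_of_not_dvd (by omega : ¬ 2 ∣ 2 * j + 1)]
  have hb : 2 ≤ padicValNat 2 (Fintype.card F + 1) :=
    (padicValNat_dvd_iff_le (by omega)).1 (by norm_num; omega)
  have hv : padicValNat 2 (Fintype.card F ^ 2 - 1) = padicValNat 2 (Fintype.card F + 1) + a := by
    rw [show Fintype.card F ^ 2 - 1 = (Fintype.card F + 1) * (Fintype.card F - 1) from Nat.sq_sub_sq _ 1,
      padicValNat.mul (by omega) (by omega)]
  have hcardS : Nat.card ↥S = 2 ^ padicValNat 2 (Nat.card (GL (Fin 2) F)) := by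
    rw [hScard, hRcard, card_gl hodd, expo_two hq hodd, ← pow_succ']
    congr 1
    omega
  -- an element of large order
  obtain ⟨r, hrR, hr4⟩ : ∃ r ∈ R, r ^ 4 ≠ 1 := by
    by_contra hc
    push Not at hc
    have hsub : (R : Set (GL (Fin 2) F)) ⊆ {1, sc F (Fin 2) (-1), rot F, sc F (Fin 2) (-1) * rot F} := by
      intro x hx
      obtain ⟨x1, x0⟩ := gl2_comm_rot.1 (memC.1 hx.1)
      have h := congrArg (fun y : GL (Fin 2) F => (y : Matrix (Fin 2) (Fin 2) F)) (hc x hx)
      simp only [Units.val_pow_eq_pow_val, Units.val_one] at h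
      set u := (x : Matrix (Fin 2) (Fin 2) F) 0 0 with hu
      set v := (x : Matrix (Fin 2) (Fin 2) F) 1 0 with hv'
      have hx' : (x : Matrix (Fin 2) (Fin 2) F) = !![u, -v; v, u] := by
        ext i j; fin_cases i <;> fin_cases j
        exacts [rfl, x0, rfl, x1]
      rw [hx', show (4 : ℕ) = 2 + 2 from rfl, pow_add, sq] at h
      have h00 := congrFun (congrFun h 0) 0
      have h10 := congrFun (congrFun h 1) 0
      simp [Matrix.mul_apply, Fin.sum_univ_two] at h00 h10
      have hP : 4 * (u * v) * (u * u - v * v) = 0 := by linear_combination h10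
      have hT : (u * u - v * v) * (u * u - v * v) - 4 * ((u * v) * (u * v)) = 1 := by linear_combination h00
      have h4ne : (4 : F) ≠ 0 := by
        rw [show (4 : F) = 2 * 2 by norm_num]; exact mul_ne_zero h2 h2
      rcases mul_eq_zero.1 hP with huv | huv
      · rcases mul_eq_zero.1 ((mul_eq_zero.1 huv).resolve_left h4ne) with h0 | h0
        · rw [h0] at hT
          have : (v * v - 1) * (v * v + 1) = 0 := by linear_combination hT
          rcases mul_eq_zero.1 this with e | e
          · rcases mul_self_eq_one_iff.1 (by linear_combination e : v * v = 1) with e' | e'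
            · refine Or.inr (Or.inr (Or.inl (Units.ext ?_)))
              rw [hx', rot_val, h0, e']
            · refine Or.inr (Or.inr (Or.inr (Units.ext ?_)))
              rw [Units.val_mul, sc_val, hx', rot_val, h0, e']
              ext i j; fin_cases i <;> fin_cases j <;> simp
          · exact absurd ⟨v, by linear_combination -e⟩ hsq
        · rw [h0] at hT
          have : (u * u - 1) * (u * u + 1) = 0 := by linear_combination hT
          rcases mul_eq_zero.1 this with e | e
          · rcases mul_self_eq_one_iff.1 (by linear_combination e : u * u = 1) with e' | e'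
            · refine Or.inl (Units.ext ?_)
              rw [hx', h0, e', Units.val_one]
              ext i j; fin_cases i <;> fin_cases j <;> simp
            · refine Or.inr (Or.inl (Units.ext ?_))
              rw [hx', sc_val, h0, e']
              ext i j; fin_cases i <;> fin_cases j <;> simp
          · exact absurd ⟨u, by linear_combination -e⟩ hsq
      · exfalso
        rw [huv] at hT
        exact hsq ⟨2 * (u * v), by linear_combination hT⟩
    have h1 := Set.ncard_le_ncard hsub (Set.toFinite _)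
    have h4' : ({1, sc F (Fin 2) (-1), rot F, sc F (Fin 2) (-1) * rot F} : Set (GL (Fin 2) F)).ncard ≤ 4 :=
      (Set.ncard_insert_le _ _).trans (Nat.add_le_add_right ((Set.ncard_insert_le _ _).trans
        (Nat.add_le_add_right ((Set.ncard_insert_le _ _).trans (by rw [Set.ncard_singleton])) 1)) 1)
    have h8 : 8 ≤ Nat.card ↥R := by
      rw [hRcard, hv, show 8 = 2 ^ 3 from rfl]
      exact Nat.pow_le_pow_right (by norm_num) (by omega)
    rw [← Nat.card_coe_set_eq] at h1
    have h8' : 8 ≤ Nat.card ↥(R : Set (GL (Fin 2) F)) := h8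
    omega
  have outside : ∀ x ∈ S, x ^ 4 ≠ 1 → x ∈ R := by
    intro x hx h
    rcases memS.1 hx with hx' | hx'
    · exact hx'
    exfalso
    refine h ?_
    obtain ⟨y1, y0⟩ := gl2_comm_rot.1 (memC.1 hx'.1)
    set y := x * J
    have hxy : x = y * J := by rw [mul_assoc, hJJ, mul_one]
    have hsq' : x * x = sc F (Fin 2) (GeneralLinearGroup.det y) := by
      rw [hxy]
      apply Units.ext
      rw [Units.val_mul, Units.val_mul, sc_val, GeneralLinearGroup.val_det_apply, det_fin_two, y1, y0, hJdef, refl_val]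
      ext i j; fin_cases i <;> fin_cases j <;> simp [Matrix.mul_apply, Fin.sum_univ_two, y1, y0] <;> ring
    obtain ⟨t, ht⟩ := hx'.2
    have hd : GeneralLinearGroup.det y * GeneralLinearGroup.det y = 1 := by
      have h1 : GeneralLinearGroup.det y ^ 2 ^ t = 1 := by rw [← map_pow, ht, map_one]
      have h2' : GeneralLinearGroup.det y ^ (Fintype.card F - 1) = 1 := by
        rw [← Fintype.card_units]; exact pow_card_eq_one
      have hgcd := pow_gcd_eq_one.2 ⟨h1, h2'⟩
      obtain ⟨i, hi, hgi⟩ := (Nat.dvd_prime_pow Nat.prime_two).1 (Nat.gcd_dvd_left (2 ^ t) (Fintype.card F - 1))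
      have hi1 : i ≤ 1 := by
        have hd2 : 2 ^ i ∣ Fintype.card F - 1 := hgi ▸ Nat.gcd_dvd_right _ _
        exact le_of_le_of_eq ((padicValNat_dvd_iff_le (by omega)).1 hd2) ha
      rw [← sq]
      obtain ⟨c, hc⟩ : 2 ^ i ∣ 2 := by interval_cases i <;> norm_num
      rw [show GeneralLinearGroup.det y ^ 2 = (GeneralLinearGroup.det y ^ Nat.gcd (2 ^ t) (Fintype.card F - 1)) ^ c by
        rw [← pow_mul, hgi, ← hc], hgcd, one_pow]
    rw [show (4 : ℕ) = 2 + 2 from rfl, pow_add, sq, hsq', ← map_mul, hd, map_one]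
  have hrns : ∀ x : GL (Fin 2) F, x * r = r * x → x ∈ C := by
    intro x hx
    obtain ⟨r1, r0⟩ := gl2_comm_rot.1 (memC.1 hrR.1)
    have hr10 : (r : Matrix (Fin 2) (Fin 2) F) 1 0 ≠ 0 := by
      intro e
      apply hr4
      have e1 : r * r = sc F (Fin 2) (GeneralLinearGroup.det r) := by
        apply Units.ext
        rw [Units.val_mul, sc_val, GeneralLinearGroup.val_det_apply, det_fin_two]
        ext i j; fin_cases i <;> fin_cases j <;> simp [Matrix.mul_apply, Fin.sum_univ_two, r1, r0, e]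
      have hrs : r = sc F (Fin 2) (Units.mk0 ((r : Matrix (Fin 2) (Fin 2) F) 0 0) (fun e0 => by
          have hd : (r : Matrix (Fin 2) (Fin 2) F).det ≠ 0 := ((Matrix.isUnit_iff_isUnit_det _).1 r.isUnit).ne_zero
          apply hd; rw [det_fin_two, r1, r0, e, e0]; simp)) := by
        apply Units.ext
        rw [sc_val]
        ext i j; fin_cases i <;> fin_cases j <;> simp [r1, r0, e]
      obtain ⟨t, ht⟩ := hrR.2
      set l := Units.mk0 ((r : Matrix (Fin 2) (Fin 2) F) 0 0) _
      have hl : l ^ 2 ^ t = 1 := by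
        have ht' : sc F (Fin 2) (l ^ 2 ^ t) = 1 := by rw [map_pow, ← hrs, ht]
        have := congrArg (fun y : GL (Fin 2) F => (y : Matrix (Fin 2) (Fin 2) F) 0 0) ht'
        simp only [sc_val, Units.val_one, Matrix.smul_apply, Matrix.one_apply_eq, smul_eq_mul, mul_one] at this
        exact Units.ext (by simpa using this)
      have h2' : l ^ (Fintype.card F - 1) = 1 := by rw [← Fintype.card_units]; exact pow_card_eq_one
      have hgcd := pow_gcd_eq_one.2 ⟨hl, h2'⟩
      obtain ⟨i, hi, hgi⟩ := (Nat.dvd_prime_pow Nat.prime_two).1 (Nat.gcd_dvd_left (2 ^ t) (Fintype.card F - 1))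
      have hi1 : i ≤ 1 := by
        have hd2 : 2 ^ i ∣ Fintype.card F - 1 := hgi ▸ Nat.gcd_dvd_right _ _
        exact le_of_le_of_eq ((padicValNat_dvd_iff_le (by omega)).1 hd2) ha
      obtain ⟨c, hc⟩ : 2 ^ i ∣ 4 := by interval_cases i <;> norm_num
      rw [hrs, ← map_pow, show l ^ 4 = (l ^ Nat.gcd (2 ^ t) (Fintype.card F - 1)) ^ c by rw [← pow_mul, hgi, ← hc],
        hgcd, one_pow, map_one]
    refine memC.2 (gl2_comm_rot.2 ?_)
    have h' := congrArg (fun y : GL (Fin 2) F => (y : Matrix (Fin 2) (Fin 2) F)) hx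
    simp only [Units.val_mul] at h'
    have h00 := congrFun (congrFun h' 0) 0
    have h10 := congrFun (congrFun h' 1) 0
    simp [Matrix.mul_apply, Fin.sum_univ_two, r1, r0] at h00 h10
    constructor
    · exact mul_left_cancel₀ hr10 (by linear_combination h10)
    · exact mul_left_cancel₀ hr10 (by linear_combination h00)
  have hrotR : rot F ∈ R := ⟨rotC, 2, by
    rw [show (2 : ℕ) ^ 2 = 2 + 2 from rfl, pow_add, sq, rot_sq, ← map_mul]; simp⟩
  have hrefl_comm : ∀ {v : GL (Fin 2) F}, v ∈ C → J * v = v * J → ∃ l : Fˣ, v = sc F (Fin 2) l := by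
    intro v hv e
    obtain ⟨v1, v0⟩ := gl2_comm_rot.1 (memC.1 hv)
    have h' := congrFun (congrFun (congrArg (fun y : GL (Fin 2) F => (y : Matrix (Fin 2) (Fin 2) F)) e) 1) 0
    simp [hJdef, refl_val, Matrix.mul_apply, Fin.sum_univ_two] at h'
    have hv0 : (v : Matrix (Fin 2) (Fin 2) F) 1 0 = 0 :=
      (mul_eq_zero.1 (show (2 : F) * (v : Matrix (Fin 2) (Fin 2) F) 1 0 = 0 by linear_combination -h')).resolve_left h2
    have hne : (v : Matrix (Fin 2) (Fin 2) F) 0 0 ≠ 0 := fun e0 => by
      have hd : (v : Matrix (Fin 2) (Fin 2) F).det ≠ 0 := ((Matrix.isUnit_iff_isUnit_det _).1 v.isUnit).ne_zero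
      apply hd; rw [det_fin_two, v1, v0, hv0, e0]; simp
    refine ⟨Units.mk0 _ hne, Units.ext ?_⟩
    rw [sc_val]
    ext i j; fin_cases i <;> fin_cases j <;> simp [v1, v0, hv0]
  refine ⟨S, hcardS, fun g hg => ?_, fun x hx => ?_, fun u hu => ?_, ?_⟩
  · have hr' : g * r * g⁻¹ ∈ R := outside _ (hg r (Or.inl hrR)) fun e => hr4 (by
      rw [conj_pow] at e; exact conj_eq_one_iff.1 e)
    have hi' : g * rot F * g⁻¹ ∈ C := by
      -- it commutes with the image of `r`, which generates the same centraliser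
      have h1 : (g * rot F * g⁻¹) * (g * r * g⁻¹) = (g * r * g⁻¹) * (g * rot F * g⁻¹) := by
        rw [show (g * rot F * g⁻¹) * (g * r * g⁻¹) = g * (rot F * r) * g⁻¹ by group,
          show (g * r * g⁻¹) * (g * rot F * g⁻¹) = g * (r * rot F) * g⁻¹ by group, memC.1 hrR.1]
      obtain ⟨p1, p0⟩ := gl2_comm_rot.1 (memC.1 hr'.1)
      have hp : ((g * r * g⁻¹ : GL (Fin 2) F) : Matrix (Fin 2) (Fin 2) F) 1 0 ≠ 0 := by
        intro e
        obtain ⟨t, ht⟩ := hr'.2
        have hd : ((g * r * g⁻¹ : GL (Fin 2) F) : Matrix (Fin 2) (Fin 2) F) 0 0 ≠ 0 := fun e0 => by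
          have hd : ((g * r * g⁻¹ : GL (Fin 2) F) : Matrix (Fin 2) (Fin 2) F).det ≠ 0 :=
            ((Matrix.isUnit_iff_isUnit_det _).1 (g * r * g⁻¹).isUnit).ne_zero
          apply hd; rw [det_fin_two, p1, p0, e, e0]; simp
        have hs : g * r * g⁻¹ = sc F (Fin 2) (Units.mk0 _ hd) := by
          apply Units.ext
          rw [sc_val]
          ext i j; fin_cases i <;> fin_cases j <;> simp [p1, p0, e, -Units.val_mul]
        have hr0 : r = sc F (Fin 2) (Units.mk0 _ hd) := by
          calc r = g⁻¹ * (g * r * g⁻¹) * g := by group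
            _ = g⁻¹ * sc F (Fin 2) (Units.mk0 _ hd) * g := congrArg (fun y => g⁻¹ * y * g) hs
            _ = _ := by rw [mul_assoc, sc_comm, inv_mul_cancel_left]
        have hall := hrns (GeneralLinearGroup.mkOfDetNeZero !![1, 1; 0, 1] (by simp [det_fin_two]))
          (by rw [hr0, sc_comm])
        have := (gl2_comm_rot.1 (memC.1 hall)).2
        simp at this
      refine memC.2 (gl2_comm_rot.2 ?_)
      have h' := congrArg (fun y : GL (Fin 2) F => (y : Matrix (Fin 2) (Fin 2) F)) h1
      generalize g * rot F * g⁻¹ = z at h' ⊢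
      generalize g * r * g⁻¹ = p at h' p1 p0 hp
      simp only [Units.val_mul] at h'
      have h00 := congrFun (congrFun h' 0) 0
      have h10 := congrFun (congrFun h' 1) 0
      simp [Matrix.mul_apply, Fin.sum_univ_two, p1, p0] at h00 h10
      constructor
      · exact mul_left_cancel₀ hp (by linear_combination h10)
      · exact mul_left_cancel₀ hp (by linear_combination h00)
    obtain ⟨k, hkC, hgk⟩ : ∃ k ∈ C, g = k ∨ g = k * J := by
      obtain ⟨z1, z0⟩ := gl2_comm_rot.1 (memC.1 hi')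
      have hzz : (g * rot F * g⁻¹) * (g * rot F * g⁻¹) = sc F (Fin 2) (-1) := by
        rw [show (g * rot F * g⁻¹) * (g * rot F * g⁻¹) = g * (rot F * rot F) * g⁻¹ by group, rot_sq, ← sc_comm,
          mul_inv_cancel_right]
      generalize hz : g * rot F * g⁻¹ = z at z1 z0 hzz
      have h' := congrArg (fun y : GL (Fin 2) F => (y : Matrix (Fin 2) (Fin 2) F)) hzz
      simp only [Units.val_mul, sc_val] at h'
      have h00 := congrFun (congrFun h' 0) 0
      have h10 := congrFun (congrFun h' 1) 0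
      simp [Matrix.mul_apply, Fin.sum_univ_two, z1, z0] at h00 h10
      have huv : 2 * ((z : Matrix (Fin 2) (Fin 2) F) 0 0 * (z : Matrix (Fin 2) (Fin 2) F) 1 0) = 0 := by
        linear_combination h10
      rcases mul_eq_zero.1 ((mul_eq_zero.1 huv).resolve_left h2) with h0 | h0
      · rw [h0] at h00
        rcases mul_self_eq_one_iff.1 (by linear_combination -h00 :
            (z : Matrix (Fin 2) (Fin 2) F) 1 0 * (z : Matrix (Fin 2) (Fin 2) F) 1 0 = 1) with e | e
        · refine ⟨g, memC.2 ?_, Or.inl rfl⟩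
          have : z = rot F := by
            apply Units.ext; rw [rot_val]
            ext i j; fin_cases i <;> fin_cases j <;> simp [z1, z0, h0, e]
          rw [← hz] at this
          exact mul_inv_eq_iff_eq_mul.1 this
        · refine ⟨g * J, memC.2 ?_, Or.inr (by rw [mul_assoc, hJJ, mul_one])⟩
          have hzr : z = sc F (Fin 2) (-1) * rot F := by
            apply Units.ext; rw [Units.val_mul, sc_val, rot_val]
            ext i j; fin_cases i <;> fin_cases j <;> simp [z1, z0, h0, e]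
          rw [← hz, mul_inv_eq_iff_eq_mul] at hzr
          have e3 : J * rot F = sc F (Fin 2) (-1) * (rot F * J) := by
            rw [← mul_assoc (sc F (Fin 2) (-1)), ← refl_rot, mul_assoc (J * rot F), hJJ, mul_one]
          rw [mul_assoc, e3, ← mul_assoc g, ← sc_comm (-1) g, mul_assoc _ g, ← mul_assoc g (rot F), hzr,
            mul_assoc _ (rot F), mul_assoc _ (rot F * g), ← mul_assoc (sc F (Fin 2) (-1)) (sc F (Fin 2) (-1)), ← map_mul]
          simp [mul_assoc]
      · rw [h0] at h00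
        exact absurd ⟨_, (by linear_combination -h00 : (-1 : F) = (z : Matrix (Fin 2) (Fin 2) F) 0 0 * (z : Matrix (Fin 2) (Fin 2) F) 0 0)⟩ hsq
    have hJS : J ∈ S := Or.inr (by rw [hJJ]; exact one_mem _)
    have hkJ : k * (J * k⁻¹ * J) ∈ R := by
      have : k * J * k⁻¹ ∈ S := by
        rcases hgk with rfl | rfl
        · exact hg J hJS
        · have := hg J hJS
          rw [_root_.mul_inv_rev, mul_assoc k J J, hJJ, mul_one, ← mul_assoc, hJi] at this
          exact this
      rcases memS.1 this with h1 | h1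
      · refine absurd ?_ hJnC
        rw [show J = k⁻¹ * (k * J * k⁻¹) * k by group]
        exact mul_mem (mul_mem (inv_mem hkC) h1.1) hkC
      · simpa [mul_assoc] using h1
    obtain ⟨s, v, hk, ⟨i, hsi⟩, ⟨j, hvj⟩, hs2, hvo⟩ := two_power_split k
    have hsC : s ∈ C := hsi ▸ C.zpow_mem hkC i
    have hvC : v ∈ C := hvj ▸ C.zpow_mem hkC j
    have hsR : s ∈ R := ⟨hsC, hs2⟩
    have hv1 : v * (J * v⁻¹ * J) = 1 := by
      have hA : ∀ {y}, y ∈ C → J * y⁻¹ * J ∈ C := fun hy => hJC (inv_mem hy)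
      have e : k * (J * k⁻¹ * J) = s * (J * s⁻¹ * J) * (v * (J * v⁻¹ * J)) := by
        rw [hk, show J * (s * v)⁻¹ * J = J * v⁻¹ * J * (J * s⁻¹ * J) by
          rw [_root_.mul_inv_rev]; simp only [mul_assoc]; rw [← mul_assoc J J, hJJ, one_mul]]
        rw [commC (hA hvC) (hA hsC), mul_assoc s v, ← mul_assoc v, commC hvC (hA hsC)]
        simp only [mul_assoc]
      have hmemR : v * (J * v⁻¹ * J) ∈ R := by
        have := mul_mem (inv_mem (mul_mem hsR (hJR (inv_mem hsR)))) (e ▸ hkJ)
        rwa [inv_mul_cancel_left] at this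
      refine eq_one_of_two_odd hmemR.2 (Odd.of_dvd_nat hvo (orderOf_dvd_of_pow_eq_one ?_))
      rw [(show Commute v (J * v⁻¹ * J) from commC hvC (hA hvC)).mul_pow, pow_orderOf_eq_one, one_mul,
        show J * v⁻¹ * J = J * v⁻¹ * J⁻¹ by rw [hJi], conj_pow, _root_.inv_pow, pow_orderOf_eq_one]
      group
    obtain ⟨l, hl⟩ := hrefl_comm hvC (by
      have e := congrArg (fun y => y * (J * v)) hv1
      simp only [one_mul, mul_assoc] at e
      rw [← mul_assoc J J, hJJ, one_mul, inv_mul_cancel, mul_one] at e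
      exact e.symm)
    rcases hgk with rfl | rfl
    · exact ⟨s, Or.inl hsR, l, by rw [hk, hl]⟩
    · refine ⟨s * J, Or.inr (by rw [mul_assoc, hJJ, mul_one]; exact hsR), l, ?_⟩
      rw [hk, hl, mul_assoc, mul_assoc, sc_comm]
  · have hxC : x ∈ C := memC.2 (hx _ (Or.inl hrotR) (Units.ext (by simp [rot_val, det_fin_two])))
    obtain ⟨a', b', hab⟩ := FiniteField.exists_root_sum_quadratic (R := F)
      (f := Polynomial.X ^ 2) (g := Polynomial.X ^ 2 + 1) (Polynomial.degree_X_pow 2)
      (by rw [← Polynomial.C_1]; exact Polynomial.degree_X_pow_add_C (by norm_num) _) (Nat.odd_iff.1 hodd)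
    simp at hab
    have hdk : (!![a', -b'; b', a'] : Matrix (Fin 2) (Fin 2) F).det = -1 := by
      simp [det_fin_two]; linear_combination hab
    let k := GeneralLinearGroup.mkOfDetNeZero !![a', -b'; b', a'] (by rw [hdk]; exact neg_ne_zero.2 one_ne_zero)
    have hkC : k ∈ C := memC.2 (gl2_comm_rot.2 ⟨rfl, rfl⟩)
    have hkd : GeneralLinearGroup.det k = -1 := Units.ext (by simpa [k] using hdk)
    obtain ⟨s, v, hk, ⟨i, hsi⟩, -, hs2, hvo⟩ := two_power_split k
    have hsC : s ∈ C := hsi ▸ C.zpow_mem hkC i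
    have hdv : GeneralLinearGroup.det v = 1 := by
      refine eq_one_of_two_odd ?_ (hvo.of_dvd_nat (orderOf_map_dvd _ _))
      obtain ⟨t, ht⟩ := hs2
      refine ⟨t + 1, ?_⟩
      have e : GeneralLinearGroup.det v = (GeneralLinearGroup.det s)⁻¹ * -1 := by
        rw [← hkd, hk, map_mul, inv_mul_cancel_left]
      rw [e, mul_pow, _root_.inv_pow, pow_succ, pow_mul, ← map_pow, ht, map_one, one_pow, inv_one, one_mul,
        mul_comm, pow_mul]
      simp
    have hsd : GeneralLinearGroup.det s = -1 := by rw [← hkd, hk, map_mul, hdv, mul_one]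
    have e := hx (s * J) (Or.inr (by rw [mul_assoc, hJJ, mul_one]; exact ⟨hsC, hs2⟩))
      (by rw [map_mul, hsd]; apply Units.ext; simp [hJdef, refl_val, det_fin_two])
    refine hrefl_comm hxC ?_
    rw [← mul_assoc, commC hxC hsC, mul_assoc, mul_assoc, mul_right_inj] at e
    exact e.symm
  · obtain ⟨t, ht⟩ := hu
    have h2' : u ^ (Fintype.card F - 1) = 1 := by rw [← Fintype.card_units]; exact pow_card_eq_one
    have hgcd := pow_gcd_eq_one.2 ⟨ht, h2'⟩
    obtain ⟨i, hi, hgi⟩ := (Nat.dvd_prime_pow Nat.prime_two).1 (Nat.gcd_dvd_left (2 ^ t) (Fintype.card F - 1))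
    have hi1 : i ≤ 1 := by
      have hd2 : 2 ^ i ∣ Fintype.card F - 1 := hgi ▸ Nat.gcd_dvd_right _ _
      exact le_of_le_of_eq ((padicValNat_dvd_iff_le (by omega)).1 hd2) ha
    rw [hgi] at hgcd
    interval_cases i
    · exact ⟨1, one_mem _, by rw [map_one]; simpa using hgcd.symm⟩
    · rcases mul_self_eq_one_iff.1 (by simpa [sq] using congrArg Units.val hgcd : (u : F) * u = 1) with e | e
      · exact ⟨1, one_mem _, by rw [map_one]; exact Units.ext e.symm⟩
      · exact ⟨J, Or.inr (by rw [hJJ]; exact one_mem _), Units.ext (by simp [hJdef, refl_val, det_fin_two, e])⟩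
  · refine ⟨rot F, Or.inl hrotR, Units.ext (by simp [rot_val, det_fin_two]), ?_⟩
    rintro (h | h) <;>
      have := congrArg (fun y : GL (Fin 2) F => (y : Matrix (Fin 2) (Fin 2) F) 1 0) h <;>
      simp [rot_val, sc_val] at this

/-- Sylow 2-subgroups in every dimension a power of two, at least two -/
theorem good_exists (hodd : Odd (Fintype.card F)) :
    ∀ s : ℕ, ∃ S : Subgroup (GL (Fin (2 ^ (s + 1))) F), Good S
  | 0 => by
    rcases (show Fintype.card F % 4 = 1 ∨ Fintype.card F % 4 = 3 by have := Nat.odd_iff.1 hodd; omega) with h | h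
    · obtain ⟨S, hS⟩ := good_split h
      exact ⟨_, hS.reindex finSumFinEquiv⟩
    · exact good_nonsplit h
  | s + 1 => by
    obtain ⟨S, hS⟩ := good_exists hodd s
    have hexp := expo_double (q := Fintype.card F) Fintype.one_lt_card hodd s
    have hG := hS.step (two_ne_zero_of_odd hodd) hodd ⟨2 ^ s, by rw [Fintype.card_fin, pow_succ]; ring⟩
      (by rw [Fintype.card_fin, ← pow_succ']; exact hexp)
    exact ⟨_, hG.reindex ((finSumFinEquiv).trans (finCongr (by rw [pow_succ 2 (s + 1)]; ring)))⟩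

/-- in dimension `2^w ≥ 4` a Sylow 2-subgroup of `SL` is its own normaliser -/
theorem sl_selfnorm (hodd : Odd (Fintype.card F)) (s : ℕ) :
    ∃ T : Subgroup (SpecialLinearGroup (Fin (2 ^ (s + 1)) ⊕ Fin (2 ^ (s + 1))) F), IsPGroup 2 ↥T ∧ ¬ 2 ∣ T.index ∧
      Subgroup.normalizer (T : Set (SpecialLinearGroup (Fin (2 ^ (s + 1)) ⊕ Fin (2 ^ (s + 1))) F)) ≤ T := by
  obtain ⟨S, hS⟩ := good_exists hodd s
  exact selfnorm_special (two_ne_zero_of_odd hodd) hodd hS ⟨s, Fintype.card_fin _⟩
    (by rw [Fintype.card_fin, ← pow_succ']; exact expo_double Fintype.one_lt_card hodd s)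

end Cfsg.Agent.KnownA.PronormalLinear
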