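import Mathlib

/-!
Two equal diagonal blocks: the doubling of a group of matrices.
-/

set_option autoImplicit false

namespace Cfsg.Agent.KnownA.PronormalLinear

open Matrix

variable {F : Type*} [Field F] {m : Type*} [Fintype m] [DecidableEq m]

/-- the scalar matrices -/
def sc (F : Type*) [Field F] (m : Type*) [Fintype m] [DecidableEq m] : Fˣ →* GL m F :=
  Units.map (Matrix.scalar m : F →+* Matrix m m F).toMonoidHom

theorem sc_val (l : Fˣ) : (sc F m l : Matrix m m F) = (l : F) • (1 : Matrix m m F) := by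
  simp [sc, Matrix.scalar_apply, Matrix.smul_one_eq_diagonal]

theorem sc_comm (l : Fˣ) (g : GL m F) : sc F m l * g = g * sc F m l := by
  apply Units.ext
  rw [Units.val_mul, Units.val_mul, sc_val, smul_mul_assoc, one_mul, mul_smul_comm, mul_one]

theorem det_sc (l : Fˣ) : GeneralLinearGroup.det (sc F m l) = l ^ Fintype.card m := by
  apply Units.ext
  simp [sc, Matrix.scalar_apply]

/-- block diagonal matrices -/
def blk : GL m F × GL m F →* GL (m ⊕ m) F where
  toFun p :=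
    { val := fromBlocks (p.1 : Matrix m m F) 0 0 (p.2 : Matrix m m F)
      inv := fromBlocks ((p.1⁻¹ : GL m F) : Matrix m m F) 0 0 ((p.2⁻¹ : GL m F) : Matrix m m F)
      val_inv := by simp [fromBlocks_multiply, fromBlocks_one]
      inv_val := by simp [fromBlocks_multiply, fromBlocks_one] }
  map_one' := Units.ext (by simp [fromBlocks_one])
  map_mul' p q := Units.ext (by simp [fromBlocks_multiply])

theorem blk_val (a b : GL m F) :
    (blk (a, b) : Matrix (m ⊕ m) (m ⊕ m) F) = fromBlocks (a : Matrix m m F) 0 0 (b : Matrix m m F) := rfl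

/-- the block transposition -/
def wB (F : Type*) [Field F] (m : Type*) [Fintype m] [DecidableEq m] : GL (m ⊕ m) F where
  val := fromBlocks 0 1 1 0
  inv := fromBlocks 0 1 1 0
  val_inv := by simp [fromBlocks_multiply, fromBlocks_one]
  inv_val := by simp [fromBlocks_multiply, fromBlocks_one]

theorem wB_val : (wB F m : Matrix (m ⊕ m) (m ⊕ m) F) = fromBlocks 0 1 1 0 := rfl

theorem wB_sq : wB F m * wB F m = 1 := Units.ext (by simp [wB_val, fromBlocks_multiply, fromBlocks_one])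

theorem wB_blk (a b : GL m F) : wB F m * blk (a, b) = blk (b, a) * wB F m :=
  Units.ext (by simp [wB_val, blk_val, fromBlocks_multiply])

theorem blk_inj {a b c d : GL m F} (e : blk (a, b) = blk (c, d)) : a = c ∧ b = d := by
  have e' := congrArg (fun g : GL (m ⊕ m) F => (g : Matrix (m ⊕ m) (m ⊕ m) F)) e
  simp only [blk_val, fromBlocks_inj] at e'
  exact ⟨Units.ext e'.1, Units.ext e'.2.2.2⟩

theorem blk_ne_blk_wB [Nonempty m] (a b c d : GL m F) : blk (a, b) ≠ blk (c, d) * wB F m := by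
  intro e
  have e' := congrArg (fun g : GL (m ⊕ m) F => (g : Matrix (m ⊕ m) (m ⊕ m) F)) e
  simp only [Units.val_mul, blk_val, wB_val, fromBlocks_multiply, fromBlocks_inj, mul_zero, zero_mul, add_zero] at e'
  exact a.ne_zero e'.1

theorem det_blk (a b : GL m F) :
    GeneralLinearGroup.det (blk (a, b)) = GeneralLinearGroup.det a * GeneralLinearGroup.det b := by
  apply Units.ext
  simp [blk_val, det_fromBlocks_zero₁₂]

theorem det_wB (hm : Even (Fintype.card m)) : GeneralLinearGroup.det (wB F m) = 1 := by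
  apply Units.ext
  have e : (wB F m : Matrix (m ⊕ m) (m ⊕ m) F) = fromBlocks 1 1 0 1 * fromBlocks 1 0 (-1) 1 *
      fromBlocks 1 1 0 1 * fromBlocks (-1) 0 0 1 := by
    simp [wB_val, fromBlocks_multiply]
  simp [e, det_fromBlocks_zero₁₂, det_fromBlocks_zero₂₁, det_neg, hm.neg_one_pow]

/-- the sign matrix -/
def zB (F : Type*) [Field F] (m : Type*) [Fintype m] [DecidableEq m] : GL (m ⊕ m) F := blk (sc F m (-1), 1)

theorem zB_val : (zB F m : Matrix (m ⊕ m) (m ⊕ m) F) = fromBlocks (-1) 0 0 1 := by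
  rw [zB, blk_val, sc_val]
  simp

theorem neg_gl_val {n : Type*} [Fintype n] [DecidableEq n] (g : GL n F) : (sc F n (-1) * g : GL n F).1 = -g.1 := by
  rw [Units.val_mul, sc_val]; simp

/-- the doubling of a group -/
def wr (S : Subgroup (GL m F)) : Subgroup (GL (m ⊕ m) F) where
  carrier := {g | ∃ a ∈ S, ∃ b ∈ S, g = blk (a, b) ∨ g = blk (a, b) * wB F m}
  one_mem' := ⟨1, one_mem _, 1, one_mem _, Or.inl (map_one blk).symm⟩
  mul_mem' := by
    rintro _ _ ⟨a, ha, b, hb, rfl | rfl⟩ ⟨c, hc, d, hd, rfl | rfl⟩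
    · exact ⟨_, mul_mem ha hc, _, mul_mem hb hd, Or.inl (map_mul blk (a, b) (c, d)).symm⟩
    · exact ⟨_, mul_mem ha hc, _, mul_mem hb hd, Or.inr (by rw [← mul_assoc]; exact congrArg (· * _) (map_mul blk (a, b) (c, d)).symm)⟩
    · refine ⟨_, mul_mem ha hd, _, mul_mem hb hc, Or.inr ?_⟩
      rw [mul_assoc, wB_blk, ← mul_assoc]
      exact congrArg (· * _) (map_mul blk (a, b) (d, c)).symm
    · refine ⟨_, mul_mem ha hd, _, mul_mem hb hc, Or.inl ?_⟩
      rw [mul_assoc, ← mul_assoc (wB F m), wB_blk, mul_assoc, wB_sq, mul_one]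
      exact (map_mul blk (a, b) (d, c)).symm
  inv_mem' := by
    rintro _ ⟨a, ha, b, hb, rfl | rfl⟩
    · exact ⟨_, inv_mem ha, _, inv_mem hb, Or.inl (map_inv blk (a, b)).symm⟩
    · refine ⟨_, inv_mem hb, _, inv_mem ha, Or.inr ?_⟩
      rw [_root_.mul_inv_rev, inv_eq_of_mul_eq_one_right wB_sq, ← map_inv, Prod.inv_mk, wB_blk]

theorem blk_mem_wr {S : Subgroup (GL m F)} {a b : GL m F} (ha : a ∈ S) (hb : b ∈ S) : blk (a, b) ∈ wr S :=
  ⟨a, ha, b, hb, Or.inl rfl⟩

theorem wB_mem_wr {S : Subgroup (GL m F)} : wB F m ∈ wr S :=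
  ⟨1, one_mem _, 1, one_mem _, Or.inr (by rw [← Prod.one_eq_mk, map_one, one_mul])⟩

theorem blk_mem_wr_iff [Nonempty m] {S : Subgroup (GL m F)} {a b : GL m F} :
    blk (a, b) ∈ wr S ↔ a ∈ S ∧ b ∈ S := by
  refine ⟨?_, fun e => blk_mem_wr e.1 e.2⟩
  rintro ⟨c, hc, d, hd, e | e⟩
  · obtain ⟨rfl, rfl⟩ := blk_inj e
    exact ⟨hc, hd⟩
  · exact absurd e (blk_ne_blk_wB a b c d)

theorem card_wr [Finite F] [Nonempty m] (S : Subgroup (GL m F)) : Nat.card ↥(wr S) = 2 * Nat.card ↥S * Nat.card ↥S := by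
  let f : Bool × ↥S × ↥S → ↥(wr S) := fun p =>
    ⟨if p.1 then blk (p.2.1.1, p.2.2.1) * wB F m else blk (p.2.1.1, p.2.2.1), by
      split_ifs
      exacts [mul_mem (blk_mem_wr p.2.1.2 p.2.2.2) wB_mem_wr, blk_mem_wr p.2.1.2 p.2.2.2]⟩
  rw [← Nat.card_eq_of_bijective f ⟨?_, ?_⟩, Nat.card_prod, Nat.card_prod]
  · simp [mul_assoc]
  · rintro ⟨u, a, b⟩ ⟨v, c, d⟩ e
    have e' := congrArg Subtype.val e
    cases u <;> cases v <;> simp only [f, Bool.false_eq_true, if_false, if_true] at e'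
    · obtain ⟨e1, e2⟩ := blk_inj e'
      exact Prod.ext rfl (Prod.ext (Subtype.ext e1) (Subtype.ext e2))
    · exact absurd e' (blk_ne_blk_wB _ _ _ _)
    · exact absurd e'.symm (blk_ne_blk_wB _ _ _ _)
    · obtain ⟨e1, e2⟩ := blk_inj (mul_right_cancel e')
      exact Prod.ext rfl (Prod.ext (Subtype.ext e1) (Subtype.ext e2))
  · rintro ⟨_, a, ha, b, hb, rfl | rfl⟩
    · exact ⟨(false, ⟨a, ha⟩, ⟨b, hb⟩), rfl⟩
    · exact ⟨(true, ⟨a, ha⟩, ⟨b, hb⟩), rfl⟩

/-- matrices commuting with the sign matrix are block diagonal -/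
theorem eq_blk_of_comm (h2 : (2 : F) ≠ 0) {g : GL (m ⊕ m) F} (hg : g * zB F m = zB F m * g) :
    ∃ a b : GL m F, g = blk (a, b) := by
  have e := congrArg (fun x : GL (m ⊕ m) F => (x : Matrix (m ⊕ m) (m ⊕ m) F)) hg
  simp only [Units.val_mul, zB_val] at e
  rw [← fromBlocks_toBlocks (g : Matrix (m ⊕ m) (m ⊕ m) F)] at e
  simp only [fromBlocks_multiply, fromBlocks_inj, mul_zero, zero_mul, add_zero, zero_add, mul_one, one_mul,
    mul_neg, neg_mul] at e
  have hz : ∀ A : Matrix m m F, A = -A → A = 0 := by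
    intro A hA
    ext i j
    have := congrFun (congrFun hA i) j
    simp only [Matrix.neg_apply] at this
    exact (mul_eq_zero.1 (show (2 : F) * A i j = 0 by linear_combination this)).resolve_left h2
  have h12 := hz _ e.2.1
  have h21 := hz _ e.2.2.1.symm
  have hd : IsUnit (g : Matrix (m ⊕ m) (m ⊕ m) F).det := (Matrix.isUnit_iff_isUnit_det _).1 g.isUnit
  rw [← fromBlocks_toBlocks (g : Matrix (m ⊕ m) (m ⊕ m) F), h12, det_fromBlocks_zero₁₂, IsUnit.mul_iff] at hd
  refine ⟨((Matrix.isUnit_iff_isUnit_det _).2 hd.1).unit, ((Matrix.isUnit_iff_isUnit_det _).2 hd.2).unit, ?_⟩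
  apply Units.ext
  rw [blk_val, IsUnit.unit_spec, IsUnit.unit_spec]
  conv_lhs => rw [← fromBlocks_toBlocks (g : Matrix (m ⊕ m) (m ⊕ m) F), h12, h21]

end Cfsg.Agent.KnownA.PronormalLinear
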