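import Cfsg.Agent.KnownA.AltFacts
import Cfsg.Agent.FGS4.Pronormal
import Cfsg.Prelude.Def_HallClasses

/-!
Reductions for pronormality of subgroups of odd index.
-/

set_option autoImplicit false

namespace Cfsg.Agent.KnownA.PronormalReduce

open Cfsg.Agent.FGS4.Pronormal

variable {G G' : Type*} [Group G] [Group G'] [Finite G]

theorem exists_sylow_le (H : Subgroup G) (hH : Odd H.index) : ∃ P : Sylow 2 G, (P : Subgroup G) ≤ H := by
  haveI := Fact.mk Nat.prime_two
  obtain ⟨R⟩ : Nonempty (Sylow 2 H) := inferInstance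
  obtain ⟨P, hP⟩ := (R.2.map H.subtype).exists_le_sylow
  refine ⟨P, ?_⟩
  suffices (R : Subgroup H).map H.subtype = P by rw [← this]; exact Subgroup.map_subtype_le _
  refine Subgroup.eq_of_le_of_card_ge hP ?_
  rw [Subgroup.card_map_of_injective H.subtype_injective, Sylow.card_eq_multiplicity P, Sylow.card_eq_multiplicity R,
    ← H.index_mul_card, Nat.factorization_mul hH.pos.ne' Nat.card_pos.ne', Finsupp.add_apply,
    Nat.factorization_eq_zero_of_not_dvd (fun h => (Nat.not_even_iff_odd.mpr hH) (even_iff_two_dvd.mpr h)), zero_add]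

/-- It is enough to move `H` by elements normalising one of its Sylow subgroups. -/
theorem criterion {p : ℕ} [Fact p.Prime] (H : Subgroup G) (P : Sylow p G) (hP : (P : Subgroup G) ≤ H)
    (h : ∀ n ∈ Subgroup.normalizer ((P : Subgroup G) : Set G), ∃ y ∈ H ⊔ cmap n H, cmap n H = cmap y H) :
    Cfsg.IsPronormal H := by
  intro g
  set K := H ⊔ H.map (MulAut.conj g).toMonoidHom with hK
  have hgP : ((g • P : Sylow p G) : Subgroup G) ≤ K := le_trans (Subgroup.map_mono hP) le_sup_right
  obtain ⟨⟨x, hxK⟩, hx⟩ := MulAction.exists_smul_eq K (P.subtype (le_trans hP le_sup_left)) ((g • P).subtype hgP)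
  simp_rw [Sylow.smul_subtype, Subgroup.smul_def] at hx
  have hx' : x • P = g • P := Sylow.subtype_injective hx
  have hn : x⁻¹ * g ∈ Subgroup.normalizer ((P : Subgroup G) : Set G) :=
    Sylow.smul_eq_iff_mem_normalizer.mp (by rw [mul_smul, ← hx', inv_smul_smul])
  obtain ⟨y, hy, e⟩ := h _ hn
  have hle : H ⊔ cmap (x⁻¹ * g) H ≤ K := by
    refine sup_le le_sup_left ?_
    rw [← cmap_cmap]
    refine cmap_le_of_mem le_sup_right (inv_mem hxK)
  refine ⟨x * y, mul_mem hxK (hle hy), ?_⟩
  show cmap g H = cmap (x * y) H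
  rw [← cmap_cmap, ← e, cmap_cmap, mul_inv_cancel_left]

/-- A self-normalising Sylow 2-subgroup makes all subgroups of odd index pronormal. -/
theorem pronormal_of_selfnorm {T : Subgroup G} (hT : IsPGroup 2 ↥T) (hidx : ¬ 2 ∣ T.index)
    (hN : Subgroup.normalizer (T : Set G) ≤ T) (H : Subgroup G) (hH : Odd H.index) : Cfsg.IsPronormal H := by
  haveI := Fact.mk Nat.prime_two
  obtain ⟨P, hP⟩ := exists_sylow_le H hH
  let Q : Sylow 2 G := hT.toSylow hidx
  obtain ⟨c, hc⟩ := MulAction.exists_smul_eq G Q P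
  refine criterion H P hP fun n hn => ⟨n, ?_, rfl⟩
  have hn' : c⁻¹ * n * c ∈ Subgroup.normalizer ((Q : Subgroup G) : Set G) := by
    refine Sylow.smul_eq_iff_mem_normalizer.mp ?_
    rw [mul_smul, mul_smul, hc, Sylow.smul_eq_iff_mem_normalizer.mpr hn, ← hc, inv_smul_smul]
  have hQ : c⁻¹ * n * c ∈ (Q : Subgroup G) := hN hn'
  refine Subgroup.mem_sup_left (hP ?_)
  rw [← hc, Sylow.coe_subgroup_smul, Subgroup.pointwise_smul_def]
  exact ⟨_, hQ, by show c * (c⁻¹ * n * c) * c⁻¹ = n; group⟩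

theorem selfnorm_map {f : G →* G'} (hf : Function.Surjective f) (hker : IsPGroup 2 ↥f.ker)
    {T : Subgroup G} (hT : IsPGroup 2 ↥T) (hidx : ¬ 2 ∣ T.index) (hN : Subgroup.normalizer (T : Set G) ≤ T) :
    IsPGroup 2 ↥(T.map f) ∧ ¬ 2 ∣ (T.map f).index ∧
      Subgroup.normalizer ((T.map f : Subgroup G') : Set G') ≤ T.map f := by
  haveI := Fact.mk Nat.prime_two
  have hle : f.ker ≤ T := by
    have h2 : IsPGroup 2 ↥(T ⊔ f.ker) := hT.to_sup_of_normal_right hker
    let Q : Sylow 2 G := hT.toSylow hidx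
    have e : T ⊔ f.ker = T := Q.is_maximal' h2 le_sup_left
    exact e ▸ le_sup_right
  have hcm : (T.map f).comap f = T := Subgroup.comap_map_eq_self hle
  refine ⟨hT.map f, ?_, ?_⟩
  · rw [← Subgroup.index_comap_of_surjective _ hf, hcm]; exact hidx
  · intro x hx
    obtain ⟨y, rfl⟩ := hf x
    refine Subgroup.mem_map_of_mem f (hN ?_)
    rw [← hcm]
    exact Subgroup.mem_normalizer_iff.2 fun z => by
      rw [Subgroup.mem_comap, Subgroup.mem_comap, map_mul, map_mul, map_inv]
      exact Subgroup.mem_normalizer_iff.1 hx (f z)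

omit [Finite G] in
theorem pronormal_of_comap {f : G →* G'} (hf : Function.Surjective f) {H : Subgroup G'}
    (h : Cfsg.IsPronormal (H.comap f)) : Cfsg.IsPronormal H := by
  intro g
  obtain ⟨g', rfl⟩ := hf g
  obtain ⟨x, hx, e⟩ := h g'
  have hm : (H.comap f).map f = H := Subgroup.map_comap_eq_self_of_surjective hf H
  refine ⟨f x, ?_, ?_⟩
  · have h1 := Subgroup.mem_map_of_mem f hx
    rw [Subgroup.map_sup] at h1
    have e1 := map_cmap f g' (H.comap f)
    unfold cmap at e1
    rwa [e1, hm] at h1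
  · have e2 := congrArg (Subgroup.map f) e
    have e1 := map_cmap f g' (H.comap f)
    have e3 := map_cmap f x (H.comap f)
    unfold cmap at e1 e3
    rw [e1, e3, hm] at e2
    exact e2

end Cfsg.Agent.KnownA.PronormalReduce
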