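import Cfsg.Agent.Linear.Unipotent.Bruhat
import Cfsg.Agent.KnownA.Pronormal.Reduce

/-!
In characteristic two, subgroups of odd index of a special linear group are pronormal.
-/

set_option autoImplicit false
set_option linter.unusedSectionVars false

namespace Cfsg.Agent.KnownA.PronormalCharTwo

open Matrix Cfsg Cfsg.Agent.Linear.Unipotent Cfsg.Agent.FGS4.Pronormal

variable {F : Type*} [Field F] {n : ℕ}

local notation "G" => GL (Fin n) F

/-- diagonal matrices -/
def dg : (Fin n → Fˣ) →* GL (Fin n) F where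
  toFun d :=
    { val := Matrix.diagonal fun i => (d i : F)
      inv := Matrix.diagonal fun i => ((d i)⁻¹ : Fˣ)
      val_inv := by simp [diagonal_mul_diagonal]
      inv_val := by simp [diagonal_mul_diagonal] }
  map_one' := Units.ext (by simp)
  map_mul' a b := Units.ext (by simp [diagonal_mul_diagonal])

theorem dg_val (d : Fin n → Fˣ) : (dg d : G).1 = Matrix.diagonal fun i => (d i : F) := rfl

theorem dg_perm (d : Fin n → Fˣ) (σ : Equiv.Perm (Fin n)) :
    dg d * permGL F σ = permGL F σ * dg (fun j => d (σ j)) := by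
  apply Units.ext
  rw [Units.val_mul, Units.val_mul, dg_val, dg_val]
  ext i j
  rw [show (permGL F σ).1 = permMat F σ from rfl]
  rw [Matrix.diagonal_mul, Matrix.mul_diagonal]
  simp only [permMat]
  split_ifs with h
  · rw [h]; ring
  · ring

/-- root elements -/
def el (a b : Fin n) (h : a ≠ b) (c : F) : GL (Fin n) F where
  val := transvection a b c
  inv := transvection a b (-c)
  val_inv := by rw [transvection_mul_transvection_same (h := h), add_neg_cancel, transvection_zero]
  inv_val := by rw [transvection_mul_transvection_same (h := h), neg_add_cancel, transvection_zero]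

theorem el_val (a b : Fin n) (h : a ≠ b) (c : F) : (el a b h c : G).1 = transvection a b c := rfl

theorem perm_el (σ : Equiv.Perm (Fin n)) {a b : Fin n} (h : a ≠ b) (c : F) :
    permGL F σ * el a b h c = el (σ a) (σ b) (fun e => h (σ.injective e)) c * permGL F σ := by
  apply Units.ext
  ext i j
  show (permMat F σ * transvection a b c) i j = (transvection (σ a) (σ b) c * permMat F σ) i j
  simp only [transvection, Matrix.mul_add, Matrix.add_mul, Matrix.mul_one, Matrix.one_mul, Matrix.add_apply]
  congr 1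
  by_cases hj : b = j
  · subst hj
    by_cases hi : σ a = i
    · subst hi; simp [permMat]
    · simp [permMat, hi, Ne.symm hi]
  · by_cases hi : σ a = i
    · subst hi; simp [permMat, hj, Ne.symm hj]
    · simp [permMat, hi, Ne.symm hi, hj, Ne.symm hj]

theorem dg_el (d : Fin n → Fˣ) {a b : Fin n} (h : a ≠ b) (c : F) :
    dg d * el a b h c = el a b h ((d a : F) * c * ((d b)⁻¹ : Fˣ)) * dg d := by
  apply Units.ext
  ext i j
  rw [Units.val_mul, Units.val_mul, dg_val, el_val, el_val]
  rw [Matrix.diagonal_mul, Matrix.mul_diagonal]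
  simp only [transvection, Matrix.add_apply, Matrix.single_apply, Matrix.one_apply]
  split_ifs with h1 h2 h2
  all_goals first
    | (obtain ⟨rfl, rfl⟩ := h2; subst h1; exact absurd rfl h)
    | (obtain ⟨rfl, rfl⟩ := h2; simp [mul_comm, mul_assoc, mul_left_comm])
    | (subst h1; ring)
    | ring

/-- the unipotent group -/
def unip (F : Type*) [Field F] (n : ℕ) : Subgroup (GL (Fin n) F) where
  carrier := {g | (g : Matrix (Fin n) (Fin n) F).BlockTriangular id ∧ ∀ i, (g : Matrix (Fin n) (Fin n) F) i i = 1}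
  one_mem' := ⟨blockTriangular_one, fun i => by simp⟩
  mul_mem' := by
    rintro x y ⟨hx, hx'⟩ ⟨hy, hy'⟩
    refine ⟨hx.mul hy, fun i => ?_⟩
    rw [Units.val_mul, Matrix.mul_apply, Finset.sum_eq_single i _ (by simp), hx', hy', mul_one]
    intro k _ hk
    rcases lt_or_gt_of_ne hk with h | h
    · rw [hx (show id k < id i from h), zero_mul]
    · rw [hy (show id i < id k from h), mul_zero]
  inv_mem' := by
    rintro x ⟨hx, hx'⟩
    have hi : ((x⁻¹ : GL (Fin n) F) : Matrix (Fin n) (Fin n) F).BlockTriangular id :=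
      (upperTriangularGL n F).inv_mem hx
    refine ⟨hi, fun i => ?_⟩
    have e : ((x⁻¹ : GL (Fin n) F) : Matrix (Fin n) (Fin n) F) * (x : Matrix (Fin n) (Fin n) F) = 1 := x.inv_val
    have e' := congrFun (congrFun e i) i
    rw [Matrix.mul_apply, Finset.sum_eq_single i _ (by simp), hx', mul_one, Matrix.one_apply_eq] at e'
    · exact e'
    intro k _ hk
    rcases lt_or_gt_of_ne hk with h | h
    · rw [hi (show id k < id i from h), zero_mul]
    · rw [hx (show id i < id k from h), mul_zero]

theorem diag_mul {x y : G} (hx : (x : Matrix (Fin n) (Fin n) F).BlockTriangular id)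
    (hy : (y : Matrix (Fin n) (Fin n) F).BlockTriangular id) (i : Fin n) : (x * y : G).1 i i = x.1 i i * y.1 i i := by
  rw [Units.val_mul, Matrix.mul_apply, Finset.sum_eq_single i _ (by simp)]
  intro k _ hk
  rcases lt_or_gt_of_ne hk with h | h
  · rw [hx (show id k < id i from h), zero_mul]
  · rw [hy (show id i < id k from h), mul_zero]

theorem el_mem_unip {a b : Fin n} (h : a < b) (c : F) : el a b h.ne c ∈ unip F n := by
  refine ⟨fun i j hji => ?_, fun i => ?_⟩
  · have hji : j < i := hji
    rw [el_val, transvection, Matrix.add_apply, Matrix.one_apply_ne (ne_of_gt hji), Matrix.single_apply]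
    rw [if_neg]; · simp
    rintro ⟨rfl, rfl⟩; exact lt_asymm h hji
  · rw [el_val, transvection, Matrix.add_apply, Matrix.one_apply_eq, Matrix.single_apply, if_neg]; · simp
    rintro ⟨rfl, rfl⟩; exact h.ne rfl

theorem upper_decomp {b : G} (hb : b ∈ upperTriangularGL n F) :
    ∃ d : Fin n → Fˣ, ∃ u ∈ unip F n, b = dg d * u := by
  have hd : ∀ i, b.1 i i ≠ 0 := fun i e => by
    have h := (Matrix.isUnit_iff_isUnit_det _).1 b.isUnit
    rw [Matrix.det_of_isUpperTriangular hb] at h
    exact h.ne_zero (Finset.prod_eq_zero (Finset.mem_univ i) e)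
  refine ⟨fun i => Units.mk0 _ (hd i), (dg fun i => Units.mk0 _ (hd i))⁻¹ * b, ?_, by group⟩
  rw [← map_inv]
  refine ⟨(blockTriangular_diagonal _).mul hb, fun i => ?_⟩
  rw [Units.val_mul, dg_val, Matrix.diagonal_mul]
  simp [hd i]

theorem unip_normal {b : G} (hb : b ∈ upperTriangularGL n F) {u : G} (hu : u ∈ unip F n) :
    b * u * b⁻¹ ∈ unip F n := by
  have hbi : b⁻¹ ∈ upperTriangularGL n F := inv_mem hb
  refine ⟨(hb.mul hu.1).mul hbi, fun i => ?_⟩
  rw [diag_mul (hb.mul hu.1) hbi, diag_mul hb hu.1, hu.2, mul_one, ← diag_mul hb hbi, mul_inv_cancel]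
  simp

theorem normalizer_unip {g : G} (hg : ∀ u ∈ unip F n, g * u * g⁻¹ ∈ unip F n) : g ∈ upperTriangularGL n F := by
  obtain ⟨b, hb, b', hb', σ, rfl⟩ := exists_bruhat_gl g
  suffices hσ : σ = 1 by
    subst hσ
    have h1 : permGL F (1 : Equiv.Perm (Fin n)) = 1 := Units.ext permMat_one
    rw [h1, mul_one]
    exact mul_mem hb hb'
  have hmono : ∀ a c : Fin n, a < c → σ a < σ c := by
    intro a c hac
    have h1 := hg _ (unip_normal (inv_mem hb') (el_mem_unip hac (1 : F)))
    rw [inv_inv] at h1
    have h2 := unip_normal (inv_mem hb) h1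
    rw [inv_inv, show b⁻¹ * (b * permGL F σ * b' * (b'⁻¹ * el a c hac.ne 1 * b') * (b * permGL F σ * b')⁻¹) * b
      = permGL F σ * el a c hac.ne 1 * (permGL F σ)⁻¹ by group, perm_el, mul_inv_cancel_right] at h2
    rcases lt_trichotomy (σ a) (σ c) with h | h | h
    · exact h
    · exact absurd (σ.injective h) hac.ne
    · have := h2.1 (show id (σ c) < id (σ a) from h)
      rw [el_val, transvection, Matrix.add_apply, Matrix.one_apply_ne (ne_of_gt h), Matrix.single_apply,
        if_pos ⟨rfl, rfl⟩, zero_add] at this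
      exact absurd this one_ne_zero
  have hs : StrictMono σ := fun a c h => hmono a c h
  have hs' : StrictMono (σ.symm : Fin n → Fin n) := fun a c h => by
    rcases lt_trichotomy (σ.symm a) (σ.symm c) with h' | h' | h'
    · exact h'
    · exact absurd (σ.symm.injective h') h.ne
    · have := hs h'; simp at this; exact absurd this (lt_asymm h)
  ext x
  have h1 := hs.id_le x
  have h2 := hs'.id_le (σ x)
  simp at h2
  exact congrArg Fin.val (le_antisymm h2 h1)

section Two

variable [CharP F 2]

/-- the monomial element of a root subgroup `SL₂` -/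
theorem weyl_eq {a b : Fin n} (h : a ≠ b) (l : Fˣ) :
    el a b h (l : F) * el b a h.symm ((l⁻¹ : Fˣ) : F) * el a b h (l : F) =
      dg (Function.update (Function.update 1 a l) b l⁻¹) * permGL F (Equiv.swap a b) := by
  have hneg : ∀ x : F, x + x = 0 := CharTwo.add_self_eq_zero
  apply Units.ext
  rw [Units.val_mul, Units.val_mul, Units.val_mul, dg_val, el_val, el_val, Matrix.mul_assoc]
  ext i j
  rw [show (permGL F (Equiv.swap a b)).1 = permMat F (Equiv.swap a b) from rfl]
  rw [Matrix.diagonal_mul]
  by_cases hia : i = a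
  · subst hia
    rw [transvection_mul_apply_same, transvection_mul_apply_of_ne (ha := h), transvection_mul_apply_same]
    simp only [transvection, Matrix.add_apply, Matrix.one_apply, Matrix.single_apply, permMat,
      Function.update_self, Function.update_of_ne h, Pi.one_apply]
    rcases eq_or_ne j i with rfl | hja
    · simp [h, h.symm, mul_comm (l : F)]
      linear_combination hneg (1 : F)
    · rcases eq_or_ne j b with rfl | hjb
      · simp [h, h.symm]
        linear_combination hneg (1 : F)
      · simp [h, h.symm, hja, hja.symm, hjb, hjb.symm, Equiv.swap_apply_of_ne_of_ne hja hjb]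
  · rw [transvection_mul_apply_of_ne (ha := hia)]
    by_cases hib : i = b
    · subst hib
      rw [transvection_mul_apply_same]
      simp only [transvection, Matrix.add_apply, Matrix.one_apply, Matrix.single_apply, permMat,
        Function.update_self]
      rcases eq_or_ne j a with rfl | hja
      · simp [h, h.symm]
      · rcases eq_or_ne j i with rfl | hjb
        · simp [h, h.symm]
          linear_combination hneg (1 : F)
        · simp [h, h.symm, hja, hja.symm, hjb, hjb.symm, Equiv.swap_apply_of_ne_of_ne hja hjb]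
    · rw [transvection_mul_apply_of_ne (ha := hib)]
      simp only [transvection, Matrix.add_apply, Matrix.one_apply, Matrix.single_apply, permMat,
        Function.update_of_ne hia, Function.update_of_ne hib, Pi.one_apply]
      rcases eq_or_ne j i with rfl | hji
      · simp [Equiv.swap_apply_of_ne_of_ne hia hib, hia, Ne.symm hia, hib, Ne.symm hib]
      · have : Equiv.swap a b j ≠ i := fun e => hji (by
          have := congrArg (Equiv.swap a b) e
          rwa [Equiv.swap_apply_self, Equiv.swap_apply_of_ne_of_ne hia hib] at this)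
        simp [this, hji.symm, Ne.symm hia]

/-- the number of inversions, roughly -/
def weight (σ : Equiv.Perm (Fin n)) : ℕ := ∑ i : Fin n, (i : ℕ) * (σ i : ℕ)

theorem weight_le (σ : Equiv.Perm (Fin n)) : weight σ ≤ ∑ _i : Fin n, n * n :=
  Finset.sum_le_sum fun i _ => Nat.mul_le_mul i.2.le (σ i).2.le

theorem weight_swap {σ : Equiv.Perm (Fin n)} {a b : Fin n} (hab : a < b) (h : σ b < σ a) :
    weight σ < weight (σ * Equiv.swap a b) := by
  unfold weight
  rw [← Finset.add_sum_erase _ _ (Finset.mem_univ a),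
    ← Finset.add_sum_erase _ (fun i : Fin n => (i : ℕ) * ((σ * Equiv.swap a b) i : ℕ)) (Finset.mem_univ a),
    ← Finset.add_sum_erase (Finset.univ.erase a) _ (show b ∈ Finset.univ.erase a by simp [hab.ne']),
    ← Finset.add_sum_erase (Finset.univ.erase a) (fun i : Fin n => (i : ℕ) * ((σ * Equiv.swap a b) i : ℕ))
      (show b ∈ Finset.univ.erase a by simp [hab.ne'])]
  have e : ∑ x ∈ (Finset.univ.erase a).erase b, (x : ℕ) * ((σ * Equiv.swap a b) x : ℕ) =
      ∑ x ∈ (Finset.univ.erase a).erase b, (x : ℕ) * (σ x : ℕ) :=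
    Finset.sum_congr rfl fun x hx => by
      simp only [Finset.mem_erase] at hx
      rw [Equiv.Perm.mul_apply, Equiv.swap_apply_of_ne_of_ne hx.2.1 hx.1]
  rw [e, Equiv.Perm.mul_apply, Equiv.Perm.mul_apply, Equiv.swap_apply_left, Equiv.swap_apply_right]
  have h1 : (a : ℕ) < b := hab
  have h2 : (σ b : ℕ) < σ a := h
  obtain ⟨d, hd⟩ := Nat.le.dest h1.le
  obtain ⟨e', he⟩ := Nat.le.dest h2.le
  rw [← hd, ← he]
  nlinarith [Nat.mul_pos (show 0 < d by omega) (show 0 < e' by omega)]

theorem descent {σ : Equiv.Perm (Fin n)} (h : σ ≠ 1) :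
    ∃ a b : Fin n, a < b ∧ σ b < σ a := by
  by_contra hc
  push Not at hc
  apply h
  have hs : StrictMono σ := fun a b hab => lt_of_le_of_ne (hc a b hab) fun e => hab.ne (σ.injective e)
  have hs' : StrictMono (σ.symm : Fin n → Fin n) := fun a c hac => by
    rcases lt_trichotomy (σ.symm a) (σ.symm c) with h' | h' | h'
    · exact h'
    · exact absurd (σ.symm.injective h') hac.ne
    · have := hs h'; simp at this; exact absurd this (lt_asymm hac)
  ext x
  have h1 := hs.id_le x
  have h2 := hs'.id_le (σ x)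
  simp at h2
  exact congrArg Fin.val (le_antisymm h2 h1)

theorem twist_mem {H : Subgroup G} (hU : unip F n ≤ H) (τ : Fin n → Fˣ) :
    ∀ (k : ℕ) (σ : Equiv.Perm (Fin n)) (d : Fin n → Fˣ), (∑ _i : Fin n, n * n) - weight σ ≤ k →
      dg d * permGL F σ ∈ H → dg (fun j => τ (σ j) * (τ j)⁻¹) ∈ H := by
  intro k
  induction k using Nat.strong_induction_on with
  | _ k ih =>
    intro σ d hk hm
    by_cases hσ : σ = 1
    · subst hσ
      rw [show (fun j => τ ((1 : Equiv.Perm (Fin n)) j) * (τ j)⁻¹) = 1 by funext j; simp, map_one]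
      exact one_mem H
    obtain ⟨a, b, hab, hba⟩ := descent hσ
    -- both root subgroups of the pair lie in `H`
    have hup : ∀ c, el a b hab.ne c ∈ H := fun c => hU (el_mem_unip hab c)
    have hlow : ∀ c, el b a hab.ne' c ∈ H := by
      intro c
      set m := dg d * permGL F σ with hmdef
      set c' := (d (σ b) : F) * c * ((d (σ a))⁻¹ : Fˣ)
      have e : m * el b a hab.ne' c = el (σ b) (σ a) hba.ne c' * m := by
        rw [hmdef, mul_assoc, perm_el, ← mul_assoc, dg_el, mul_assoc]
      have h2 := mul_mem (mul_mem (inv_mem hm) (hU (el_mem_unip hba c'))) hm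
      rwa [mul_assoc, ← e, inv_mul_cancel_left] at h2
    set s := Equiv.swap a b
    have hw : ∀ l : Fˣ, dg (Function.update (Function.update 1 a l) b l⁻¹) * permGL F s ∈ H := fun l => by
      rw [← weyl_eq hab.ne l]
      exact mul_mem (mul_mem (hup _) (hlow _)) (hup _)
    have hs : permGL F s ∈ H := by
      have := hw 1
      rwa [inv_one, show Function.update (Function.update (1 : Fin n → Fˣ) a 1) b 1 = 1 by simp, map_one,
        one_mul] at this
    have hh : ∀ l : Fˣ, dg (Function.update (Function.update 1 a l) b l⁻¹) ∈ H := fun l => by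
      have := mul_mem (hw l) (inv_mem hs)
      rwa [mul_inv_cancel_right] at this
    have hlt : weight σ < weight (σ * s) := weight_swap hab hba
    have hle := weight_le (σ * s)
    have hrec := ih ((∑ _i : Fin n, n * n) - weight (σ * s)) (by omega) (σ * s) d le_rfl
      (by rw [← permGL_mul, ← mul_assoc]; exact mul_mem hm hs)
    have hconj : dg (fun j => τ (σ j) * (τ (s j))⁻¹) ∈ H := by
      have hm2 := mul_mem (mul_mem hs hrec) (inv_mem hs)
      have e := dg_perm (fun j => τ (σ j) * (τ (s j))⁻¹) s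
      have e2 : (fun j => τ (σ (s j)) * (τ (s (s j)))⁻¹) = fun j => τ ((σ * s) j) * (τ j)⁻¹ := by
        funext j; rw [Equiv.swap_apply_self]; rfl
      rw [e2] at e
      rwa [← e, mul_inv_cancel_right] at hm2
    have hfin := mul_mem hconj (hh (τ b * (τ a)⁻¹))
    rw [← map_mul] at hfin
    convert hfin using 2
    funext j
    rw [Pi.mul_apply]
    rcases eq_or_ne j a with rfl | hja
    · rw [Equiv.swap_apply_left, Function.update_of_ne hab.ne, Function.update_self, mul_assoc,
        inv_mul_cancel_left]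
    · rcases eq_or_ne j b with rfl | hjb
      · rw [Equiv.swap_apply_right, Function.update_self, _root_.mul_inv_rev, inv_inv, mul_assoc,
          inv_mul_cancel_left]
      · rw [Equiv.swap_apply_of_ne_of_ne hja hjb, Function.update_of_ne hjb, Function.update_of_ne hja,
          Pi.one_apply, mul_one]

/-- diagonal matrices normalise every group of determinant one containing the unipotent group -/
theorem torus_normalizes {H : Subgroup G} (hU : unip F n ≤ H) (τ : Fin n → Fˣ) {x : G} (hx : x ∈ H) :
    dg τ * x * (dg τ)⁻¹ ∈ H := by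
  obtain ⟨b, hb, b', hb', σ, rfl⟩ := exists_bruhat_gl x
  obtain ⟨d, u, hu, rfl⟩ := upper_decomp hb
  obtain ⟨e, u', hu', rfl⟩ := upper_decomp hb'
  -- the monomial part
  have hu₁ := unip_normal (b := dg d) (blockTriangular_diagonal _) hu
  set d' : Fin n → Fˣ := d * fun j => e (σ⁻¹ j)
  have hm' : dg d * permGL F σ * dg e = dg d' * permGL F σ := by
    have h := dg_perm (fun j => e (σ⁻¹ j)) σ
    simp only [Equiv.Perm.coe_inv, Equiv.symm_apply_apply] at h
    rw [map_mul, mul_assoc (dg d) (dg _) (permGL F σ)]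
    rw [mul_assoc]
    congr 1
    exact h.symm
  have hx' : dg d * u * permGL F σ * (dg e * u') = dg d * u * (dg d)⁻¹ * (dg d' * permGL F σ) * u' := by
    rw [← hm']; group
  rw [hx'] at hx ⊢
  have hmH : dg d' * permGL F σ ∈ H := by
    have := mul_mem (mul_mem (inv_mem (hU hu₁)) hx) (inv_mem (hU hu'))
    rwa [show (dg d * u * (dg d)⁻¹)⁻¹ * (dg d * u * (dg d)⁻¹ * (dg d' * permGL F σ) * u') * u'⁻¹
      = dg d' * permGL F σ by group] at this
  have htw := twist_mem hU τ _ σ d' le_rfl hmH
  have hti := unip_normal (b := dg τ) (blockTriangular_diagonal _) hu₁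
  have hti' := unip_normal (b := dg τ) (blockTriangular_diagonal _) hu'
  have key : dg τ * (dg d' * permGL F σ) * (dg τ)⁻¹ ∈ H := by
    have h1 := dg_perm τ σ
    have e1 : dg τ * (dg d' * permGL F σ) * (dg τ)⁻¹ =
        dg d' * permGL F σ * dg (fun j => τ (σ j) * (τ j)⁻¹) := by
      rw [← mul_assoc, ← map_mul, mul_comm τ d', map_mul, mul_assoc (dg d'), h1, ← map_inv, mul_assoc,
        mul_assoc, mul_assoc, ← map_mul]
      rfl
    rw [e1]
    exact mul_mem hmH htw
  have := mul_mem (mul_mem (hU hti) key) (hU hti')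
  rwa [show dg τ * (dg d * u * (dg d)⁻¹) * (dg τ)⁻¹ * (dg τ * (dg d' * permGL F σ) * (dg τ)⁻¹) *
    (dg τ * u' * (dg τ)⁻¹) = dg τ * (dg d * u * (dg d)⁻¹ * (dg d' * permGL F σ) * u') * (dg τ)⁻¹ by group] at this

theorem unip_pgroup : IsPGroup 2 ↥(unip F n) := by
  intro u
  refine ⟨n, Subtype.ext (Units.ext ?_)⟩
  show ((u : G) ^ 2 ^ n : G).1 = 1
  rw [Units.val_pow_eq_pow_val]
  set A : Matrix (Fin n) (Fin n) F := (u : G).1
  rcases Nat.eq_zero_or_pos n with rfl | hn
  · exact Matrix.ext fun i => i.elim0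
  haveI : Nonempty (Fin n) := ⟨⟨0, hn⟩⟩
  haveI : CharP (Matrix (Fin n) (Fin n) F) 2 := inferInstance
  have h0 : (A - 1) ^ n = 0 := by
    have := Matrix.aeval_self_charpoly A
    rw [Matrix.charpoly_of_upperTriangular A u.2.1] at this
    simpa [A, u.2.2] using this
  have h1 : (A - 1) ^ 2 ^ n = 0 := pow_eq_zero_of_le Nat.lt_two_pow_self.le h0
  rw [sub_pow_char_pow_of_commute 2 n (Commute.one_right A), one_pow, sub_eq_zero] at h1
  exact h1

theorem two_element_unip {b : G} (hb : b ∈ upperTriangularGL n F) {t : ℕ} (ht : b ^ 2 ^ t = 1) :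
    b ∈ unip F n := by
  refine ⟨hb, fun i => ?_⟩
  have hp : ∀ k : ℕ, (b ^ k : G).1 i i = b.1 i i ^ k := by
    intro k
    induction k with
    | zero => simp
    | succ k ih => rw [pow_succ, diag_mul ((upperTriangularGL n F).pow_mem hb k) hb, ih, pow_succ]
  have h := hp (2 ^ t)
  rw [ht, Units.val_one, Matrix.one_apply_eq] at h
  have h' : (b.1 i i - 1) ^ 2 ^ t = 0 := by
    rw [sub_pow_char_pow, ← h, one_pow, sub_self]
  exact sub_eq_zero.1 (eq_zero_of_pow_eq_zero h')

variable [Finite F]

/-- Subgroups of odd index of `SL(n, F)` are pronormal in characteristic two. -/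
theorem pronormal_special (H : Subgroup (SpecialLinearGroup (Fin n) F)) (hH : Odd H.index) : Cfsg.IsPronormal H := by
  haveI := Fact.mk Nat.prime_two
  let f : SpecialLinearGroup (Fin n) F →* G := SpecialLinearGroup.toGL
  have hf : Function.Injective f := fun A B e => Subtype.ext (congrArg Units.val e)
  set U := (unip F n).comap f with hUdef
  have hUf : ∀ u ∈ unip F n, ∃ v ∈ U, f v = u := by
    intro u hu
    have hdet : u.1.det = 1 := by
      rw [Matrix.det_of_isUpperTriangular hu.1]
      exact Finset.prod_eq_one fun i _ => hu.2 i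
    exact ⟨⟨u.1, hdet⟩, show f ⟨u.1, hdet⟩ ∈ unip F n by rwa [show f ⟨u.1, hdet⟩ = u from Units.ext rfl],
      Units.ext rfl⟩
  have hN : ∀ g ∈ Subgroup.normalizer (U : Set (SpecialLinearGroup (Fin n) F)), f g ∈ upperTriangularGL n F := by
    intro g hg
    refine normalizer_unip fun u hu => ?_
    obtain ⟨v, hv, rfl⟩ := hUf u hu
    rw [← map_inv, ← map_mul, ← map_mul]
    exact (Subgroup.mem_normalizer_iff.1 hg v).1 hv
  obtain ⟨Q, hUQ⟩ := (unip_pgroup.comap_of_injective f hf).exists_le_sylow
  have hQU : (Q : Subgroup (SpecialLinearGroup (Fin n) F)) = U := by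
    by_contra hne
    haveI := Q.2.isNilpotent
    have hlt : U.subgroupOf (Q : Subgroup _) < ⊤ :=
      lt_top_iff_ne_top.2 fun e => hne (le_antisymm (Subgroup.subgroupOf_eq_top.1 e) hUQ)
    obtain ⟨x, hx, hxU⟩ := SetLike.exists_of_lt (normalizerCondition_of_isNilpotent _ hlt)
    apply hxU
    rw [Subgroup.mem_subgroupOf]
    have hxN : (x : SpecialLinearGroup (Fin n) F) ∈ Subgroup.normalizer (U : Set (SpecialLinearGroup (Fin n) F)) := by
      refine Subgroup.mem_normalizer_iff.2 fun y => ⟨fun hy => ?_, fun hy => ?_⟩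
      · exact (Subgroup.mem_normalizer_iff.1 hx ⟨y, hUQ hy⟩).1 hy
      · have hyQ : y ∈ (Q : Subgroup (SpecialLinearGroup (Fin n) F)) := by
          have := mul_mem (mul_mem (inv_mem x.2) (hUQ hy)) x.2
          rwa [show (x : SpecialLinearGroup (Fin n) F)⁻¹ * ((x : SpecialLinearGroup (Fin n) F) * y * (x : SpecialLinearGroup (Fin n) F)⁻¹) * x = y by group] at this
        exact (Subgroup.mem_normalizer_iff.1 hx ⟨y, hyQ⟩).2 hy
    obtain ⟨t, ht⟩ := Q.2 x
    exact two_element_unip (hN _ hxN) (by rw [← map_pow, show (x : SpecialLinearGroup (Fin n) F) ^ 2 ^ t = 1 from congrArg Subtype.val ht, map_one])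
  obtain ⟨P, hP⟩ := PronormalReduce.exists_sylow_le H hH
  obtain ⟨c, hc⟩ := MulAction.exists_smul_eq (SpecialLinearGroup (Fin n) F) P Q
  have hUH : U ≤ cmap c H := by
    rw [← hQU, ← hc, Sylow.coe_subgroup_smul]
    exact Subgroup.map_mono hP
  rw [← cmap_inv_cmap c H]
  refine isPronormal_cmap _ (PronormalReduce.criterion (cmap c H) Q (hQU ▸ hUH) fun g hg => ⟨1, one_mem _, ?_⟩)
  rw [cmap_one]
  obtain ⟨τ, u, hu, e⟩ := upper_decomp (hN g (hQU ▸ hg))
  set H' := cmap c H with hH'
  have hu' : unip F n ≤ H'.map f := fun v hv => by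
    obtain ⟨w, hw, rfl⟩ := hUf v hv
    exact ⟨w, hUH hw, rfl⟩
  refine Subgroup.eq_of_le_of_card_ge ?_ (Subgroup.card_map_of_injective (MulAut.conj g).injective).ge
  rintro _ ⟨y, hy, rfl⟩
  have h1 := torus_normalizes hu' τ (mul_mem (mul_mem (hu' hu) ⟨y, hy, rfl⟩) (inv_mem (hu' hu)))
  rw [show dg τ * (u * f y * u⁻¹) * (dg τ)⁻¹ = (dg τ * u) * f y * (dg τ * u)⁻¹ by group, ← e,
    ← map_inv, ← map_mul, ← map_mul] at h1
  obtain ⟨z, hz, he⟩ := h1
  have := hf he
  subst this
  exact hz

end Two

end Cfsg.Agent.KnownA.PronormalCharTwo
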