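import Cfsg.Agent.KnownA.Pronormal.Step
import Cfsg.Agent.KnownA.Pronormal.Parity

/-!
Sylow 2-subgroups of general linear groups of dimension a power of two, and their normalisers.
-/

set_option autoImplicit false

namespace Cfsg.Agent.KnownA.PronormalLinear

open Matrix

variable {F : Type*} [Field F]

/-- what is carried along the doubling -/
structure Good {n : Type*} [Fintype n] [DecidableEq n] (S : Subgroup (GL n F)) : Prop where
  card : Nat.card ↥S = 2 ^ padicValNat 2 (Nat.card (GL n F))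
  norm : ∀ g : GL n F, (∀ a ∈ S, g * a * g⁻¹ ∈ S) → ∃ s ∈ S, ∃ l : Fˣ, g = s * sc F n l
  cent : ∀ x : GL n F, (∀ c ∈ S, GeneralLinearGroup.det c = 1 → x * c = c * x) → ∃ l : Fˣ, x = sc F n l
  dets : ∀ u : Fˣ, (∃ t, u ^ 2 ^ t = 1) → ∃ s ∈ S, GeneralLinearGroup.det s = u
  nontriv : ∃ c ∈ S, GeneralLinearGroup.det c = 1 ∧ ¬ PM c 1

theorem two_power_split {G : Type*} [Group G] [Finite G] (k : G) :
    ∃ s v : G, k = s * v ∧ s ∈ Subgroup.zpowers k ∧ v ∈ Subgroup.zpowers k ∧ (∃ t, s ^ 2 ^ t = 1) ∧ Odd (orderOf v) := by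
  obtain ⟨t, o, ho, e⟩ := Nat.exists_eq_two_pow_mul_odd (orderOf_pos k).ne'
  obtain ⟨x, y, hxy⟩ : IsCoprime ((2 ^ t : ℕ) : ℤ) (o : ℤ) :=
    Nat.isCoprime_iff_coprime.2 ((Nat.coprime_two_left.2 ho).pow_left t)
  refine ⟨k ^ (y * (o : ℤ)), k ^ (x * ((2 ^ t : ℕ) : ℤ)), ?_, ⟨_, rfl⟩, ⟨_, rfl⟩, ⟨t, ?_⟩, ?_⟩
  · rw [← _root_.zpow_add, add_comm, hxy, _root_.zpow_one]
  · rw [← zpow_natCast, ← _root_.zpow_mul, mul_assoc, ← Nat.cast_mul, mul_comm o, ← e, mul_comm,
      _root_.zpow_mul, zpow_natCast, pow_orderOf_eq_one, _root_.one_zpow]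
  · refine Odd.of_dvd_nat ho (orderOf_dvd_of_pow_eq_one ?_)
    rw [← zpow_natCast, ← _root_.zpow_mul, mul_assoc, ← Nat.cast_mul, ← e, mul_comm,
      _root_.zpow_mul, zpow_natCast, pow_orderOf_eq_one, _root_.one_zpow]

theorem eq_one_of_two_odd {G : Type*} [Group G] {x : G} (h : ∃ t, x ^ 2 ^ t = 1) (ho : Odd (orderOf x)) : x = 1 := by
  obtain ⟨t, ht⟩ := h
  exact orderOf_eq_one_iff.1 (Nat.eq_one_of_dvd_coprimes ((Nat.coprime_two_left.2 ho).pow_left t)
    (orderOf_dvd_of_pow_eq_one ht) dvd_rfl)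

section Reindex

variable {n n' : Type*} [Fintype n] [DecidableEq n] [Fintype n'] [DecidableEq n']

/-- renaming the coordinates -/
def glReindex (F : Type*) [Field F] (e : n ≃ n') : GL n F ≃* GL n' F :=
  Units.mapEquiv (Matrix.reindexAlgEquiv F F e).toMulEquiv

theorem glReindex_sc (e : n ≃ n') (l : Fˣ) : glReindex F e (sc F n l) = sc F n' l := by
  apply Units.ext
  show Matrix.reindexAlgEquiv F F e (sc F n l : Matrix n n F) = _
  rw [sc_val, sc_val, map_smul, map_one]

theorem glReindex_det (e : n ≃ n') (g : GL n F) :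
    GeneralLinearGroup.det (glReindex F e g) = GeneralLinearGroup.det g := by
  apply Units.ext
  show (Matrix.reindexAlgEquiv F F e (g : Matrix n n F)).det = (g : Matrix n n F).det
  exact Matrix.det_reindexAlgEquiv F F e _

theorem card_gl_type [Fintype F] (hodd : Odd (Fintype.card F)) :
    padicValNat 2 (Nat.card (GL n F)) = expo (Fintype.card F) (Fintype.card n) := by
  rw [Nat.card_congr (glReindex F (Fintype.equivFin n)).toEquiv, card_gl hodd]

theorem Good.reindex [Finite F] {S : Subgroup (GL n F)} (hS : Good S) (e : n ≃ n') :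
    Good (S.map (glReindex F e).toMonoidHom) := by
  set f := glReindex F e
  have hmem : ∀ x, x ∈ S.map f.toMonoidHom ↔ f.symm x ∈ S := fun x => Subgroup.mem_map_equiv
  have hsc : ∀ l : Fˣ, f.symm (sc F n' l) = sc F n l := fun l => by rw [← glReindex_sc e l, MulEquiv.symm_apply_apply]
  refine ⟨?_, ?_, ?_, ?_, ?_⟩
  · have e1 : Nat.card ↥(S.map f.toMonoidHom) = Nat.card ↥S := Nat.card_congr (f.subgroupMap S).symm.toEquiv
    rw [e1, hS.card, Nat.card_congr f.toEquiv]
  · intro g hg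
    obtain ⟨s, hs, l, e'⟩ := hS.norm (f.symm g) fun a ha => by
      have := (hmem _).1 (hg (f a) ⟨a, ha, rfl⟩)
      simpa using this
    exact ⟨f s, ⟨s, hs, rfl⟩, l, by rw [← glReindex_sc e l, ← map_mul, ← e', MulEquiv.apply_symm_apply]⟩
  · intro x hx
    obtain ⟨l, e'⟩ := hS.cent (f.symm x) fun c hc hd => by
      have := hx (f c) ⟨c, hc, rfl⟩ (by rw [glReindex_det, hd])
      apply f.injective
      simpa using this
    exact ⟨l, by rw [← glReindex_sc e l, ← e', MulEquiv.apply_symm_apply]⟩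
  · intro u hu
    obtain ⟨s, hs, e'⟩ := hS.dets u hu
    exact ⟨f s, ⟨s, hs, rfl⟩, by rw [glReindex_det, e']⟩
  · obtain ⟨c, hc, hd, hne⟩ := hS.nontriv
    refine ⟨f c, ⟨c, hc, rfl⟩, by rw [glReindex_det, hd], fun h => hne ?_⟩
    rcases h with h | h
    · exact Or.inl (f.injective (by rw [h, map_one]))
    · exact Or.inr (f.injective (by rw [h, map_mul, map_one, glReindex_sc]))

end Reindex

section Sylow

variable [Finite F] {n : Type*} [Fintype n] [DecidableEq n] {S : Subgroup (GL n F)}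

theorem sylow_of_card (hc : Nat.card ↥S = 2 ^ padicValNat 2 (Nat.card (GL n F))) :
    IsPGroup 2 ↥S ∧ ¬ 2 ∣ S.index := by
  have := Fact.mk Nat.prime_two
  refine ⟨IsPGroup.of_card hc, fun hd => ?_⟩
  have h1 := S.card_mul_index
  rw [hc] at h1
  obtain ⟨i, hi⟩ := hd
  rw [hi, ← mul_assoc, ← pow_succ] at h1
  exact pow_succ_padicValNat_not_dvd (Nat.card_pos (α := GL n F)).ne' ⟨i, h1.symm⟩

theorem scalar_mem (hc : Nat.card ↥S = 2 ^ padicValNat 2 (Nat.card (GL n F))) {l : Fˣ} (hl : ∃ t, l ^ 2 ^ t = 1) :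
    sc F n l ∈ S := by
  have := Fact.mk Nat.prime_two
  obtain ⟨hp, hidx⟩ := sylow_of_card hc
  set x := sc F n l
  have hcomm : ∀ s, x * s = s * x := fun s => sc_comm l s
  have : IsPGroup 2 ↥(S ⊔ Subgroup.zpowers x) := by
    obtain ⟨t, ht⟩ := hl
    have hxp : IsPGroup 2 ↥(Subgroup.zpowers x) := by
      obtain ⟨i, -, hi⟩ := (Nat.dvd_prime_pow Nat.prime_two).1
        (orderOf_dvd_of_pow_eq_one (show x ^ 2 ^ t = 1 by rw [← map_pow, ht, map_one]))
      exact IsPGroup.of_card (n := i) (by rw [Nat.card_zpowers, hi])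
    have : (Subgroup.zpowers x).Normal := ⟨fun y hy g => by
      obtain ⟨i, rfl⟩ := hy
      exact ⟨i, by show x ^ i = g * x ^ i * g⁻¹; rw [← (Commute.zpow_left (hcomm g) i).eq, mul_inv_cancel_right]⟩⟩
    exact hp.to_sup_of_normal_right hxp
  obtain ⟨j, hj⟩ := IsPGroup.iff_card.1 this
  have hle : S ≤ S ⊔ Subgroup.zpowers x := le_sup_left
  have heq : Nat.card ↥(S ⊔ Subgroup.zpowers x) ≤ Nat.card ↥S := by
    rw [hj, hc]
    refine Nat.pow_le_pow_right (by norm_num) ?_
    have hd : 2 ^ j ∣ Nat.card (GL n F) := hj ▸ Subgroup.card_subgroup_dvd_card _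
    exact (padicValNat_dvd_iff_le Nat.card_pos.ne').1 hd
  exact (Subgroup.eq_of_le_of_card_ge hle heq) ▸ (le_sup_right : Subgroup.zpowers x ≤ _) (Subgroup.mem_zpowers x)

theorem neg_mem (hc : Nat.card ↥S = 2 ^ padicValNat 2 (Nat.card (GL n F))) : sc F n (-1) ∈ S :=
  scalar_mem hc ⟨1, by simp⟩

theorem det_two_power (hc : Nat.card ↥S = 2 ^ padicValNat 2 (Nat.card (GL n F))) {s : GL n F} (hs : s ∈ S) :
    ∃ t, GeneralLinearGroup.det s ^ 2 ^ t = 1 := by
  refine ⟨padicValNat 2 (Nat.card (GL n F)), ?_⟩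
  rw [← map_pow, ← hc]
  have := pow_card_eq_one' (x := (⟨s, hs⟩ : ↥S))
  rw [show s ^ Nat.card ↥S = 1 from congrArg Subtype.val this, map_one]

end Sylow

section Doubling

variable [Fintype F] {m : Type*} [Fintype m] [DecidableEq m] [Nonempty m] {S : Subgroup (GL m F)}

theorem card_wr_sylow (hodd : Odd (Fintype.card F))
    (hc : Nat.card ↥S = 2 ^ padicValNat 2 (Nat.card (GL m F)))
    (hexp : expo (Fintype.card F) (2 * Fintype.card m) = 2 * expo (Fintype.card F) (Fintype.card m) + 1) :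
    Nat.card ↥(wr S) = 2 ^ padicValNat 2 (Nat.card (GL (m ⊕ m) F)) := by
  rw [card_wr, hc, card_gl_type hodd, card_gl_type hodd, Fintype.card_sum, ← two_mul (Fintype.card m), hexp]
  ring

theorem Good.step (h2 : (2 : F) ≠ 0) (hodd : Odd (Fintype.card F)) (hS : Good S) (hm : Even (Fintype.card m))
    (hexp : expo (Fintype.card F) (2 * Fintype.card m) = 2 * expo (Fintype.card F) (Fintype.card m) + 1) :
    Good (wr S) := by
  have hneg := neg_mem hS.card
  obtain ⟨c, hc, hcd, hcne⟩ := hS.nontriv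
  refine ⟨card_wr_sylow hodd hS.card hexp, fun g hg => ?_, fun x hx => ?_, fun u hu => ?_, ?_⟩
  · have hg' : ∀ y ∈ wr S, g⁻¹ * y * g ∈ wr S := by
      intro y hy
      have he : (wr S).map (MulAut.conj g).toMonoidHom = wr S :=
        Subgroup.eq_of_le_of_card_ge (by rintro _ ⟨a, ha, rfl⟩; exact hg a ha)
          (Subgroup.card_map_of_injective (MulAut.conj g).injective).ge
      rw [← he] at hy
      obtain ⟨a, ha, rfl⟩ := hy
      rw [show g⁻¹ * (MulAut.conj g).toMonoidHom a * g = a by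
        show g⁻¹ * (g * a * g⁻¹) * g = a; group]
      exact ha
    exact normalizer_wr h2 (fun _ => True) hS.norm (fun x hx => hS.cent x fun a ha _ => hx a ha trivial)
      (fun x hx => hS.cent x fun a ha _ => hx a ha trivial) ⟨c, hc, trivial, hcne⟩
      (fun a ha => ⟨1, one_mem _, trivial⟩) (fun a ha => ⟨1, one_mem _, trivial⟩) hneg trivial trivial
      (fun _ _ _ _ => trivial) (fun y hy _ => ⟨hg y hy, trivial⟩) (fun y hy _ => ⟨hg' y hy, trivial⟩)
  · have hz : GeneralLinearGroup.det (zB F m) = 1 := by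
      rw [zB, det_blk, det_sc, map_one, mul_one, hm.neg_one_pow]
    obtain ⟨a, b, rfl⟩ := eq_blk_of_comm h2 (hx _ (blk_mem_wr hneg (one_mem _)) hz)
    obtain ⟨la, rfl⟩ := hS.cent a fun d hd hdd => by
      have := hx _ (blk_mem_wr hd (one_mem _)) (by rw [det_blk, hdd, map_one, mul_one])
      rw [← map_mul, ← map_mul, Prod.mk_mul_mk, Prod.mk_mul_mk] at this
      exact (blk_inj this).1
    obtain ⟨lb, rfl⟩ := hS.cent b fun d hd hdd => by
      have := hx _ (blk_mem_wr (one_mem _) hd) (by rw [det_blk, hdd, map_one, mul_one])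
      rw [← map_mul, ← map_mul, Prod.mk_mul_mk, Prod.mk_mul_mk] at this
      exact (blk_inj this).2
    have := hx _ wB_mem_wr (det_wB hm)
    rw [wB_blk] at this
    have e := (blk_inj (mul_right_cancel this)).1
    exact ⟨la, by rw [sc_blk, ← e]⟩
  · obtain ⟨s, hs, hd⟩ := hS.dets u hu
    exact ⟨blk (s, 1), blk_mem_wr hs (one_mem _), by rw [det_blk, hd, map_one, mul_one]⟩
  · refine ⟨blk (c, 1), blk_mem_wr hc (one_mem _), by rw [det_blk, hcd, map_one, mul_one], fun h => hcne ?_⟩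
    rcases h with h | h
    · rw [← map_one blk, Prod.one_eq_mk] at h
      exact Or.inl (blk_inj h).1
    · rw [mul_one, sc_neg_one_blk] at h
      exact Or.inr (by rw [mul_one]; exact (blk_inj h).1)

/-- a self-normalising Sylow 2-subgroup of the special linear group -/
theorem selfnorm_special (h2 : (2 : F) ≠ 0) (hodd : Odd (Fintype.card F)) (hS : Good S)
    (hm : ∃ j, Fintype.card m = 2 ^ (j + 1))
    (hexp : expo (Fintype.card F) (2 * Fintype.card m) = 2 * expo (Fintype.card F) (Fintype.card m) + 1) :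
    ∃ T : Subgroup (SpecialLinearGroup (m ⊕ m) F), IsPGroup 2 ↥T ∧ ¬ 2 ∣ T.index ∧
      Subgroup.normalizer (T : Set (SpecialLinearGroup (m ⊕ m) F)) ≤ T := by
  classical
  obtain ⟨j, hj⟩ := hm
  have hmev : Even (Fintype.card m) := ⟨2 ^ j, by rw [hj, pow_succ]; ring⟩
  have hcard := card_wr_sylow hodd hS.card hexp
  obtain ⟨hp, hidx⟩ := sylow_of_card hcard
  let f : SpecialLinearGroup (m ⊕ m) F →* GL (m ⊕ m) F := SpecialLinearGroup.toGL
  have hf : Function.Injective f := fun A B e => Subtype.ext (congrArg Units.val e)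
  have hfdet : ∀ A, GeneralLinearGroup.det (f A) = 1 := fun A => Units.ext A.2
  have hfr : ∀ x : GL (m ⊕ m) F, GeneralLinearGroup.det x = 1 → ∃ A, f A = x := fun x hx =>
    ⟨⟨x.1, congrArg Units.val hx⟩, Units.ext rfl⟩
  refine ⟨(wr S).comap f, hp.comap_of_injective f hf, ?_, ?_⟩
  · set T := (wr S).comap f
    let d : ↥(wr S) →* Fˣ := GeneralLinearGroup.det.comp (wr S).subtype
    have hk : Nat.card ↥d.ker = Nat.card ↥T := by
      let k : ↥T → ↥d.ker := fun A => ⟨⟨f A.1, A.2⟩, hfdet A.1⟩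
      refine (Nat.card_eq_of_bijective k ⟨fun A B e => Subtype.ext (hf (congrArg (fun y : ↥d.ker => y.1.1) e)), ?_⟩).symm
      rintro ⟨⟨x, hx⟩, hd⟩
      obtain ⟨A, hA⟩ := hfr x hd
      exact ⟨⟨A, by show f A ∈ wr S; rw [hA]; exact hx⟩, Subtype.ext (Subtype.ext hA)⟩
    have hS' := Subgroup.card_eq_card_quotient_mul_card_subgroup d.ker
    rw [Nat.card_congr (QuotientGroup.quotientKerEquivRange d).toEquiv, hk] at hS'
    have hdet := Subgroup.card_eq_card_quotient_mul_card_subgroup (GeneralLinearGroup.det : GL (m ⊕ m) F →* Fˣ).ker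
    rw [Nat.card_congr (QuotientGroup.quotientKerEquivRange _).toEquiv] at hdet
    have hsurj : (GeneralLinearGroup.det : GL (m ⊕ m) F →* Fˣ).range = ⊤ := by
      refine MonoidHom.range_eq_top.2 fun u => ?_
      let i : m := Classical.arbitrary m
      refine ⟨GeneralLinearGroup.mkOfDetNeZero (Matrix.diagonal (Function.update 1 (Sum.inl i) (u : F))) ?_, Units.ext ?_⟩
      · rw [det_diagonal, Finset.prod_update_of_mem (Finset.mem_univ _)]
        simp
      · show (Matrix.diagonal _).det = _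
        rw [det_diagonal, Finset.prod_update_of_mem (Finset.mem_univ _)]
        simp
    rw [hsurj, Subgroup.card_top] at hdet
    have hker : Nat.card ↥(GeneralLinearGroup.det : GL (m ⊕ m) F →* Fˣ).ker = Nat.card (SpecialLinearGroup (m ⊕ m) F) := by
      refine (Nat.card_eq_of_bijective (fun A => (⟨f A, hfdet A⟩ : ↥(GeneralLinearGroup.det : GL (m ⊕ m) F →* Fˣ).ker))
        ⟨fun A B e => hf (congrArg Subtype.val e), fun x => ?_⟩).symm
      obtain ⟨A, hA⟩ := hfr x.1 x.2
      exact ⟨A, Subtype.ext hA⟩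
    obtain ⟨r, hr⟩ := Subgroup.card_subgroup_dvd_card d.range
    rw [hker, hr, ← T.card_mul_index, ← (wr S).card_mul_index, hS'] at hdet
    intro h
    refine hidx ?_
    have e : (wr S).index = r * T.index := by
      refine Nat.eq_of_mul_eq_mul_left (show 0 < Nat.card ↥d.range * Nat.card ↥T from Nat.mul_pos Nat.card_pos Nat.card_pos) ?_
      rw [hdet]; ring
    rw [e]
    exact h.mul_left r
  · intro g hg
    have hdets : ∀ a ∈ S, ∃ b ∈ S, GeneralLinearGroup.det a * GeneralLinearGroup.det b = 1 := fun a ha => by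
      obtain ⟨t, ht⟩ := det_two_power hS.card ha
      obtain ⟨b, hb, e⟩ := hS.dets (GeneralLinearGroup.det a)⁻¹ ⟨t, by rw [_root_.inv_pow, ht, inv_one]⟩
      exact ⟨b, hb, by rw [e, mul_inv_cancel]⟩
    obtain ⟨c, hc, hcd, hcne⟩ := hS.nontriv
    have hg1 : ∀ x ∈ wr S, GeneralLinearGroup.det x = 1 →
        (f g * x * (f g)⁻¹ ∈ wr S ∧ GeneralLinearGroup.det (f g * x * (f g)⁻¹) = 1) ∧
        ((f g)⁻¹ * x * f g ∈ wr S ∧ GeneralLinearGroup.det ((f g)⁻¹ * x * f g) = 1) := by
      intro x hx hd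
      obtain ⟨A, rfl⟩ := hfr x hd
      refine ⟨⟨?_, by simp [hd, hfdet]⟩, ⟨?_, by simp [hd, hfdet]⟩⟩
      · rw [← map_inv, ← map_mul, ← map_mul]
        exact (Subgroup.mem_normalizer_iff.1 hg A).1 hx
      · rw [← map_inv, ← map_mul, ← map_mul]
        exact (Subgroup.mem_normalizer_iff''.1 hg A).1 hx
    obtain ⟨s, hs, l, e⟩ := normalizer_wr h2 (fun x => GeneralLinearGroup.det x = 1) hS.norm
      (fun x hx => hS.cent x fun a ha hd => hx a ha (by rw [det_blk, hd, map_one, mul_one]))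
      (fun x hx => hS.cent x fun a ha hd => hx a ha (by rw [det_blk, hd, map_one, one_mul]))
      ⟨c, hc, by rw [det_blk, hcd, map_one, mul_one], hcne⟩
      (fun a ha => by obtain ⟨b, hb, e⟩ := hdets a ha; exact ⟨b, hb, by rw [det_blk, e]⟩)
      (fun b hb => by obtain ⟨a, ha, e⟩ := hdets b hb; exact ⟨a, ha, by rw [det_blk, mul_comm, e]⟩)
      (neg_mem hS.card) (by rw [zB, det_blk, det_sc, map_one, mul_one, hmev.neg_one_pow]) (det_wB hmev)
      (fun s _ x hx => by simp [hx]) (fun x hx hd => (hg1 x hx hd).1) (fun x hx hd => (hg1 x hx hd).2)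
    have hd1 := hfdet g
    rw [e, map_mul, det_sc, Fintype.card_sum, hj] at hd1
    obtain ⟨t, ht⟩ := det_two_power hcard hs
    have hl : ∃ t', l ^ 2 ^ t' = 1 := by
      refine ⟨j + 1 + 1 + t, ?_⟩
      have := congrArg (fun u : Fˣ => u ^ 2 ^ t) hd1
      simp only [mul_pow, one_pow, ht, one_mul, ← pow_mul] at this
      rw [← this]
      congr 1
      rw [pow_add, pow_succ 2 (j + 1)]
      ring
    show f g ∈ wr S
    rw [e]
    exact mul_mem hs (scalar_mem hcard hl)

end Doubling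

end Cfsg.Agent.KnownA.PronormalLinear
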