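import Cfsg.Agent.Linear.SylowSL2
import Cfsg.Agent.Linear.PSL2KleinFour
import Cfsg.Agent.Linear.PSL2PrimeTo
import Cfsg.Agent.Linear.PSL2Dickson
import Cfsg.Agent.S0265
import Cfsg.Agent.KnownA.Pronormal.Reduce
import Cfsg.Agent.KnownA.Pronormal.SylowGL

/-!
Pronormality of subgroups of odd index in `PSL(2, q)`, `q` odd.
-/

set_option autoImplicit false
set_option linter.unusedSectionVars false

namespace Cfsg.Agent.KnownA.PronormalTwo

open Matrix Cfsg.Agent.Linear Cfsg.Agent.FGS4.Pronormal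
open Cfsg.Agent.KnownA.PronormalLinear (two_power_split eq_one_of_two_odd)

/-- odd order automorphisms of large generalised quaternion groups are trivial -/
theorem quaternion_aut {k : ℕ} (hk : 2 ≤ k) (ψ : QuaternionGroup (2 ^ k) ≃* QuaternionGroup (2 ^ k)) {o : ℕ}
    (ho : Odd o) (hψ : ∀ u, (⇑ψ)^[o] u = u) : ψ = MulEquiv.refl _ := by
  haveI : NeZero (2 ^ k) := ⟨by positivity⟩
  have hn : 4 ≤ 2 ^ k := le_trans (by norm_num) (Nat.pow_le_pow_right two_pos hk)
  have ha : orderOf (QuaternionGroup.a (1 : ZMod (2 * 2 ^ k))) = 2 * 2 ^ k := QuaternionGroup.orderOf_a_one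
  obtain ⟨i, hi⟩ : ∃ i, ψ (QuaternionGroup.a 1) = QuaternionGroup.a i := by
    have h := ψ.orderOf_eq (QuaternionGroup.a 1)
    rw [ha] at h
    generalize ψ (QuaternionGroup.a 1) = u at h
    rcases u with i | i
    · exact ⟨i, rfl⟩
    · rw [QuaternionGroup.orderOf_xa] at h; omega
  have hpow : ∀ (j : ZMod (2 * 2 ^ k)), ψ (QuaternionGroup.a j) = QuaternionGroup.a (i * j) := by
    intro j
    obtain ⟨n, rfl⟩ := ZMod.natCast_zmod_surjective j
    rw [← QuaternionGroup.a_one_pow, map_pow, hi]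
    induction n with
    | zero => rw [pow_zero, Nat.cast_zero, mul_zero]; rfl
    | succ n ih => rw [pow_succ, ih, QuaternionGroup.a_mul_a, Nat.cast_succ, mul_add, mul_one]
  have hit : ∀ (n : ℕ) (j : ZMod (2 * 2 ^ k)),
      (⇑ψ)^[n] (QuaternionGroup.a j) = QuaternionGroup.a (i ^ n * j) := by
    intro n
    induction n with
    | zero => intro j; simp
    | succ n ih => intro j; rw [Function.iterate_succ_apply', ih, hpow, pow_succ', mul_assoc]
  have hio : i ^ o = 1 := by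
    have h := hψ (QuaternionGroup.a 1)
    rw [hit, mul_one] at h
    exact QuaternionGroup.a.inj h
  obtain ⟨u, rfl⟩ : IsUnit i := IsUnit.of_pow_eq_one hio ho.pos.ne'
  have hu : u = 1 := by
    have h1 : u ^ o = 1 := Units.ext (by rw [Units.val_pow_eq_pow_val, hio]; rfl)
    have h2 : u ^ (2 ^ k) = 1 := by
      have ht : (2 * 2 ^ k).totient = 2 ^ k := by
        rw [← pow_succ', Nat.totient_prime_pow Nat.prime_two (Nat.succ_pos k)]; simp
      have := ZMod.pow_totient u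
      rwa [ht] at this
    have h3 := pow_gcd_eq_one.2 ⟨h1, h2⟩
    rwa [(Nat.Coprime.pow_right k (Nat.coprime_two_right.2 ho) : Nat.gcd o (2 ^ k) = 1), pow_one] at h3
  subst hu
  have hfix : ∀ j, ψ (QuaternionGroup.a j) = QuaternionGroup.a j := fun j => by rw [hpow]; simp
  obtain ⟨j, hj⟩ : ∃ j, ψ (QuaternionGroup.xa 0) = QuaternionGroup.xa j := by
    generalize hv : ψ (QuaternionGroup.xa 0) = v
    rcases v with j | j
    · rw [← hfix j] at hv
      cases ψ.injective hv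
    · exact ⟨j, rfl⟩
  have hxa : ∀ l, ψ (QuaternionGroup.xa l) = QuaternionGroup.xa (j + l) := by
    intro l
    rw [show (QuaternionGroup.xa l : QuaternionGroup (2 ^ k)) = QuaternionGroup.xa 0 * QuaternionGroup.a l by
      rw [QuaternionGroup.xa_mul_a, zero_add], map_mul, hj, hfix, QuaternionGroup.xa_mul_a]
  have hitx : ∀ n : ℕ, (⇑ψ)^[n] (QuaternionGroup.xa 0) = QuaternionGroup.xa ((n : ZMod (2 * 2 ^ k)) * j) := by
    intro n
    induction n with
    | zero => simp
    | succ n ih => rw [Function.iterate_succ_apply', ih, hxa, Nat.cast_succ, add_mul, one_mul, add_comm]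
  have hj0 : (o : ZMod (2 * 2 ^ k)) * j = 0 := by
    have h := hψ (QuaternionGroup.xa 0)
    rw [hitx] at h
    exact QuaternionGroup.xa.inj h
  have hou : IsUnit (o : ZMod (2 * 2 ^ k)) := by
    rw [ZMod.isUnit_iff_coprime]
    exact (Nat.coprime_two_right.2 ho).mul_right (Nat.Coprime.pow_right k (Nat.coprime_two_right.2 ho))
  have hjz : j = 0 := hou.mul_right_eq_zero.1 hj0
  ext u
  rcases u with l | l
  · exact hfix l
  · rw [hxa, hjz, zero_add]; rfl

variable {F : Type*} [Field F]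

local notation "SL" => Matrix.SpecialLinearGroup (Fin 2) F
local notation "PSL" => Matrix.ProjectiveSpecialLinearGroup (Fin 2) F

theorem eq_one_or_neg_of_comm {v A B : SL} (hAB : A * B ≠ B * A) (hA : v * A = A * v) (hB : v * B = B * v) :
    v = 1 ∨ v = -1 := by
  by_contra h
  exact hAB (Dickson.commute_of_commute (fun hs => h hs.eq_one_or) hA hB)

/-- Sylow 2-subgroups of order at least 16 of `SL(2, q)` are their own normalisers. -/
theorem selfnorm_big [Finite F] (h2 : (2 : F) ≠ 0) {k : ℕ} (hk : 2 ≤ k) (Q : Sylow 2 SL)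
    (e : (Q : Subgroup SL) ≃* QuaternionGroup (2 ^ k)) :
    Subgroup.normalizer ((Q : Subgroup SL) : Set SL) ≤ Q := by
  classical
  haveI := Fact.mk Nat.prime_two
  intro g hg
  obtain ⟨s, v, rfl, hs, hv, ⟨t, hst⟩, hvo⟩ := two_power_split g
  have hsN := (Subgroup.zpowers_le.2 hg) hs
  have hvN := (Subgroup.zpowers_le.2 hg) hv
  have hsQ : s ∈ (Q : Subgroup SL) := by
    have hp : IsPGroup 2 ↥(Subgroup.zpowers s) := by
      obtain ⟨i, -, hi⟩ := (Nat.dvd_prime_pow Nat.prime_two).1 (orderOf_dvd_of_pow_eq_one hst)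
      exact IsPGroup.of_card (n := i) (by rw [Nat.card_zpowers, hi])
    have h3 : IsPGroup 2 ↥((Q : Subgroup SL) ⊔ Subgroup.zpowers s) :=
      Q.2.to_sup_of_normal_left' hp (Subgroup.zpowers_le.2 hsN)
    exact (Q.is_maximal' h3 le_sup_left) ▸
      (le_sup_right : Subgroup.zpowers s ≤ _) (Subgroup.mem_zpowers s)
  suffices hv1 : v = 1 by rw [hv1, mul_one]; exact hsQ
  let φ : (Q : Subgroup SL) ≃* (Q : Subgroup SL) :=
    { toFun := fun x => ⟨v * x * v⁻¹, (Subgroup.mem_normalizer_iff.1 hvN _).1 x.2⟩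
      invFun := fun x => ⟨v⁻¹ * x * v, (Subgroup.mem_normalizer_iff''.1 hvN _).1 x.2⟩
      left_inv := fun x => Subtype.ext (show v⁻¹ * (v * x.1 * v⁻¹) * v = x.1 by group)
      right_inv := fun x => Subtype.ext (show v * (v⁻¹ * x.1 * v) * v⁻¹ = x.1 by group)
      map_mul' := fun x y => Subtype.ext (show v * (x.1 * y.1) * v⁻¹ = v * x.1 * v⁻¹ * (v * y.1 * v⁻¹) by group) }
  let ψ : QuaternionGroup (2 ^ k) ≃* QuaternionGroup (2 ^ k) := (e.symm.trans φ).trans e
  have hit : ∀ (n : ℕ) (x : (Q : Subgroup SL)), (((⇑φ)^[n] x : (Q : Subgroup SL)) : SL) = v ^ n * x * (v ^ n)⁻¹ := by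
    intro n
    induction n with
    | zero => intro x; simp
    | succ n ih =>
      intro x
      rw [Function.iterate_succ_apply']
      show v * ((⇑φ)^[n] x : (Q : Subgroup SL)).1 * v⁻¹ = _
      rw [ih, pow_succ']; group
  have hψ : ∀ u, (⇑ψ)^[orderOf v] u = u := by
    intro u
    have h1 : ∀ n, (⇑ψ)^[n] u = e ((⇑φ)^[n] (e.symm u)) := by
      intro n
      induction n with
      | zero => simp
      | succ n ih => rw [Function.iterate_succ_apply', Function.iterate_succ_apply', ih]; simp [ψ]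
    rw [h1]
    refine e.symm.injective ?_
    rw [e.symm_apply_apply]
    exact Subtype.ext (by rw [hit, pow_orderOf_eq_one]; simp)
  have hψ1 := quaternion_aut hk ψ hvo hψ
  have hφ : ∀ x : (Q : Subgroup SL), v * x = x * v := by
    intro x
    have h1 : ψ (e x) = e x := by rw [hψ1]; rfl
    simp only [ψ, MulEquiv.trans_apply, e.symm_apply_apply] at h1
    have h3 : v * x.1 * v⁻¹ = x.1 := congrArg Subtype.val (e.injective h1)
    exact mul_inv_eq_iff_eq_mul.1 h3
  set A := e.symm (QuaternionGroup.a 1)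
  set B := e.symm (QuaternionGroup.xa 0)
  have hAB : A.1 * B.1 ≠ B.1 * A.1 := by
    intro h
    have h' := congrArg e (show A * B = B * A from Subtype.ext h)
    rw [map_mul, map_mul, e.apply_symm_apply, e.apply_symm_apply, QuaternionGroup.a_mul_xa,
      QuaternionGroup.xa_mul_a, QuaternionGroup.xa.injEq, zero_sub, zero_add, neg_eq_iff_add_eq_zero] at h'
    have h5 : ((2 : ℕ) : ZMod (2 * 2 ^ k)) = 0 := by rw [← h']; norm_num
    rw [ZMod.natCast_eq_zero_iff] at h5
    have := Nat.le_of_dvd two_pos h5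
    have : 4 ≤ 2 ^ k := le_trans (by norm_num) (Nat.pow_le_pow_right two_pos hk)
    omega
  rcases eq_one_or_neg_of_comm hAB (hφ A) (hφ B) with h | h
  · exact h
  · refine eq_one_of_two_odd ⟨1, ?_⟩ hvo
    rw [h]; simp [sq]

section Klein

theorem lift_sq (V : Subgroup PSL) {v : PSL} {g : SL} (hv : v ∈ V) (hv1 : v ≠ 1) (hg : toPSL g = v)
    (h2 : (2 : F) ≠ 0) (hV : ∀ x ∈ V, x * x = 1) : g.1 * g.1 = -1 :=
  (toPSL_involution h2).1 ⟨hg ▸ hv1, hg ▸ hV v hv⟩

theorem anti_mul {y a b : SL} (hy : y * a = -(a * y)) (hb : b * a = -(a * b)) : y * b * a = a * (y * b) := by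
  rw [mul_assoc, hb, mul_neg, ← mul_assoc, hy, neg_mul, neg_neg, mul_assoc]

theorem comm_or_anti {x g : SL} (h : toPSL x * toPSL g = toPSL g * toPSL x) :
    x * g = g * x ∨ x * g = -(g * x) := by
  rwa [← map_mul, ← map_mul, toPSL_eq_iff] at h

theorem centralizer_eq_one (h2 : (2 : F) ≠ 0) (V : Subgroup PSL) (hV : ∀ x ∈ V, x * x = 1) {x a b : PSL} (ha : a ∈ V) (hb : b ∈ V) (ha1 : a ≠ 1) (hb1 : b ≠ 1) (hab : a ≠ b)
    (hxa : x * a = a * x) (hxb : x * b = b * x) : x ∈ V := by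
  obtain ⟨g, hg⟩ := toPSL_surjective a
  obtain ⟨h, hh⟩ := toPSL_surjective b
  obtain ⟨y, rfl⟩ := toPSL_surjective x
  have hg2 := lift_sq V ha ha1 hg h2 hV
  have hh2 := lift_sq V hb hb1 hh h2 hV
  have hc : a * b = b * a := by
    rw [← inv_eq_of_mul_eq_one_right (hV _ (V.mul_mem ha hb)), _root_.mul_inv_rev,
      inv_eq_of_mul_eq_one_right (hV a ha), inv_eq_of_mul_eq_one_right (hV b hb)]
  have hp := isQuatPair_of_commute h2 hg2 hh2 (by rw [hg, hh]; exact hab) (by rw [hg, hh]; exact hc)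
  have hanti := hp.anti
  have hne : g * h ≠ h * g := fun e => by
    rw [hanti] at e
    exact one_ne_neg_one_SL h2 (mul_right_cancel (b := g * h) (by rw [one_mul, neg_one_mul]; exact e))
  have hanti' : g * h = -(h * g) := by rw [hanti, neg_neg]
  -- move the lift by lifts of elements of `V` until it commutes exactly
  have key : ∀ z : SL, z * g = g * z → z * h = h * z → toPSL z ∈ V := fun z h1 h3 => by
    rcases eq_one_or_neg_of_comm hne h1 h3 with rfl | rfl
    · rw [map_one]; exact one_mem V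
    · rw [toPSL_neg, map_one]; exact one_mem V
  rw [← hg] at hxa ha
  rw [← hh] at hxb hb
  have hyh : toPSL y * toPSL h ∈ V → toPSL y ∈ V := fun hm => by
    have := V.mul_mem hm hb
    rwa [mul_assoc, hV _ hb, mul_one] at this
  have hyg : toPSL y * toPSL g ∈ V → toPSL y ∈ V := fun hm => by
    have := V.mul_mem hm ha
    rwa [mul_assoc, hV _ ha, mul_one] at this
  rcases comm_or_anti hxa with e1 | e1 <;> rcases comm_or_anti hxb with e3 | e3
  · exact key y e1 e3
  · refine hyg ?_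
    rw [← map_mul]
    exact key _ ((show Commute y g from e1).mul_left (Commute.refl g)).eq (anti_mul e3 hanti')
  · refine hyh ?_
    rw [← map_mul]
    exact key _ (anti_mul e1 hanti) ((show Commute y h from e3).mul_left (Commute.refl h)).eq
  · have e5 : y * g * g = -(g * (y * g)) := (congrArg (· * g) e1).trans (by rw [neg_mul, mul_assoc])
    have hygh : toPSL (y * g * h) ∈ V :=
      key _ (anti_mul e5 hanti)
        ((show Commute (y * g) h from anti_mul e3 hanti').mul_left (Commute.refl h)).eq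
    rw [map_mul, map_mul] at hygh
    refine hyg ?_
    have := V.mul_mem hygh hb
    rwa [mul_assoc, hV _ hb, mul_one] at this

theorem odd_comm [Finite F] (h2 : (2 : F) ≠ 0) {x g : SL} (ho : Odd (orderOf (toPSL x)))
    (h : toPSL x * toPSL g = toPSL g * toPSL x) : x * g = g * x := by
  rcases comm_or_anti h with e | e
  · exact e
  exfalso
  obtain ⟨j, hj⟩ := ho
  have hsq : Commute (x * x) g := by
    show x * x * g = g * (x * x)
    rw [mul_assoc, e, mul_neg, ← mul_assoc, e, neg_mul, neg_neg, mul_assoc]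
  have hev : x ^ (2 * j + 1) * g = -(g * x ^ (2 * j + 1)) := by
    rw [pow_succ', pow_mul, pow_two, mul_assoc, (hsq.pow_left j).eq, ← mul_assoc, e, neg_mul, mul_assoc]
  have h1 : toPSL (x ^ (2 * j + 1)) = 1 := by rw [map_pow, ← hj, pow_orderOf_eq_one]
  have hg : g = -g := by
    rcases toPSL_eq_one_iff.1 h1 with e' | e' <;> rw [e'] at hev
    · simpa using hev
    · rw [neg_one_mul, mul_neg, mul_one, neg_neg] at hev; exact hev.symm
  exact one_ne_neg_one_SL h2 (mul_right_cancel (b := g) (by rw [one_mul, neg_one_mul]; exact hg))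

theorem four_elems [Finite F] {V : Subgroup PSL} (h4 : Nat.card V = 4) (hV : ∀ x ∈ V, x * x = 1) {a b : PSL}
    (ha : a ∈ V) (hb : b ∈ V) (ha1 : a ≠ 1) (hb1 : b ≠ 1) (hab : a ≠ b) {x : PSL} (hx : x ∈ V) :
    x = 1 ∨ x = a ∨ x = b ∨ x = a * b := by
  classical
  have hsub : ({1, a, b, a * b} : Set PSL) ⊆ V := by
    rintro y (rfl | rfl | rfl | rfl)
    exacts [one_mem V, ha, hb, V.mul_mem ha hb]
  have hc : ({1, a, b, a * b} : Set PSL).ncard = 4 := by
    have h1 : a * b ≠ 1 := fun e => hab (mul_right_cancel (e.trans (hV b hb).symm))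
    have h3 : a * b ≠ a := fun e => hb1 (mul_eq_left.1 e)
    have h5 : a * b ≠ b := fun e => ha1 (mul_eq_right.1 e)
    rw [Set.ncard_eq_toFinset_card', Set.toFinset_insert, Set.toFinset_insert, Set.toFinset_insert,
      Set.toFinset_singleton]
    simp [Finset.card_insert_of_notMem, ha1.symm, hb1.symm, hab, h1.symm, h3.symm, h5.symm]
  have he := Set.eq_of_subset_of_ncard_le hsub (by rw [hc, ← Nat.card_coe_set_eq]; exact h4.le) (Set.toFinite _)
  have hx' : x ∈ ({1, a, b, a * b} : Set PSL) := he ▸ hx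
  simpa using hx'

variable [Fintype F]

theorem exists_two (P : Sylow 2 PSL) (h4 : Nat.card P = 4) :
    ∃ a b : PSL, a ∈ (P : Subgroup PSL) ∧ b ∈ (P : Subgroup PSL) ∧ a ≠ 1 ∧ b ≠ 1 ∧ a ≠ b := by
  classical
  haveI := Fintype.ofFinite (P : Subgroup PSL)
  rw [Nat.card_eq_fintype_card] at h4
  obtain ⟨a, b, c, ha, hb, hc, hab, hac, hbc⟩ := Finset.two_lt_card_iff.1
    (show 2 < (Finset.univ.erase (1 : (P : Subgroup PSL))).card by simp [h4])
  simp only [Finset.mem_erase, Finset.mem_univ, and_true] at ha hb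
  exact ⟨a, b, a.2, b.2, fun e => ha (Subtype.ext e), fun e => hb (Subtype.ext e), fun e => hab (Subtype.ext e)⟩

theorem fix_mem (h2 : (2 : F) ≠ 0) (P : Sylow 2 PSL) (h4 : Nat.card P = 4)
    (hV : ∀ x ∈ (P : Subgroup PSL), x * x = 1) {g v : PSL}
    (hg : g ∈ Subgroup.normalizer ((P : Subgroup PSL) : Set PSL)) (hv : v ∈ (P : Subgroup PSL)) (hv1 : v ≠ 1)
    (hfix : g * v * g⁻¹ = v) : g ∈ (P : Subgroup PSL) := by
  obtain ⟨a, b, ha, hb, ha1, hb1, hab⟩ := exists_two P h4
  obtain ⟨w, hw, hw1, hwv⟩ : ∃ w ∈ (P : Subgroup PSL), w ≠ 1 ∧ w ≠ v := by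
    by_cases h : a = v
    · exact ⟨b, hb, hb1, fun e => hab (h.trans e.symm)⟩
    · exact ⟨a, ha, ha1, h⟩
  have hgw := (Subgroup.mem_normalizer_iff.1 hg w).1 hw
  have hfix' : g⁻¹ * v * g = v := by
    conv_lhs => rw [← hfix]
    group
  have h2w : g * g * w * (g * g)⁻¹ = w := by
    rw [show g * g * w * (g * g)⁻¹ = g * (g * w * g⁻¹) * g⁻¹ by group]
    rcases four_elems h4 hV hv hw hv1 hw1 (Ne.symm hwv) hgw with e | e | e | e
    · exact absurd (conj_eq_one_iff.1 e) hw1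
    · exfalso
      refine hwv ?_
      calc w = g⁻¹ * (g * w * g⁻¹) * g := by group
        _ = v := by rw [e, hfix']
    · rw [e, e]
    · rw [e, show g * (v * w) * g⁻¹ = (g * v * g⁻¹) * (g * w * g⁻¹) by group, hfix, e, ← mul_assoc, hV v hv, one_mul]
  have h2v : g * g * v * (g * g)⁻¹ = v := by
    rw [show g * g * v * (g * g)⁻¹ = g * (g * v * g⁻¹) * g⁻¹ by group, hfix, hfix]
  have hmem := centralizer_eq_one h2 (P : Subgroup PSL) hV hv hw hv1 hw1 (Ne.symm hwv)
    (mul_inv_eq_iff_eq_mul.1 h2v) (mul_inv_eq_iff_eq_mul.1 h2w)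
  haveI := Fact.mk Nat.prime_two
  have h4' : g ^ 2 ^ 2 = 1 := by
    rw [show (2 : ℕ) ^ 2 = 2 * 2 from rfl, pow_mul, pow_two, pow_two]
    exact hV _ hmem
  have hp : IsPGroup 2 ↥(Subgroup.zpowers g) := by
    obtain ⟨i, -, hi⟩ := (Nat.dvd_prime_pow Nat.prime_two).1 (orderOf_dvd_of_pow_eq_one h4')
    exact IsPGroup.of_card (n := i) (by rw [Nat.card_zpowers, hi])
  exact (P.is_maximal' (P.2.to_sup_of_normal_left' hp (Subgroup.zpowers_le.2 hg)) le_sup_left) ▸
    (le_sup_right : Subgroup.zpowers g ≤ _) (Subgroup.mem_zpowers g)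

theorem move_mem (h2 : (2 : F) ≠ 0) (P : Sylow 2 PSL) (h4 : Nat.card P = 4)
    (hV : ∀ x ∈ (P : Subgroup PSL), x * x = 1) {g n : PSL}
    (hg : g ∈ Subgroup.normalizer ((P : Subgroup PSL) : Set PSL))
    (hn : n ∈ Subgroup.normalizer ((P : Subgroup PSL) : Set PSL)) (hnP : n ∉ (P : Subgroup PSL)) :
    g ∈ (P : Subgroup PSL) ⊔ Subgroup.zpowers n := by
  obtain ⟨a, -, ha, -, ha1, -, -⟩ := exists_two P h4
  have conj_mem : ∀ {x v}, x ∈ Subgroup.normalizer ((P : Subgroup PSL) : Set PSL) → v ∈ (P : Subgroup PSL) →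
      v ≠ 1 → x * v * x⁻¹ ∈ (P : Subgroup PSL) ∧ x * v * x⁻¹ ≠ 1 :=
    fun hx hv hv1 => ⟨(Subgroup.mem_normalizer_iff.1 hx _).1 hv, fun e => hv1 (conj_eq_one_iff.1 e)⟩
  obtain ⟨hb, hb1⟩ := conj_mem hn ha ha1
  set b := n * a * n⁻¹ with hbdef
  have hab : a ≠ b := fun e => hnP (fix_mem h2 P h4 hV hn ha ha1 e.symm)
  obtain ⟨hc, hc1⟩ := conj_mem hn hb hb1
  have hbc : n * b * n⁻¹ ≠ b := fun e => hnP (fix_mem h2 P h4 hV hn hb hb1 e)
  have hca : n * b * n⁻¹ = a * b := by
    rcases four_elems h4 hV ha hb ha1 hb1 hab hc with e | e | e | e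
    · exact absurd e hc1
    · exfalso
      -- then `n` swaps two involutions, and fixes the third
      refine hnP (fix_mem h2 P h4 hV hn (Subgroup.mul_mem _ ha hb)
        (fun h => hab (mul_right_cancel (h.trans (hV b hb).symm))) ?_)
      rw [show n * (a * b) * n⁻¹ = (n * a * n⁻¹) * (n * b * n⁻¹) by group, e, ← hbdef]
      have h' := hV _ (Subgroup.mul_mem _ ha hb)
      calc b * a = b⁻¹ * a⁻¹ := by rw [inv_eq_of_mul_eq_one_right (hV a ha), inv_eq_of_mul_eq_one_right (hV b hb)]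
        _ = (a * b)⁻¹ := (_root_.mul_inv_rev _ _).symm
        _ = a * b := inv_eq_of_mul_eq_one_right h'
    · exact absurd e hbc
    · exact e
  obtain ⟨hga, hga1⟩ := conj_mem hg ha ha1
  obtain ⟨m, hm, he⟩ : ∃ m ∈ Subgroup.zpowers n, m * a * m⁻¹ = g * a * g⁻¹ := by
    rcases four_elems h4 hV ha hb ha1 hb1 hab hga with e | e | e | e
    · exact absurd e hga1
    · exact ⟨1, one_mem _, by rw [e]; group⟩
    · exact ⟨n, Subgroup.mem_zpowers n, by rw [e]⟩
    · exact ⟨n * n, mul_mem (Subgroup.mem_zpowers n) (Subgroup.mem_zpowers n), by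
        rw [e, ← hca, hbdef]; group⟩
  have hmN : m ∈ Subgroup.normalizer ((P : Subgroup PSL) : Set PSL) := Subgroup.zpowers_le.2 hn hm
  have hmem := fix_mem h2 P h4 hV (mul_mem (inv_mem hmN) hg) ha ha1
    (by rw [show m⁻¹ * g * a * (m⁻¹ * g)⁻¹ = m⁻¹ * (g * a * g⁻¹) * m by group, ← he]; group)
  rw [show g = m * (m⁻¹ * g) by group]
  exact mul_mem (Subgroup.mem_sup_right hm) (Subgroup.mem_sup_left hmem)

theorem pow_upper {X : SL} (h : X.1 1 0 = 0) (i : Fin 2) (n : ℕ) :
    (X ^ n).1 i i = X.1 i i ^ n ∧ (X ^ n).1 1 0 = 0 := by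
  induction n with
  | zero => fin_cases i <;> simp
  | succ n ih =>
    rw [pow_succ, Matrix.SpecialLinearGroup.coe_mul]
    obtain ⟨ih1, ih2⟩ := ih
    fin_cases i <;> simp_all [Matrix.mul_apply, Fin.sum_univ_two, pow_succ]

theorem unipotent_shape {p : ℕ} [Fact p.Prime] [CharP F p] {X : SL} (h : X.1 1 0 = 0)
    (ho : orderOf (toPSL X) = p) : X.1 0 0 = X.1 1 1 ∧ X.1 0 1 ≠ 0 := by
  have hd : X.1 0 0 * X.1 1 1 = 1 := by
    have := X.2
    rwa [det_fin_two, h, mul_zero, sub_zero] at this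
  have hp1 : toPSL (X ^ p) = 1 := by rw [map_pow, ← ho, pow_orderOf_eq_one]
  have hpe : X.1 0 0 ^ p = 1 ∨ X.1 0 0 ^ p = -1 := by
    rw [← (pow_upper h 0 p).1]
    rcases toPSL_eq_one_iff.1 hp1 with e | e <;> rw [e] <;> simp
  have hfr : X.1 0 0 = 1 ∨ X.1 0 0 = -1 := by
    rcases hpe with e | e
    · exact Or.inl (frobenius_inj F p (by rw [frobenius_def, e, map_one]))
    · exact Or.inr (frobenius_inj F p (by rw [frobenius_def, e, map_neg, map_one]))
  have heq : X.1 0 0 = X.1 1 1 := by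
    rcases hfr with e | e <;> rw [e] at hd ⊢
    · rw [one_mul] at hd; exact hd.symm
    · linear_combination hd
  refine ⟨heq, fun h01 => ?_⟩
  have hdiag : X = 1 ∨ X = -1 := by
    rcases hfr with e | e
    · left; ext i j; fin_cases i <;> fin_cases j <;> simp [h, h01, e, ← heq]
    · right; ext i j; fin_cases i <;> fin_cases j <;> simp [h, h01, e, ← heq]
  rw [toPSL_eq_one_iff.2 hdiag, orderOf_one] at ho
  exact (Fact.out : p.Prime).one_lt.ne ho

/-- elements conjugating one unipotent element of the Borel subgroup into it lie there -/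
theorem borel_fix {p : ℕ} [Fact p.Prime] [CharP F p] {u a : PSL} (ho : orderOf u = p)
    (hu : u ∈ PSL2Borel.borelP F) (hau : a * u * a⁻¹ ∈ PSL2Borel.borelP F) {G : SL} (hG : toPSL G = a) :
    G.1 1 0 = 0 := by
  subst hG
  obtain ⟨X, hX, rfl⟩ := hu
  have hX' : X.1 1 0 = 0 := hX
  obtain ⟨W, hW, hWe⟩ := hau
  rw [← map_mul, ← map_inv, ← map_mul] at hWe
  have hW' : (G * X * G⁻¹).1 1 0 = 0 := by
    rcases toPSL_eq_iff.1 hWe with e | e
    · rw [← e]; exact hW
    · rw [show G * X * G⁻¹ = -W by rw [e, neg_neg]]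
      have hW0 : W.1 1 0 = 0 := hW
      simp [hW0]
  have hoW : orderOf (toPSL (G * X * G⁻¹)) = p := by
    have := (MulAut.conj (toPSL G)).orderOf_eq (toPSL X)
    rw [ho] at this
    rw [map_mul, map_mul, map_inv]
    exact this
  obtain ⟨x1, x2⟩ := unipotent_shape hX' ho
  obtain ⟨w1, w2⟩ := unipotent_shape hW' hoW
  have e := congrArg Subtype.val (show G * X * G⁻¹ * G = G * X by group)
  generalize G * X * G⁻¹ = W' at hW' w1 w2 e
  rw [Matrix.SpecialLinearGroup.coe_mul, Matrix.SpecialLinearGroup.coe_mul] at e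
  have e10 := congrFun (congrFun e 1) 0
  have e11 := congrFun (congrFun e 1) 1
  have e00 := congrFun (congrFun e 0) 0
  simp [Matrix.mul_apply, Fin.sum_univ_two, hW', hX'] at e10 e11 e00
  by_contra hne
  have hw : W'.1 1 1 = X.1 0 0 := mul_right_cancel₀ hne (by linear_combination e10)
  rw [← w1] at hw
  rw [hw] at e00
  exact hne ((mul_eq_zero.1 (show W'.1 0 1 * G.1 1 0 = 0 by linear_combination e00)).resolve_left w2)

theorem two_dvd_psl {K : Type*} [Field K] [Finite K] :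
    2 ∣ Nat.card (Matrix.ProjectiveSpecialLinearGroup (Fin 2) K) := by
  let w : Matrix.SpecialLinearGroup (Fin 2) K := ⟨!![0, 1; -1, 0], by simp [det_fin_two]⟩
  have hw : toPSL w ≠ 1 := fun e => by
    rcases toPSL_eq_one_iff.1 e with e' | e' <;>
      have := congrArg (fun u : Matrix.SpecialLinearGroup (Fin 2) K => u.1 0 1) e' <;> simp [w] at this
  have hw2 : toPSL w * toPSL w = 1 := by
    rw [← map_mul, toPSL_eq_one_iff]
    right
    refine Subtype.ext ?_
    show w.1 * w.1 = -1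
    ext i j
    fin_cases i <;> fin_cases j <;> simp [w, Matrix.mul_apply, Fin.sum_univ_two]
  haveI := Fact.mk Nat.prime_two
  have h := orderOf_dvd_natCard (toPSL w)
  rwa [orderOf_eq_prime (x := toPSL w) (p := 2) (by rw [pow_two, hw2]) hw] at h

/-- an odd subgroup normalised by a four-group is abelian -/
theorem odd_comm_all (p : ℕ) [Fact p.Prime] [CharP F p] (hp : p ≠ 2) (P : Sylow 2 PSL) (h4 : Nat.card P = 4)
    (hV : ∀ x ∈ (P : Subgroup PSL), x * x = 1) (K : Subgroup PSL) (hK : Odd (Nat.card K))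
    (hPK : ∀ a ∈ (P : Subgroup PSL), ∀ x ∈ K, a * x * a⁻¹ ∈ K) {x y : PSL} (hx : x ∈ K) (hy : y ∈ K) :
    x * y = y * x := by
  classical
  have h2 : (2 : F) ≠ 0 := Dickson.two_ne_zero' hp
  have hnd : ∀ {n : ℕ}, Nat.card K = n → 2 ∣ n → False := fun e h => by
    rw [← e] at h; exact (Nat.not_even_iff_odd.2 hK) (even_iff_two_dvd.2 h)
  have hcyc : IsCyclic K → x * y = y * x := fun h => by
    letI := h.commGroup
    exact congrArg Subtype.val (mul_comm (⟨x, hx⟩ : K) ⟨y, hy⟩)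
  by_cases hpK : p ∣ Nat.card K
  swap
  · rcases PSL2PrimeTo.classification p K hpK with ⟨k, -, ⟨hc, -⟩ | ⟨-, hk, -⟩⟩ | ⟨⟨e⟩⟩ | ⟨⟨e⟩⟩ | ⟨⟨e⟩⟩
    · exact hcyc hc
    · exact (hnd hk (dvd_mul_right 2 k)).elim
    all_goals
      refine (hnd (Nat.card_congr e.toEquiv) ?_).elim
      simp only [nat_card_alternatingGroup, Nat.card_perm, Nat.card_fin]
      decide
  exfalso
  rcases PSL2Dickson.dickson p K with ⟨k, hk, ⟨-, hc⟩ | ⟨-, hc, -⟩⟩ | ⟨c, hc⟩ | (⟨⟨e⟩⟩ | ⟨⟨e⟩⟩ | ⟨⟨e⟩⟩) |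
    ⟨j, ι, ⟨⟨e⟩⟩ | ⟨⟨e⟩, -⟩⟩
  · rw [hc] at hpK
    obtain ⟨n, -, hn⟩ := FiniteField.card F p
    have hpF : p ∣ Fintype.card F := hn ▸ dvd_pow_self p n.ne_zero
    have hq2 : Nat.gcd 2 (Fintype.card F - 1) = 2 := by
      refine Nat.gcd_eq_left ?_
      have hodd : Fintype.card F % 2 = 1 := FiniteField.odd_card_of_char_ne_two (by rwa [ringChar.eq F p])
      omega
    rw [hq2] at hk
    have hodd : Fintype.card F % 2 = 1 := FiniteField.odd_card_of_char_ne_two (by rwa [ringChar.eq F p])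
    rcases hk with hk | hk
    · have h1 : p ∣ Fintype.card F + 1 :=
        (hpK.trans hk).trans (Nat.div_dvd_of_dvd (by omega))
      exact (Fact.out : p.Prime).not_dvd_one ((Nat.dvd_add_right hpF).1 h1)
    · have h1 : p ∣ Fintype.card F - 1 :=
        (hpK.trans hk).trans (Nat.div_dvd_of_dvd (by omega))
      have h3 := Nat.dvd_sub hpF h1
      rw [Nat.sub_sub_self (by have := Fintype.card_pos (α := F); omega)] at h3
      exact (Fact.out : p.Prime).not_dvd_one h3
  · exact hnd hc (dvd_mul_right 2 k)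
  · obtain ⟨⟨u, hu⟩, hou⟩ := exists_prime_orderOf_dvd_card' p hpK
    rw [← Subgroup.orderOf_coe] at hou
    obtain ⟨a, b, ha, hb, ha1, hb1, hab⟩ := exists_two P h4
    have hmem : ∀ z ∈ K, c * z * c⁻¹ ∈ PSL2Borel.borelP F := fun z hz => hc ⟨z, hz, rfl⟩
    have key : ∀ v ∈ (P : Subgroup PSL), ∀ G : SL, toPSL G = c * v * c⁻¹ → G.1 1 0 = 0 := fun v hv G hG => by
      refine borel_fix (p := p) (u := c * u * c⁻¹) ?_ (hmem u hu) ?_ hG
      · exact ((MulAut.conj c).orderOf_eq u).trans hou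
      · rw [show c * v * c⁻¹ * (c * u * c⁻¹) * (c * v * c⁻¹)⁻¹ = c * (v * u * v⁻¹) * c⁻¹ by group]
        exact hmem _ (hPK v hv u hu)
    obtain ⟨G, hG⟩ := toPSL_surjective (c * a * c⁻¹)
    obtain ⟨H, hH⟩ := toPSL_surjective (c * b * c⁻¹)
    have hG2 : G.1 * G.1 = -1 := (toPSL_involution h2).1 ⟨by rw [hG]; exact fun e => ha1 (conj_eq_one_iff.1 e),
      by rw [hG, show c * a * c⁻¹ * (c * a * c⁻¹) = c * (a * a) * c⁻¹ by group, hV a ha]; group⟩
    have hH2 : H.1 * H.1 = -1 := (toPSL_involution h2).1 ⟨by rw [hH]; exact fun e => hb1 (conj_eq_one_iff.1 e),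
      by rw [hH, show c * b * c⁻¹ * (c * b * c⁻¹) = c * (b * b) * c⁻¹ by group, hV b hb]; group⟩
    have hcab : a * b = b * a := by
      rw [← inv_eq_of_mul_eq_one_right (hV _ (Subgroup.mul_mem _ ha hb)), _root_.mul_inv_rev,
        inv_eq_of_mul_eq_one_right (hV a ha), inv_eq_of_mul_eq_one_right (hV b hb)]
    have hp' := isQuatPair_of_commute h2 hG2 hH2
      (by rw [hG, hH]; exact fun e => hab (mul_left_cancel (mul_right_cancel e)))
      (by rw [hG, hH, show c * a * c⁻¹ * (c * b * c⁻¹) = c * (a * b) * c⁻¹ by group, hcab]; group)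
    have g1 := key a ha G hG
    have g2 := key b hb H hH
    have e1 := congrFun (congrFun (congrArg Subtype.val hp'.anti) 0) 0
    have e2 := congrFun (congrFun hG2 0) 0
    have e3 := congrFun (congrFun hH2 0) 0
    simp [Matrix.mul_apply, Fin.sum_univ_two, g1, g2] at e1 e2 e3
    exact one_ne_zero (α := F) ((mul_eq_zero.1 (show (2 : F) * 1 = 0 by
      linear_combination (G.1 0 0 * H.1 0 0) * e1 - 2 * (H.1 0 0 * H.1 0 0) * e2 + 2 * e3)).resolve_left h2)
  all_goals refine hnd (Nat.card_congr e.toEquiv) ?_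
  · simp only [nat_card_alternatingGroup, Nat.card_fin]; decide
  · simp only [Nat.card_perm, Nat.card_fin]; decide
  · simp only [nat_card_alternatingGroup, Nat.card_fin]; decide
  · exact two_dvd_psl
  · haveI := Fintype.ofFinite (GaloisField p j)
    rw [Cfsg.Agent.S0265.result]
    exact two_dvd_psl.trans (Subgroup.card_quotient_dvd_card _)

theorem klein_case (p : ℕ) [Fact p.Prime] [CharP F p] (hp : p ≠ 2) (P : Sylow 2 PSL) (h4 : Nat.card P = 4)
    (hV : ∀ x ∈ (P : Subgroup PSL), x * x = 1) (H : Subgroup PSL) (hPH : (P : Subgroup PSL) ≤ H) :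
    Cfsg.IsPronormal H := by
  classical
  haveI := Fact.mk Nat.prime_two
  have h2 : (2 : F) ≠ 0 := Dickson.two_ne_zero' hp
  refine PronormalReduce.criterion H P hPH fun g hg => ?_
  set J := H ⊔ cmap g H with hJ
  have hPJ : (P : Subgroup PSL) ≤ J := hPH.trans le_sup_left
  by_cases hex : ∃ n ∈ J, n ∈ Subgroup.normalizer ((P : Subgroup PSL) : Set PSL) ∧ n ∉ (P : Subgroup PSL)
  · obtain ⟨n, hnJ, hnN, hnP⟩ := hex
    exact ⟨g, sup_le hPJ (Subgroup.zpowers_le.2 hnJ) (move_mem h2 P h4 hV hg hnN hnP), rfl⟩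
  push Not at hex
  let Q : Sylow 2 J := P.subtype hPJ
  have hQ : ∀ x : J, x ∈ (Q : Subgroup J) ↔ (x : PSL) ∈ (P : Subgroup PSL) := fun x => by
    simp [Q, Sylow.coe_subtype, Subgroup.mem_subgroupOf]
  have hcommP : ∀ {x y : PSL}, x ∈ (P : Subgroup PSL) → y ∈ (P : Subgroup PSL) → x * y = y * x := fun hx hy => by
    rw [← inv_eq_of_mul_eq_one_right (hV _ (Subgroup.mul_mem _ hx hy)), _root_.mul_inv_rev,
      inv_eq_of_mul_eq_one_right (hV _ hx), inv_eq_of_mul_eq_one_right (hV _ hy)]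
  have hN : Subgroup.normalizer ((Q : Subgroup J) : Set J) ≤ Subgroup.centralizer ((Q : Subgroup J) : Set J) := by
    intro n hn
    have hnN : (n : PSL) ∈ Subgroup.normalizer ((P : Subgroup PSL) : Set PSL) := by
      refine Subgroup.mem_normalizer_iff.2 fun z => ⟨fun hz => ?_, fun hz => ?_⟩
      · exact (hQ _).1 ((Subgroup.mem_normalizer_iff.1 hn ⟨z, hPJ hz⟩).1 ((hQ _).2 hz))
      · have hz' := hPJ hz
        have hzJ : z ∈ J := by
          have := mul_mem (mul_mem (inv_mem n.2) hz') n.2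
          rwa [show (n : PSL)⁻¹ * ((n : PSL) * z * (n : PSL)⁻¹) * n = z by group] at this
        exact (hQ _).1 ((Subgroup.mem_normalizer_iff.1 hn ⟨z, hzJ⟩).2 ((hQ _).2 hz))
    intro y hy
    exact Subtype.ext (hcommP ((hQ y).1 hy) (hex n n.2 hnN))
  let f := MonoidHom.transferSylow Q hN
  have hcompl := MonoidHom.ker_transferSylow_isComplement' Q hN
  set K := f.ker.map J.subtype with hKdef
  have hKodd : Odd (Nat.card K) := by
    rw [hKdef, Subgroup.card_map_of_injective J.subtype_injective, Nat.odd_iff]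
    have := MonoidHom.not_dvd_card_ker_transferSylow Q hN
    change ¬ 2 ∣ Nat.card f.ker at this
    omega
  have hPK : ∀ a ∈ (P : Subgroup PSL), ∀ x ∈ K, a * x * a⁻¹ ∈ K := by
    rintro a ha _ ⟨x, hx, rfl⟩
    exact ⟨_, (inferInstance : f.ker.Normal).conj_mem x hx ⟨a, hPJ ha⟩, rfl⟩
  have hKP : ∀ x ∈ K, x ∈ (P : Subgroup PSL) → x = 1 := fun x hx hxP => by
    refine eq_one_of_two_odd ⟨1, by rw [pow_one, pow_two]; exact hV x hxP⟩ (hKodd.of_dvd_nat ?_)
    rw [← Subgroup.orderOf_mk x hx]; exact orderOf_dvd_natCard _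
  have habel : ∀ {x y}, x ∈ K → y ∈ K → x * y = y * x := fun hx hy =>
    odd_comm_all p hp P h4 hV K hKodd hPK hx hy
  have hoddel : ∀ x ∈ K, Odd (orderOf x) := fun x hx => hKodd.of_dvd_nat (by
    rw [← Subgroup.orderOf_mk x hx]; exact orderOf_dvd_natCard _)
  by_cases hsmall : H ≤ (P : Subgroup PSL)
  · refine ⟨1, one_mem _, ?_⟩
    rw [cmap_one, cmap_eq_self_iff, le_antisymm hsmall hPH]
    exact hg
  obtain ⟨h, hh, hhP⟩ := SetLike.not_le_iff_exists.1 hsmall
  obtain ⟨⟨⟨k, hk⟩, ⟨u, hu⟩⟩, hku⟩ := hcompl.2 (⟨h, le_sup_left (b := cmap g H) hh⟩ : J)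
  have hku' : (k : PSL) * (u : PSL) = h := congrArg Subtype.val hku
  have hkK : (k : PSL) ∈ K := ⟨k, hk, rfl⟩
  have hkH : (k : PSL) ∈ H := by
    have := H.mul_mem hh (inv_mem (hPH ((hQ u).1 hu)))
    rwa [← hku', mul_inv_cancel_right] at this
  have hk1 : (k : PSL) ≠ 1 := fun e => hhP (by rw [← hku', e, one_mul]; exact (hQ u).1 hu)
  have hk'K : g * (k : PSL) * g⁻¹ ∈ K := by
    have hJm : g * (k : PSL) * g⁻¹ ∈ J := Subgroup.mem_sup_right ⟨_, hkH, rfl⟩
    refine ⟨⟨_, hJm⟩, ?_, rfl⟩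
    rw [SetLike.mem_coe, MonoidHom.mem_ker]
    refine eq_one_of_two_odd ?_ ((hoddel _ hkK).of_dvd_nat ?_)
    · obtain ⟨t, ht⟩ := Q.2 (f ⟨_, hJm⟩)
      exact ⟨t, ht⟩
    · refine (orderOf_map_dvd f _).trans ?_
      rw [Subgroup.orderOf_mk]
      exact ((MulAut.conj g).orderOf_eq (k : PSL)).dvd
  -- some element of the four-group centralises a nontrivial element of `K`, hence all of `K`
  obtain ⟨v, hv, hv1, z, hz, hz1, hvz⟩ : ∃ v ∈ (P : Subgroup PSL), v ≠ 1 ∧ ∃ z ∈ K, z ≠ 1 ∧ v * z = z * v := by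
    obtain ⟨a, b, ha, hb, ha1, hb1, hab⟩ := exists_two P h4
    have hcase : ∀ c ∈ (P : Subgroup PSL),
        (c * (k : PSL) * c⁻¹ = (k : PSL)⁻¹) ∨ ∃ z ∈ K, z ≠ 1 ∧ c * z = z * c := by
      intro c hc
      have hc' := hPK c hc _ hkK
      rcases eq_or_ne ((k : PSL) * (c * (k : PSL) * c⁻¹)) 1 with e | e
      · exact Or.inl (inv_eq_of_mul_eq_one_right e).symm
      refine Or.inr ⟨_, mul_mem hkK hc', e, mul_inv_eq_iff_eq_mul.1 ?_⟩
      rw [show c * ((k : PSL) * (c * (k : PSL) * c⁻¹)) * c⁻¹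
          = (c * (k : PSL) * c⁻¹) * ((c * c) * (k : PSL) * (c * c)⁻¹) by group, hV c hc, one_mul, inv_one, mul_one]
      exact habel hc' hkK
    rcases hcase a ha with e | ⟨z, hz, hz1, hz2⟩
    swap
    · exact ⟨a, ha, ha1, z, hz, hz1, hz2⟩
    rcases hcase b hb with e' | ⟨z, hz, hz1, hz2⟩
    swap
    · exact ⟨b, hb, hb1, z, hz, hz1, hz2⟩
    refine ⟨a * b, Subgroup.mul_mem _ ha hb, fun h => hab (mul_right_cancel (h.trans (hV b hb).symm)),
      k, hkK, hk1, mul_inv_eq_iff_eq_mul.1 ?_⟩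
    rw [show a * b * (k : PSL) * (a * b)⁻¹ = a * (b * (k : PSL) * b⁻¹) * a⁻¹ by group, e',
      show a * (k : PSL)⁻¹ * a⁻¹ = (a * (k : PSL) * a⁻¹)⁻¹ by group, e, inv_inv]
  have hall : ∀ y ∈ K, v * y = y * v := by
    intro y hy
    obtain ⟨X, hX⟩ := toPSL_surjective z
    obtain ⟨Y, hY⟩ := toPSL_surjective y
    obtain ⟨G, hG⟩ := toPSL_surjective v
    have e1 := odd_comm h2 (x := X) (g := G) (by rw [hX]; exact hoddel z hz) (by rw [hX, hG, hvz])
    have e2 := odd_comm h2 (x := X) (g := Y) (by rw [hX]; exact hoddel z hz) (by rw [hX, hY]; exact habel hz hy)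
    have := Dickson.commute_of_commute (z := X)
      (fun hs => hz1 (by rw [← hX, toPSL_eq_one_iff]; exact hs.eq_one_or)) e1 e2
    rw [← hG, ← hY, ← map_mul, ← map_mul, this]
  have hw : g * v * g⁻¹ = v := by
    by_contra hne
    have hwP := (Subgroup.mem_normalizer_iff.1 hg v).1 hv
    have hw1 : g * v * g⁻¹ ≠ 1 := fun e => hv1 (conj_eq_one_iff.1 e)
    have := centralizer_eq_one h2 (P : Subgroup PSL) hV hv hwP hv1 hw1 (Ne.symm hne) (hall _ hk'K).symm
      (by rw [show g * (k : PSL) * g⁻¹ * (g * v * g⁻¹) = g * ((k : PSL) * v) * g⁻¹ by group,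
        ← hall _ hkK]; group)
    exact hk1 (conj_eq_one_iff.1 (hKP _ hk'K this))
  exact ⟨g, Subgroup.mem_sup_left (hPH (fix_mem h2 P h4 hV hg hv hv1 hw)), rfl⟩

end Klein

/-- Subgroups of odd index in `PSL(2, q)`, `q` odd, are pronormal. -/
theorem pronormal_two [Fintype F] (hodd : Odd (Fintype.card F)) (H : Subgroup PSL) (hH : Odd H.index) :
    Cfsg.IsPronormal H := by
  classical
  haveI := Fact.mk Nat.prime_two
  obtain ⟨p, _⟩ := CharP.exists F
  haveI : Fact p.Prime := ⟨CharP.char_is_prime F p⟩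
  have hp : p ≠ 2 := by
    rintro rfl
    have := FiniteField.even_card_of_char_two (F := F) (ringChar.eq F 2)
    have := Nat.odd_iff.1 hodd
    omega
  have h2 : (2 : F) ≠ 0 := Dickson.two_ne_zero' hp
  obtain ⟨P, hPH⟩ := PronormalReduce.exists_sylow_le H hH
  obtain ⟨Q⟩ : Nonempty (Sylow 2 SL) := inferInstance
  obtain ⟨k, hk, ⟨e⟩⟩ := sylow_two_SL2 p hp Q
  have hker : IsPGroup 2 ↥((toPSL : SL →* PSL)).ker := fun x => ⟨1, Subtype.ext (by
    have hx := toPSL_eq_one_iff.1 x.2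
    show (x : SL) ^ 2 ^ 1 = 1
    rcases hx with h | h <;> rw [h] <;> simp [sq])⟩
  rcases hk.lt_or_eq with hk2 | rfl
  · have hidx : ¬ 2 ∣ (Q : Subgroup SL).index := Q.not_dvd_index
    obtain ⟨t1, t2, t3⟩ := PronormalReduce.selfnorm_map (f := toPSL) toPSL_surjective hker Q.2 hidx
      (selfnorm_big h2 hk2 Q e)
    exact PronormalReduce.pronormal_of_selfnorm t1 t2 t3 H hH
  · obtain ⟨c, hc⟩ := MulAction.exists_smul_eq PSL (Q.mapSurjective toPSL_surjective) P
    have hle : (toPSL : SL →* PSL).ker ≤ (Q : Subgroup SL) := by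
      have := Q.2.to_sup_of_normal_right hker
      exact (Q.is_maximal' this le_sup_left) ▸ le_sup_right
    have hcard : Nat.card P = 4 := by
      have h8 : Nat.card Q = 8 := by
        have := Nat.card_congr e.toEquiv
        rwa [Nat.card_eq_fintype_card (α := QuaternionGroup (2 ^ 1)), QuaternionGroup.card] at this
      have hk' : Nat.card (toPSL : SL →* PSL).ker = 2 := by
        rw [Nat.card_eq_two_iff]
        refine ⟨1, ⟨-1, toPSL_eq_one_iff.2 (Or.inr rfl)⟩, fun e => one_ne_neg_one_SL h2 (congrArg Subtype.val e), ?_⟩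
        refine Set.eq_univ_of_forall fun x => ?_
        rcases toPSL_eq_one_iff.1 x.2 with h | h
        · exact Or.inl (Subtype.ext h)
        · exact Or.inr (Subtype.ext h)
      have hm := Subgroup.card_eq_card_quotient_mul_card_subgroup ((toPSL : SL →* PSL).ker.subgroupOf (Q : Subgroup SL))
      rw [Nat.card_congr (Subgroup.subgroupOfEquivOfLe hle).toEquiv, hk'] at hm
      have hr : Nat.card (Q.mapSurjective toPSL_surjective) * 2 = Nat.card Q := by
        rw [hm]
        congr 1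
        let φ : (Q : Subgroup SL) →* PSL := toPSL.comp (Q : Subgroup SL).subtype
        have hφ : φ.range = ((Q : Subgroup SL).map toPSL) := by
          rw [MonoidHom.range_comp, Subgroup.range_subtype]
        show Nat.card ↥((Q : Subgroup SL).map toPSL) = _
        rw [← hφ, ← Nat.card_congr (QuotientGroup.quotientKerEquivRange φ).toEquiv]
        rfl
      rw [Nat.card_congr (Sylow.equiv P (Q.mapSurjective toPSL_surjective)).toEquiv]
      omega
    have hV : ∀ x ∈ (P : Subgroup PSL), x * x = 1 := by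
      intro x hx
      rw [← hc, Sylow.coe_subgroup_smul, Subgroup.pointwise_smul_def] at hx
      obtain ⟨_, hy, rfl⟩ := hx
      obtain ⟨y, hy', rfl⟩ := hy
      show c * toPSL y * c⁻¹ * (c * toPSL y * c⁻¹) = 1
      have h4 : y ^ 4 = 1 := by
        have : (⟨y, hy'⟩ : (Q : Subgroup SL)) ^ 4 = 1 := by
          apply e.injective
          rw [map_pow, map_one]
          have key : ∀ u : QuaternionGroup (2 ^ 1), u ^ 4 = 1 := by decide
          exact key _
        exact congrArg Subtype.val this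
      have h22 : y * y * (y * y) = 1 := by rw [← h4]; simp [pow_succ, mul_assoc]
      have : toPSL (y * y) = 1 := toPSL_eq_one_iff.2 (Dickson.eq_one_or_of_sq hp h22)
      rw [map_mul] at this
      calc c * toPSL y * c⁻¹ * (c * toPSL y * c⁻¹) = c * (toPSL y * toPSL y) * c⁻¹ := by group
        _ = 1 := by rw [this]; group
    exact klein_case p hp P hcard hV H hPH

end Cfsg.Agent.KnownA.PronormalTwo
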