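import Cfsg.Agent.KnownA.Pronormal.Base
import Cfsg.Agent.KnownA.Pronormal.DimTwo
import Cfsg.Agent.KnownA.Pronormal.CharTwo

/-!
Subgroups of odd index in `PSL(2^w, q)` are pronormal.
-/

set_option autoImplicit false
set_option linter.unusedSectionVars false

namespace Cfsg.Agent.KnownA.PronormalLinear

open Matrix

variable {F : Type*} [Field F] {n n' : Type*} [Fintype n] [DecidableEq n] [Fintype n'] [DecidableEq n']

/-- renaming the coordinates -/
def slReindex (F : Type*) [Field F] (e : n ≃ n') : SpecialLinearGroup n F ≃* SpecialLinearGroup n' F where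
  toFun A := ⟨Matrix.reindexAlgEquiv F F e A.1, by rw [Matrix.det_reindexAlgEquiv, A.2]⟩
  invFun A := ⟨Matrix.reindexAlgEquiv F F e.symm A.1, by rw [Matrix.det_reindexAlgEquiv, A.2]⟩
  left_inv A := Subtype.ext (by ext i j; simp)
  right_inv A := Subtype.ext (by ext i j; simp)
  map_mul' A B := Subtype.ext (map_mul (Matrix.reindexAlgEquiv F F e) A.1 B.1)

theorem selfnorm_equiv {G G' : Type*} [Group G] [Group G'] (e : G ≃* G') {T : Subgroup G} (hT : IsPGroup 2 ↥T)
    (hidx : ¬ 2 ∣ T.index) (hN : Subgroup.normalizer (T : Set G) ≤ T) :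
    IsPGroup 2 ↥(T.map e.toMonoidHom) ∧ ¬ 2 ∣ (T.map e.toMonoidHom).index ∧
      Subgroup.normalizer ((T.map e.toMonoidHom : Subgroup G') : Set G') ≤ T.map e.toMonoidHom := by
  refine ⟨hT.map _, by rwa [show (T.map e.toMonoidHom).index = T.index from Subgroup.index_map_equiv T e], fun x hx => ⟨e.symm x, hN ?_, e.apply_symm_apply x⟩⟩
  refine Subgroup.mem_normalizer_iff.2 fun y => ?_
  have h := Subgroup.mem_normalizer_iff.1 hx (e y)
  rw [Subgroup.mem_map_equiv, Subgroup.mem_map_equiv] at h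
  simpa using h

variable [Fintype F]

theorem center_two_group (w : ℕ) :
    IsPGroup 2 ↥(Subgroup.center (SpecialLinearGroup (Fin (2 ^ w)) F)) := by
  intro A
  refine ⟨w, Subtype.ext (Subtype.ext ?_)⟩
  obtain ⟨r, hr, he⟩ := Matrix.SpecialLinearGroup.mem_center_iff.1 A.2
  rw [Fintype.card_fin] at hr
  show ((A : SpecialLinearGroup (Fin (2 ^ w)) F) ^ 2 ^ w).1 = 1
  rw [Matrix.SpecialLinearGroup.coe_pow, ← he, ← map_pow, hr, map_one]

theorem pronormal_psl (w : ℕ) (hw : 1 ≤ w) (H : Subgroup (ProjectiveSpecialLinearGroup (Fin (2 ^ w)) F))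
    (hH : Odd H.index) : Cfsg.IsPronormal H := by
  have hsurj : Function.Surjective
      (QuotientGroup.mk' (Subgroup.center (SpecialLinearGroup (Fin (2 ^ w)) F))) := QuotientGroup.mk'_surjective _
  rcases Nat.even_or_odd (Fintype.card F) with he | ho
  · haveI : CharP F 2 := ringChar.of_eq (FiniteField.even_card_iff_char_two.2 (Nat.even_iff.1 he))
    refine PronormalReduce.pronormal_of_comap hsurj (PronormalCharTwo.pronormal_special _ ?_)
    rwa [Subgroup.index_comap_of_surjective _ hsurj]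
  obtain ⟨v, rfl⟩ : ∃ v, w = v + 1 := ⟨w - 1, by omega⟩
  rcases v with _ | s
  · exact PronormalTwo.pronormal_two (F := F) ho H hH
  obtain ⟨T, t1, t2, t3⟩ := sl_selfnorm ho s
  let e : Fin (2 ^ (s + 1)) ⊕ Fin (2 ^ (s + 1)) ≃ Fin (2 ^ (s + 1 + 1)) :=
    finSumFinEquiv.trans (finCongr (by rw [pow_succ 2 (s + 1)]; ring))
  obtain ⟨u1, u2, u3⟩ := selfnorm_equiv (slReindex F e) t1 t2 t3
  obtain ⟨v1, v2, v3⟩ := PronormalReduce.selfnorm_map hsurj
    (by rw [QuotientGroup.ker_mk']; exact center_two_group (s + 1 + 1)) u1 u2 u3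
  exact PronormalReduce.pronormal_of_selfnorm v1 v2 v3 H hH

end Cfsg.Agent.KnownA.PronormalLinear
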