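import Cfsg.Agent.KnownA.Pronormal.Blocks

/-!
The normaliser of the doubling of a 2-group of matrices.
-/

set_option autoImplicit false

namespace Cfsg.Agent.KnownA.PronormalLinear

open Matrix

variable {F : Type*} [Field F] {m : Type*} [Fintype m] [DecidableEq m]

/-- multiplication by a scalar: up to sign -/
def PM {n : Type*} [Fintype n] [DecidableEq n] (g h : GL n F) : Prop := g = h ∨ g = sc F n (-1) * h

theorem neg_ne {n : Type*} [Fintype n] [DecidableEq n] [Nonempty n] (h2 : (2 : F) ≠ 0) (g : GL n F) :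
    sc F n (-1) * g ≠ g := by
  intro e
  have e' : sc F n (-1) = (1 : GL n F) := mul_eq_right.1 e
  obtain ⟨i⟩ := ‹Nonempty n›
  have := congrArg (fun x : GL n F => (x : Matrix n n F) i i) e'
  simp [sc_val] at this
  exact h2 (by linear_combination -this)

theorem sc_neg_one_blk : sc F (m ⊕ m) (-1) = blk (sc F m (-1), sc F m (-1)) := by
  apply Units.ext
  rw [blk_val, sc_val, sc_val, ← fromBlocks_one, fromBlocks_smul]
  simp

theorem sc_blk (l : Fˣ) : sc F (m ⊕ m) l = blk (sc F m l, sc F m l) := by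
  apply Units.ext
  rw [blk_val, sc_val, sc_val, ← fromBlocks_one, fromBlocks_smul]
  simp

theorem scalar_of_pm [Nonempty m] {S : Subgroup (GL m F)} (h2 : (2 : F) ≠ 0) (ok : GL (m ⊕ m) F → Prop)
    (cent : ∀ x : GL m F, (∀ c ∈ S, ok (blk (c, 1)) → x * c = c * x) → ∃ l : Fˣ, x = sc F m l)
    {a b : GL m F} (hab : ∀ c ∈ S, ok (blk (c, 1)) →
      PM (blk (c, 1) * blk (a, b) * (blk (c, 1))⁻¹) (blk (a, b))) : ∃ l : Fˣ, a = sc F m l := by
  refine cent a fun c hc hok => ?_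
  have e0 : blk (c, 1) * blk (a, b) * (blk (c, 1))⁻¹ = blk (c * a * c⁻¹, b) := by
    rw [← map_inv, ← map_mul, ← map_mul, Prod.inv_mk, Prod.mk_mul_mk, Prod.mk_mul_mk, one_mul, inv_one, mul_one]
  rcases hab c hc hok with e | e <;> rw [e0] at e
  · exact (mul_inv_eq_iff_eq_mul.1 (blk_inj e).1).symm
  · rw [sc_neg_one_blk, ← map_mul, Prod.mk_mul_mk] at e
    exact absurd (blk_inj e).2.symm (neg_ne h2 b)

theorem odd_part_scalar {u : Fˣ} [Finite F] : ∃ s v : Fˣ, u = s * v ∧ (∃ t, s ^ 2 ^ t = 1) ∧ Odd (orderOf v) := by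
  obtain ⟨t, o, ho, e⟩ := Nat.exists_eq_two_pow_mul_odd (orderOf_pos u).ne'
  have hcop : IsCoprime ((2 ^ t : ℕ) : ℤ) (o : ℤ) :=
    Nat.isCoprime_iff_coprime.2 ((Nat.coprime_two_left.2 ho).pow_left t)
  obtain ⟨x, y, hxy⟩ := hcop
  refine ⟨u ^ (y * (o : ℤ)), u ^ (x * ((2 ^ t : ℕ) : ℤ)), ?_, ⟨t, ?_⟩, ?_⟩
  · rw [← _root_.zpow_add, add_comm, hxy, _root_.zpow_one]
  · rw [← zpow_natCast, ← _root_.zpow_mul, mul_assoc, ← Nat.cast_mul, mul_comm o, ← e, mul_comm,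
      _root_.zpow_mul, zpow_natCast, pow_orderOf_eq_one, _root_.one_zpow]
  · refine Odd.of_dvd_nat ho (orderOf_dvd_of_pow_eq_one ?_)
    rw [← zpow_natCast, ← _root_.zpow_mul, mul_assoc, ← Nat.cast_mul, ← e, mul_comm,
      _root_.zpow_mul, zpow_natCast, pow_orderOf_eq_one, _root_.one_zpow]

/-- The normaliser of the doubling, inside a subgroup cut out by `ok`. -/
theorem normalizer_wr [Finite F] [Nonempty m] (h2 : (2 : F) ≠ 0) {S : Subgroup (GL m F)}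
    (ok : GL (m ⊕ m) F → Prop)
    (norm : ∀ g : GL m F, (∀ a ∈ S, g * a * g⁻¹ ∈ S) → ∃ s ∈ S, ∃ l : Fˣ, g = s * sc F m l)
    (cent : ∀ x : GL m F, (∀ c ∈ S, ok (blk (c, 1)) → x * c = c * x) → ∃ l : Fˣ, x = sc F m l)
    (cent' : ∀ x : GL m F, (∀ c ∈ S, ok (blk (1, c)) → x * c = c * x) → ∃ l : Fˣ, x = sc F m l)
    (hc : ∃ c ∈ S, ok (blk (c, 1)) ∧ ¬ PM c 1)
    (hok1 : ∀ a ∈ S, ∃ b ∈ S, ok (blk (a, b))) (hok2 : ∀ b ∈ S, ∃ a ∈ S, ok (blk (a, b)))
    (hneg : sc F m (-1) ∈ S) (okz : ok (zB F m)) (okw : ok (wB F m))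
    (okconj : ∀ s ∈ wr S, ∀ x, ok x → ok (s * x * s⁻¹))
    {g : GL (m ⊕ m) F} (hg : ∀ x ∈ wr S, ok x → g * x * g⁻¹ ∈ wr S ∧ ok (g * x * g⁻¹))
    (hg' : ∀ x ∈ wr S, ok x → g⁻¹ * x * g ∈ wr S ∧ ok (g⁻¹ * x * g)) :
    ∃ s ∈ wr S, ∃ l : Fˣ, g = s * sc F (m ⊕ m) l := by
  classical
  have hzmem : zB F m ∈ wr S := blk_mem_wr hneg (one_mem _)
  set x := g * zB F m * g⁻¹ with hx
  have hxx : x * x = 1 := by
    rw [hx, show g * zB F m * g⁻¹ * (g * zB F m * g⁻¹) = g * (zB F m * zB F m) * g⁻¹ by group]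
    have : zB F m * zB F m = 1 := by
      rw [zB, ← map_mul, Prod.mk_mul_mk, mul_one, ← map_mul, show (-1 : Fˣ) * -1 = 1 by simp, map_one,
        ← Prod.one_eq_mk, map_one]
    rw [this]; group
  have hpm : ∀ y ∈ wr S, ok y → PM (y * x * y⁻¹) x := by
    intro y hy hyok
    obtain ⟨⟨a, ha, b, hb, e | e⟩, -⟩ := hg' y hy hyok
    · refine Or.inl ?_
      have e1 : blk (a, b) * zB F m = zB F m * blk (a, b) := by
        rw [zB, ← map_mul, ← map_mul, Prod.mk_mul_mk, Prod.mk_mul_mk, sc_comm, mul_one, one_mul]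
      rw [hx, show y * (g * zB F m * g⁻¹) * y⁻¹ = g * ((g⁻¹ * y * g) * zB F m * (g⁻¹ * y * g)⁻¹) * g⁻¹ by group,
        e, e1, mul_inv_cancel_right]
    · refine Or.inr ?_
      have e1 : blk (a, b) * wB F m * zB F m = sc F (m ⊕ m) (-1) * zB F m * (blk (a, b) * wB F m) := by
        rw [zB, mul_assoc, wB_blk, ← mul_assoc, ← map_mul, sc_neg_one_blk, ← map_mul, ← mul_assoc,
          ← map_mul, Prod.mk_mul_mk, Prod.mk_mul_mk, Prod.mk_mul_mk, sc_comm]
        congr 3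
        · rw [← map_mul]; simp
        · rw [mul_one, sc_comm]
      rw [hx, show y * (g * zB F m * g⁻¹) * y⁻¹ = g * ((g⁻¹ * y * g) * zB F m * (g⁻¹ * y * g)⁻¹) * g⁻¹ by group,
        e, e1, mul_inv_cancel_right, ← mul_assoc (sc F (m ⊕ m) (-1)), ← mul_assoc (sc F (m ⊕ m) (-1)),
        sc_comm (-1) g]
      group
  obtain ⟨a, ha, b, hb, hxe | hxe⟩ := (hg _ hzmem okz).1
  swap
  · exfalso
    obtain ⟨c, hc, hcok, hcne⟩ := hc
    have e0 : blk (c, 1) * x * (blk (c, 1))⁻¹ = blk (c * a, b * c⁻¹) * wB F m := by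
      rw [hx, hxe, ← map_inv, Prod.inv_mk, ← mul_assoc, ← map_mul, mul_assoc, wB_blk, ← mul_assoc, ← map_mul,
        Prod.mk_mul_mk, Prod.mk_mul_mk, inv_one, one_mul, mul_one]
    rcases hpm _ (blk_mem_wr hc (one_mem _)) hcok with e | e <;> rw [e0] at e
    · exact hcne (Or.inl (mul_eq_right.1 (blk_inj (mul_right_cancel (e.trans (hx.trans hxe)))).1))
    · rw [hx.trans hxe, sc_neg_one_blk, ← mul_assoc, ← map_mul, Prod.mk_mul_mk] at e
      exact hcne (Or.inr (by rw [mul_one]; exact mul_right_cancel (blk_inj (mul_right_cancel e)).1))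
  obtain ⟨la, rfl⟩ := scalar_of_pm h2 ok cent (a := a) (b := b) fun c hc hok => by
    rw [← hx.trans hxe] at *
    exact hpm _ (blk_mem_wr hc (one_mem _)) hok
  obtain ⟨lb, rfl⟩ : ∃ l : Fˣ, b = sc F m l := by
    refine cent' b fun c hc hok => ?_
    have e0 : blk (1, c) * x * (blk (1, c))⁻¹ = blk (sc F m la, c * b * c⁻¹) := by
      rw [hx.trans hxe, ← map_inv, ← map_mul, ← map_mul, Prod.inv_mk, Prod.mk_mul_mk, Prod.mk_mul_mk, one_mul,
        inv_one, mul_one]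
    rcases hpm _ (blk_mem_wr (one_mem _) hc) hok with e | e <;> rw [e0, hx.trans hxe] at e
    · exact (mul_inv_eq_iff_eq_mul.1 (blk_inj e).2).symm
    · rw [sc_neg_one_blk, ← map_mul, Prod.mk_mul_mk] at e
      exact absurd (blk_inj e).1.symm (neg_ne h2 _)
  have hsq : ∀ l : Fˣ, sc F m l * sc F m l = 1 → l = 1 ∨ l = -1 := by
    intro l hl
    obtain ⟨i⟩ := ‹Nonempty m›
    rw [← map_mul] at hl
    have := congrArg (fun y : GL m F => (y : Matrix m m F) i i) hl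
    simp [sc_val] at this
    rcases mul_self_eq_one_iff.1 this with e | e
    · exact Or.inl (Units.ext e)
    · exact Or.inr (Units.ext (by simpa using e))
  have hx' := hxx
  rw [hx.trans hxe, ← map_mul, Prod.mk_mul_mk, ← map_one blk, Prod.one_eq_mk] at hx'
  obtain ⟨e1, e2⟩ := blk_inj hx'
  -- reduce to a block diagonal element
  have hzw : wB F m * zB F m * wB F m = sc F (m ⊕ m) (-1) * zB F m := by
    rw [zB, wB_blk, mul_assoc, wB_sq, mul_one, sc_neg_one_blk, ← map_mul, Prod.mk_mul_mk, mul_one, ← map_mul]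
    simp
  have hzne : ∀ l : Fˣ, x ≠ blk (sc F m l, sc F m l) := by
    intro l e
    have e' : zB F m = blk (sc F m l, sc F m l) := by
      rw [show zB F m = g⁻¹ * x * g by rw [hx]; group, e, ← sc_blk, mul_assoc, sc_comm, inv_mul_cancel_left, sc_blk]
    obtain ⟨f1, f2⟩ := blk_inj e'
    exact neg_ne h2 (1 : GL m F) (by rw [mul_one, f1, ← f2])
  obtain ⟨k, hk, hkz⟩ : ∃ k ∈ ({1, wB F m} : Set (GL (m ⊕ m) F)), g * k * zB F m = zB F m * (g * k) := by
    rcases hsq la e1 with rfl | rfl <;> rcases hsq lb e2 with rfl | rfl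
    · exact absurd (hx.trans hxe) (hzne 1)
    · refine ⟨_, Set.mem_insert_of_mem _ rfl, ?_⟩
      have e : g * zB F m = blk (sc F m 1, sc F m (-1)) * g := by rw [← hxe, inv_mul_cancel_right]
      have e3 : wB F m * zB F m = blk (sc F m 1, sc F m (-1)) * wB F m := by rw [zB, wB_blk, map_one]
      have e4 : blk (sc F m 1, sc F m (-1)) = sc F (m ⊕ m) (-1) * zB F m := by
        rw [sc_neg_one_blk, zB, ← map_mul, Prod.mk_mul_mk, mul_one, ← map_mul]
        simp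
      rw [mul_assoc, e3, e4, ← mul_assoc g, ← mul_assoc g, ← sc_comm (-1) g, mul_assoc _ g, e, e4,
        ← mul_assoc (sc F (m ⊕ m) (-1)), ← mul_assoc (sc F (m ⊕ m) (-1)), ← map_mul]
      simp [mul_assoc]
    · refine ⟨1, Set.mem_insert _ _, ?_⟩
      have e : g * zB F m = blk (sc F m (-1), sc F m 1) * g := by rw [← hxe, inv_mul_cancel_right]
      rw [mul_one, e, zB, map_one]
    · exact absurd (hx.trans hxe) (hzne (-1))
  obtain ⟨g1, g2, hgk⟩ := eq_blk_of_comm h2 hkz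
  have hk' : k ∈ wr S ∧ k * k = 1 ∧ (k = 1 ∨ k = wB F m) := by
    rcases hk with rfl | hk
    · exact ⟨one_mem _, one_mul _, Or.inl rfl⟩
    · rw [Set.mem_singleton_iff] at hk; subst hk
      exact ⟨wB_mem_wr, wB_sq, Or.inr rfl⟩
  have hn : ∀ y ∈ wr S, ok y → blk (g1, g2) * y * (blk (g1, g2))⁻¹ ∈ wr S := by
    intro y hy hyok
    rw [← hgk, show g * k * y * (g * k)⁻¹ = g * (k * y * k⁻¹) * g⁻¹ by group]
    exact (hg _ (mul_mem (mul_mem hk'.1 hy) (inv_mem hk'.1)) (okconj k hk'.1 y hyok)).1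
  have hdiag : ∀ a' ∈ S, ∀ b' ∈ S, ok (blk (a', b')) → g1 * a' * g1⁻¹ ∈ S ∧ g2 * b' * g2⁻¹ ∈ S := by
    intro a' ha' b' hb' hok
    have := hn _ (blk_mem_wr ha' hb') hok
    rwa [← map_inv, ← map_mul, ← map_mul, Prod.inv_mk, Prod.mk_mul_mk, Prod.mk_mul_mk, blk_mem_wr_iff] at this
  obtain ⟨s1, hs1, l1, rfl⟩ := norm g1 fun a' ha' => by
    obtain ⟨b', hb', hok⟩ := hok1 a' ha'
    exact (hdiag a' ha' b' hb' hok).1
  obtain ⟨s2, hs2, l2, rfl⟩ := norm g2 fun b' hb' => by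
    obtain ⟨a', ha', hok⟩ := hok2 b' hb'
    exact (hdiag a' ha' b' hb' hok).2
  -- the two scalars differ by an element of the group
  have hw := hn _ wB_mem_wr okw
  have e5 : blk (s1 * sc F m l1, s2 * sc F m l2) * wB F m * (blk (s1 * sc F m l1, s2 * sc F m l2))⁻¹ =
      blk (s1 * s2⁻¹ * sc F m (l1 * l2⁻¹), s2 * s1⁻¹ * sc F m (l2 * l1⁻¹)) * wB F m := by
    rw [← map_inv, Prod.inv_mk, mul_assoc, wB_blk, ← mul_assoc, ← map_mul, Prod.mk_mul_mk]
    congr 3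
    · rw [_root_.mul_inv_rev, ← map_inv, map_mul (sc F m), mul_assoc s1, ← mul_assoc (sc F m l1), ← map_mul,
        sc_comm (l1 * l2⁻¹) s2⁻¹, map_mul, ← mul_assoc]
    · rw [_root_.mul_inv_rev, ← map_inv, map_mul (sc F m), mul_assoc s2, ← mul_assoc (sc F m l2), ← map_mul,
        sc_comm (l2 * l1⁻¹) s1⁻¹, map_mul, ← mul_assoc]
  rw [e5] at hw
  have hw' := mul_mem hw (wB_mem_wr (S := S))
  rw [mul_assoc, wB_sq, mul_one, blk_mem_wr_iff] at hw'
  have hl : sc F m (l2 * l1⁻¹) ∈ S := by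
    have := mul_mem (inv_mem (mul_mem hs2 (inv_mem hs1))) hw'.2
    rwa [inv_mul_cancel_left] at this
  refine ⟨blk (s1, s2 * sc F m (l2 * l1⁻¹)) * k, mul_mem (blk_mem_wr hs1 (mul_mem hs2 hl)) hk'.1, l1, ?_⟩
  calc g = g * k * k := by rw [mul_assoc, hk'.2.1, mul_one]
    _ = blk (s1 * sc F m l1, s2 * sc F m l2) * k := by rw [hgk]
    _ = _ := by
      rw [mul_assoc, ← sc_comm l1 k, ← mul_assoc, sc_blk, ← map_mul, Prod.mk_mul_mk, mul_assoc s2, ← map_mul,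
        inv_mul_cancel_right]

end Cfsg.Agent.KnownA.PronormalLinear
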