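import Cfsg.Agent.KnownA.Pronormal.UnitarySylow
import Cfsg.Agent.KnownA.Pronormal.Base
import Cfsg.Agent.KnownA.Pronormal.CharTwo

/-!
The start of the doubling for unitary groups: dimension one when `q ≡ 3 (mod 4)`, dimension two when
`q ≡ 1 (mod 4)`.
-/

set_option autoImplicit false
set_option linter.unusedSectionVars false

namespace Cfsg.Agent.KnownA.PronormalUnitary

open Matrix Cfsg.Agent.KnownA.PronormalLinear Cfsg.Agent.Forms
open Cfsg.Agent.KnownA.PronormalCharTwo (dg dg_val dg_perm)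
open Cfsg.Agent.Linear.Unipotent (permGL permMat permGL_mul)

variable {F : Type*} [Field F] [Fintype F] {q : ℕ} (hF : Fintype.card F = q ^ 2)

local notation "U" => unit (frobQ hF)

theorem odd_card (hodd : Odd q) : Odd (q ^ 2) := hodd.pow

include hF in
theorem sq_neg_one (hodd : Odd q) : ∃ i : Fˣ, i * i = -1 ∧ i ≠ 1 ∧ i ≠ -1 ∧ i ^ 4 = 1 := by
  have h2 := two_ne_zero_of_odd (F := F) (by rw [hF]; exact hodd.pow)
  obtain ⟨r, hr⟩ : IsSquare (-1 : F) := FiniteField.isSquare_neg_one_iff.2 (by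
    rw [hF]; obtain ⟨k, rfl⟩ := hodd; ring_nf; omega)
  have hr0 : r ≠ 0 := fun e => by rw [e, mul_zero] at hr; exact neg_ne_zero.2 one_ne_zero hr
  set ι : Fˣ := Units.mk0 r hr0
  have hι : ι * ι = -1 := Units.ext (by simpa [ι] using hr.symm)
  refine ⟨ι, hι, fun e => ?_, fun e => ?_, ?_⟩
  · rw [e, mul_one] at hι
    exact h2 (by linear_combination (by simpa using congrArg Units.val hι : (1 : F) = -1))
  · rw [e] at hι
    exact h2 (by linear_combination (by simpa using congrArg Units.val hι : (1 : F) = -1))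
  · rw [show (4 : ℕ) = 2 + 2 from rfl, pow_add, sq, hι]; simp

/-- the start when `q ≡ 3 (mod 4)` -/
theorem good_minus (h4 : q % 4 = 3) : ∃ S : Subgroup (GL (Fin 1 ⊕ Fin 1) F), GoodU hF S := by
  have hodd : Odd q := Nat.odd_iff.2 (by omega)
  have h2 := two_ne_zero_of_odd (F := F) (by rw [hF]; exact hodd.pow)
  have := Fact.mk Nat.prime_two
  obtain ⟨P⟩ : Nonempty (Sylow 2 (U (Fin 1))) := inferInstance
  set S : Subgroup (GL (Fin 1) F) := (P : Subgroup (U (Fin 1))).map (U (Fin 1)).subtype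
  have hsub : S ≤ U (Fin 1) := Subgroup.map_subtype_le _
  have hc : Nat.card ↥S = 2 ^ padicValNat 2 (Nat.card (U (Fin 1))) := by
    rw [Subgroup.card_map_of_injective (U (Fin 1)).subtype_injective, P.card_eq_multiplicity,
      Nat.factorization_def _ Nat.prime_two]
  have hneg := scalar_memU hF hsub hc (neg_one_norm hodd) ⟨1, by simp⟩
  obtain ⟨ι, hι, hι1, hιneg, hι4⟩ := sq_neg_one hF hodd
  have hιq : ι ^ (q + 1) = 1 := by
    obtain ⟨c, hc⟩ : 4 ∣ q + 1 := by omega
    rw [hc, pow_mul, hι4, one_pow]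
  have hιmem : sc F (Fin 1) ι ∈ S := scalar_memU hF hsub hc hιq ⟨2, hι4⟩
  have hιmem' : sc F (Fin 1) ι⁻¹ ∈ S := scalar_memU hF hsub hc (by rw [_root_.inv_pow, hιq, inv_one])
    ⟨2, by rw [_root_.inv_pow, show ι ^ 2 ^ 2 = 1 from hι4, inv_one]⟩
  have hnorm : ∀ g : GL (Fin 1) F, (∀ a ∈ S, g * a * g⁻¹ ∈ S) → ∃ s ∈ S, ∃ l : Fˣ, g = s * sc F (Fin 1) l :=
    fun g _ => by obtain ⟨l, hl⟩ := scalar_one g; exact ⟨1, one_mem _, l, by rw [one_mul, hl]⟩
  have hsc1 : ∀ l : Fˣ, PM (sc F (Fin 1) l) 1 → l = 1 ∨ l = -1 := by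
    intro l h
    rcases h with h | h <;> [left; right] <;> apply Units.ext <;>
      have := congrArg (fun x : GL (Fin 1) F => (x : Matrix (Fin 1) (Fin 1) F) 0 0) h <;>
      simpa [sc_val] using this
  have hcne : ¬ PM (sc F (Fin 1) ι) 1 := fun h => (hsc1 ι h).elim hι1 hιneg
  have hone : ∀ l : Fˣ, GeneralLinearGroup.det (sc F (Fin 1) l) = l := fun l => by rw [det_sc]; simp
  have hexp : expoU q (2 * Fintype.card (Fin 1)) = 2 * expoU q (Fintype.card (Fin 1)) + 1 := by
    rw [Fintype.card_fin, mul_one, expoU_one, expoU_two (by omega) hodd]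
    obtain ⟨j, hj⟩ : ∃ j, q - 1 = 2 * (2 * j + 1) := ⟨q / 4, by omega⟩
    rw [hj, padicValNat.mul (by norm_num) (by omega), padicValNat.self (by norm_num),
      padicValNat.eq_zero_of_not_dvd (by omega : ¬ 2 ∣ 2 * j + 1)]
  refine ⟨wr S, wr_le_unit _ hsub, card_wr_unit hF hodd hc hexp, fun g hg => ?_, fun x hx => ?_,
    fun u hu1 hu => ?_, ?_⟩
  · have hg' : ∀ y ∈ wr S, g⁻¹ * y * g ∈ wr S := by
      intro y hy
      have he : (wr S).map (MulAut.conj g).toMonoidHom = wr S :=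
        Subgroup.eq_of_le_of_card_ge (by rintro _ ⟨a, ha, rfl⟩; exact hg a ha)
          (Subgroup.card_map_of_injective (MulAut.conj g).injective).ge
      rw [← he] at hy
      obtain ⟨a, ha, rfl⟩ := hy
      rw [show g⁻¹ * (MulAut.conj g).toMonoidHom a * g = a by
        show g⁻¹ * (g * a * g⁻¹) * g = a; group]
      exact ha
    exact normalizer_wr h2 (fun _ => True) hnorm (fun x _ => scalar_one x) (fun x _ => scalar_one x)
      ⟨_, hιmem, trivial, hcne⟩ (fun a ha => ⟨1, one_mem _, trivial⟩) (fun a ha => ⟨1, one_mem _, trivial⟩)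
      hneg trivial trivial (fun _ _ _ _ => trivial) (fun y hy _ => ⟨hg y hy, trivial⟩) (fun y hy _ => ⟨hg' y hy, trivial⟩)
  · have hd : GeneralLinearGroup.det (blk (sc F (Fin 1) ι, sc F (Fin 1) ι⁻¹)) = 1 := by
      rw [det_blk, hone, hone, mul_inv_cancel]
    have e := hx _ (blk_mem_wr hιmem hιmem') hd
    have hιi : ι⁻¹ = -1 * ι := inv_eq_of_mul_eq_one_right (by rw [mul_comm (-1) ι, ← mul_assoc, hι]; simp)
    have hb : blk (sc F (Fin 1) ι, sc F (Fin 1) ι⁻¹) = blk (1, sc F (Fin 1) (-1)) * sc F (Fin 1 ⊕ Fin 1) ι := by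
      rw [sc_blk, ← map_mul, Prod.mk_mul_mk, one_mul, ← map_mul, ← hιi]
    have hz : blk (1, sc F (Fin 1) (-1)) = sc F (Fin 1 ⊕ Fin 1) (-1) * zB F (Fin 1) := by
      rw [zB, sc_neg_one_blk, ← map_mul, Prod.mk_mul_mk, ← map_mul, mul_one]; simp
    rw [hb, hz, mul_assoc, ← mul_assoc x, ← sc_comm (-1) x, mul_assoc, mul_assoc, mul_right_inj, ← mul_assoc,
      mul_assoc (zB F (Fin 1)) _ x, sc_comm ι x, ← mul_assoc, mul_left_inj] at e
    obtain ⟨a, b, rfl⟩ := eq_blk_of_comm h2 e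
    obtain ⟨la, rfl⟩ := scalar_one a
    obtain ⟨lb, rfl⟩ := scalar_one b
    have hw : blk (1, sc F (Fin 1) (-1)) * wB F (Fin 1) ∈ wr S := mul_mem (blk_mem_wr (one_mem _) hneg) wB_mem_wr
    have hdw : GeneralLinearGroup.det (blk (1, sc F (Fin 1) (-1)) * wB F (Fin 1)) = 1 := by
      apply Units.ext
      simp [blk_val, wB_val, fromBlocks_multiply, sc_val]
      rw [← Matrix.det_reindex_self finSumFinEquiv]
      simp [det_fin_two, fromBlocks, finSumFinEquiv, Fin.addCases]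
    have e2 := hx _ hw hdw
    rw [← mul_assoc, ← map_mul, mul_assoc, wB_blk, ← mul_assoc, ← map_mul, Prod.mk_mul_mk, Prod.mk_mul_mk,
      mul_one, one_mul] at e2
    have e3 := (blk_inj (mul_right_cancel e2)).1
    exact ⟨la, by rw [sc_blk, ← e3]⟩
  · refine ⟨blk (sc F (Fin 1) u, 1), blk_mem_wr (scalar_memU hF hsub hc hu1 hu) (one_mem _), ?_⟩
    rw [det_blk, hone, map_one, mul_one]
  · refine ⟨blk (sc F (Fin 1) ι, sc F (Fin 1) ι⁻¹), blk_mem_wr hιmem hιmem',
      by rw [det_blk, hone, hone, mul_inv_cancel], fun h => ?_⟩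
    rcases h with h | h
    · rw [← map_one blk, Prod.one_eq_mk] at h
      exact hcne (Or.inl (blk_inj h).1)
    · rw [mul_one, sc_neg_one_blk] at h
      exact hcne (Or.inr (by rw [mul_one]; exact (blk_inj h).1))

theorem dg_two_scalar {d : Fin 2 → Fˣ} (h : d 0 = d 1) : dg d = sc F (Fin 2) (d 0) := by
  apply Units.ext
  rw [dg_val, sc_val, Matrix.smul_one_eq_diagonal]
  congr 1
  funext i
  fin_cases i <;> simp [h]

theorem det_dg (d : Fin 2 → Fˣ) : GeneralLinearGroup.det (dg d) = d 0 * d 1 :=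
  Units.ext (by simp [dg_val, Fin.prod_univ_two])

theorem dg_inj {d e : Fin 2 → Fˣ} (h : dg d = dg e) : d = e := by
  funext i
  exact Units.ext (by simpa [dg_val] using congrFun (congrFun (congrArg (fun g : GL (Fin 2) F => g.1) h) i) i)

include hF in
/-- the start when `q ≡ 1 (mod 4)` -/
theorem good_plus (h4 : q % 4 = 1) : ∃ S : Subgroup (GL (Fin 2) F), GoodU hF S := by
  classical
  have hq := two_le_q hF
  have hodd : Odd q := Nat.odd_iff.2 (by omega)
  have h2 := two_ne_zero_of_odd (F := F) (by rw [hF]; exact hodd.pow)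
  have := Fact.mk Nat.prime_two
  obtain ⟨ι, hι, hι1, hιneg, hι4⟩ := sq_neg_one hF hodd
  have hιq : ι ^ q = ι := by
    obtain ⟨c, hc⟩ : 4 ∣ q - 1 := by omega
    rw [show q = 4 * c + 1 by omega, pow_succ, pow_mul, hι4, one_pow, one_mul]
  set a := padicValNat 2 (q - 1) with ha
  have ha2 : 2 ≤ a := by
    refine (padicValNat_dvd_iff_le (by omega)).1 ?_
    norm_num; omega
  have hq1 : padicValNat 2 (q + 1) = 1 := by
    obtain ⟨j, hj⟩ : ∃ j, q + 1 = 2 * (2 * j + 1) := ⟨q / 4, by omega⟩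
    rw [hj, padicValNat.mul (by norm_num) (by omega), padicValNat.self (by norm_num),
      padicValNat.eq_zero_of_not_dvd (by omega : ¬ 2 ∣ 2 * j + 1)]
  -- the 2-part of the multiplicative group
  obtain ⟨P⟩ : Nonempty (Sylow 2 Fˣ) := inferInstance
  have hPmem : ∀ x : Fˣ, (∃ t, x ^ 2 ^ t = 1) → x ∈ (P : Subgroup Fˣ) := fun x ⟨t, ht⟩ => by
    have hxp : IsPGroup 2 ↥(Subgroup.zpowers x) := by
      obtain ⟨i, -, hi⟩ := (Nat.dvd_prime_pow Nat.prime_two).1 (orderOf_dvd_of_pow_eq_one ht)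
      exact IsPGroup.of_card (n := i) (by rw [Nat.card_zpowers, hi])
    exact (P.is_maximal' (P.2.to_sup_of_normal_right hxp) le_sup_left) ▸
      (le_sup_right : Subgroup.zpowers x ≤ _) (Subgroup.mem_zpowers x)
  have hPtwo : ∀ x ∈ (P : Subgroup Fˣ), ∃ t, x ^ 2 ^ t = 1 := fun x hx => by
    obtain ⟨t, ht⟩ := P.2 ⟨x, hx⟩
    exact ⟨t, congrArg Subtype.val ht⟩
  have hPcard : Nat.card P = 2 ^ (a + 1) := by
    rw [P.card_eq_multiplicity, Nat.factorization_def _ Nat.prime_two, Nat.card_units, Nat.card_eq_fintype_card, hF]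
    congr 1
    have e : q ^ 2 - 1 = (q + 1) * (q - 1) := by
      zify [show 1 ≤ q by omega, show 1 ≤ q ^ 2 by nlinarith]; ring
    rw [e, padicValNat.mul (by omega) (by omega), hq1]; omega
  have hqq : ∀ x : Fˣ, (x ^ q) ^ q = x := fun x => Units.ext (by
    rw [← pow_mul, Units.val_pow_eq_pow_val, ← sq, ← hF, FiniteField.pow_card])
  have hsquare : ∀ x ∈ (P : Subgroup Fˣ), (x * (x ^ q)⁻¹) ^ 2 = 1 := by
    intro x hx
    have h1 : x ^ 2 ^ (a + 1) = 1 := by
      rw [← hPcard]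
      exact congrArg Subtype.val (pow_card_eq_one' (x := (⟨x, hx⟩ : (P : Subgroup Fˣ))))
    obtain ⟨c, hc⟩ : 2 ^ a ∣ q - 1 := pow_padicValNat_dvd
    have h3 : x * (x ^ q)⁻¹ = (x ^ (q - 1))⁻¹ := by
      rw [show x ^ q = x ^ (q - 1) * x by rw [← pow_succ]; congr 1; omega, _root_.mul_inv_rev, ← mul_assoc,
        mul_inv_cancel, one_mul]
    rw [h3, _root_.inv_pow, ← pow_mul, hc, show 2 ^ a * c * 2 = 2 ^ (a + 1) * c by ring, pow_mul, h1, one_pow, inv_one]
  -- the monomial group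
  let δ : (P : Subgroup Fˣ) →* GL (Fin 2) F :=
    { toFun := fun x => dg ![(x : Fˣ), ((x : Fˣ) ^ q)⁻¹]
      map_one' := by
        have e : (![(1 : Fˣ), ((1 : Fˣ) ^ q)⁻¹] : Fin 2 → Fˣ) = 1 := by
          funext i; fin_cases i <;> simp
        show dg ![(1 : Fˣ), ((1 : Fˣ) ^ q)⁻¹] = 1
        rw [e, map_one]
      map_mul' := fun x y => by
        rw [← map_mul]
        congr 1
        funext i
        fin_cases i <;> simp [mul_pow, mul_comm] }
  have hδval : ∀ x, δ x = dg ![(x : Fˣ), ((x : Fˣ) ^ q)⁻¹] := fun _ => rfl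
  set w : GL (Fin 2) F := permGL F (Equiv.swap 0 1) with hwdef
  have hww : w * w = 1 := by
    rw [hwdef, permGL_mul, Equiv.swap_mul_self]
    exact Units.ext Cfsg.Agent.Linear.Unipotent.permMat_one
  have hwi : w⁻¹ = w := inv_eq_of_mul_eq_one_right hww
  have hflip : ∀ x, ∃ y, w * δ x * w = δ y := by
    intro x
    have hy : ((x : Fˣ) ^ q)⁻¹ ∈ (P : Subgroup Fˣ) := inv_mem (pow_mem x.2 q)
    refine ⟨⟨_, hy⟩, ?_⟩
    rw [hδval, hδval, mul_assoc, hwdef, dg_perm, ← mul_assoc, ← hwdef, hww, one_mul]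
    congr 1
    funext i
    fin_cases i
    · simp
    · simp [hqq]
  set D := δ.range with hD
  have hflip' : ∀ {g}, g ∈ D → w * g * w ∈ D := by
    rintro g ⟨x, rfl⟩
    obtain ⟨y, hy⟩ := hflip x
    exact ⟨y, hy.symm⟩
  let S0 : Subgroup (GL (Fin 2) F) :=
    { carrier := {x | x ∈ D ∨ x * w ∈ D}
      one_mem' := Or.inl (one_mem _)
      mul_mem' := by
        rintro x y (hx | hx) (hy | hy)
        · exact Or.inl (mul_mem hx hy)
        · exact Or.inr (by rw [mul_assoc]; exact mul_mem hx hy)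
        · refine Or.inr ?_
          rw [show x * y * w = x * w * (w * y * w) by
            simp only [mul_assoc]; rw [← mul_assoc w w, hww, one_mul]]
          exact mul_mem hx (hflip' hy)
        · refine Or.inl ?_
          rw [show x * y = x * w * (w * (y * w) * w) by
            simp only [mul_assoc, hww, mul_one]; rw [← mul_assoc w w, hww, one_mul]]
          exact mul_mem hx (hflip' hy)
      inv_mem' := by
        rintro x (hx | hx)
        · exact Or.inl (inv_mem hx)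
        · refine Or.inr ?_
          have := hflip' (inv_mem hx)
          rw [_root_.mul_inv_rev, hwi, ← mul_assoc, hww, one_mul] at this
          exact this }
  have memS : ∀ {x}, x ∈ S0 ↔ x ∈ D ∨ x * w ∈ D := Iff.rfl
  have hwD : w ∉ D := by
    rintro ⟨x, hx⟩
    have := congrFun (congrFun (congrArg (fun g : GL (Fin 2) F => g.1) hx) 0) 0
    rw [hδval, hwdef] at this
    simp [dg_val, show (permGL F (Equiv.swap (0 : Fin 2) 1)).1 = permMat F (Equiv.swap (0 : Fin 2) 1) from rfl,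
      permMat] at this
  have hδinj : Function.Injective δ := fun x y e => by
    have e' : dg ![(x : Fˣ), ((x : Fˣ) ^ q)⁻¹] = dg ![(y : Fˣ), ((y : Fˣ) ^ q)⁻¹] := e
    have := congrFun (dg_inj e') (0 : Fin 2)
    exact Subtype.ext (by simpa using this)
  have hDcard : Nat.card D = 2 ^ (a + 1) := by
    rw [← hPcard]; exact Nat.card_congr (MonoidHom.ofInjective hδinj).symm.toEquiv
  have hScard : Nat.card S0 = 2 ^ (a + 2) := by
    let f : Bool × D → S0 := fun p => ⟨if p.1 then p.2.1 * w else p.2.1, by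
      split_ifs
      · exact Or.inr (by rw [mul_assoc, hww, mul_one]; exact p.2.2)
      · exact Or.inl p.2.2⟩
    rw [← Nat.card_eq_of_bijective f ⟨?_, ?_⟩, Nat.card_prod, hDcard]
    · simp; ring
    · rintro ⟨u, x⟩ ⟨v, y⟩ e
      have e' := congrArg Subtype.val e
      cases u <;> cases v <;> simp only [f, Bool.false_eq_true, if_false, if_true] at e'
      · exact Prod.ext rfl (Subtype.ext e')
      · refine absurd ?_ hwD
        rw [show w = (y : GL (Fin 2) F)⁻¹ * ((y : GL (Fin 2) F) * w) by group, ← e']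
        exact mul_mem (inv_mem y.2) x.2
      · refine absurd ?_ hwD
        rw [show w = (x : GL (Fin 2) F)⁻¹ * ((x : GL (Fin 2) F) * w) by group, e']
        exact mul_mem (inv_mem x.2) y.2
      · exact Prod.ext rfl (Subtype.ext (mul_right_cancel e'))
    · rintro ⟨x, hx | hx⟩
      · exact ⟨(false, ⟨x, hx⟩), rfl⟩
      · exact ⟨(true, ⟨_, hx⟩), Subtype.ext (show x * w * w = x by rw [mul_assoc, hww, mul_one])⟩
  -- outside the diagonal part fourth powers vanish
  have hout : ∀ x ∈ S0, x ^ 4 ≠ 1 → x ∈ D := by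
    intro x hx h
    rcases memS.1 hx with hx' | ⟨y, hy⟩
    · exact hx'
    exfalso
    refine h ?_
    have hxy : x = δ y * w := by rw [hy, mul_assoc, hww, mul_one]
    have hsq : x * x = sc F (Fin 2) ((y : Fˣ) * ((y : Fˣ) ^ q)⁻¹) := by
      rw [hxy]
      obtain ⟨y', hy'⟩ := hflip y
      rw [show δ y * w * (δ y * w) = δ y * (w * δ y * w) by simp only [mul_assoc]]
      rw [hδval, mul_assoc w, hwdef, dg_perm, ← hwdef, ← mul_assoc w w, hww, one_mul, ← map_mul,
        dg_two_scalar (by simp [mul_comm])]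
      simp
    rw [show (4 : ℕ) = 2 + 2 from rfl, pow_add, sq, hsq, ← map_mul, ← sq, hsquare _ y.2, map_one]
  -- a generator of the diagonal part
  obtain ⟨x1, hx1⟩ := (isCyclic_iff_exists_orderOf_eq_natCard (α := (P : Subgroup Fˣ))).1 inferInstance
  rw [hPcard] at hx1
  have hr4 : (δ x1) ^ 4 ≠ 1 := fun e => by
    rw [← map_pow, ← map_one δ] at e
    have h := orderOf_dvd_of_pow_eq_one (hδinj e)
    rw [hx1] at h
    have h8 : 2 ^ 3 ∣ 2 ^ (a + 1) := Nat.pow_dvd_pow 2 (by omega)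
    exact absurd (Nat.le_of_dvd (by norm_num) (h8.trans h)) (by norm_num)
  have hdist : ∀ x : (P : Subgroup Fˣ), (δ x) ^ 4 ≠ 1 → (x : Fˣ) ≠ ((x : Fˣ) ^ q)⁻¹ := by
    intro x h e
    apply h
    rw [← map_pow, ← map_one δ]
    congr 1
    refine Subtype.ext ?_
    have h1 := hsquare x x.2
    rw [← e] at h1
    show (x : Fˣ) ^ 4 = 1
    rw [← h1]; simp [pow_succ, mul_assoc]
  have ht : 2 ^ a ∣ q - 1 := pow_padicValNat_dvd
  have hidS : δ x1 ∈ S0 := Or.inl ⟨x1, rfl⟩
  -- the change of basis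
  have hh : (2 : F) * (2 : F)⁻¹ = 1 := mul_inv_cancel₀ h2
  let Pm : GL (Fin 2) F := GeneralLinearGroup.mkOfDetNeZero !![1, (2 : F)⁻¹; (ι : F), -((ι : F) * (2 : F)⁻¹)] (by
    rw [det_fin_two_of]
    intro e
    exact ι.ne_zero (by linear_combination (-1 : F) * e - (ι : F) * hh))
  set σ := frobQ hF
  have hσι : σ (ι : F) = ι := by rw [frobQ_apply, ← Units.val_pow_eq_pow_val, hιq]
  have hιι : (ι : F) * ι = -1 := by rw [← Units.val_mul, hι]; simp
  set M : Matrix (Fin 2) (Fin 2) F := !![0, 1; 1, 0] with hM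
  have hPM : Pm.1ᵀ * Pm.1.map σ = M := by
    have e2 : σ (2 : F)⁻¹ = (2 : F)⁻¹ := by rw [map_inv₀, map_ofNat]
    ext i j
    fin_cases i <;> fin_cases j <;>
      simp [Pm, hM, Matrix.mul_apply, Fin.sum_univ_two, -frobQ_apply, hσι, e2] <;>
      first
        | linear_combination hιι
        | linear_combination hh - (2 : F)⁻¹ * hιι
        | linear_combination ((2 : F)⁻¹ * (2 : F)⁻¹) * hιι
  have hSM : ∀ A ∈ S0, A.1ᵀ * M * A.1.map σ = M := by
    have hDM : ∀ A ∈ D, A.1ᵀ * M * A.1.map σ = M := by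
      rintro _ ⟨x, rfl⟩
      rw [hδval, dg_val]
      have e : ∀ y : Fˣ, (y : F) * σ (((y ^ q)⁻¹ : Fˣ) : F) = 1 := fun y => by
        rw [frobQ_apply, ← Units.val_pow_eq_pow_val, ← Units.val_mul, _root_.inv_pow, hqq, mul_inv_cancel]; rfl
      have e1 := e (x : Fˣ)
      have e2 : (((x : Fˣ) ^ q)⁻¹ : Fˣ).val * σ ((x : Fˣ) : F) = 1 := by
        rw [frobQ_apply, ← Units.val_pow_eq_pow_val, ← Units.val_mul, inv_mul_cancel]; rfl
      ext i j
      fin_cases i <;> fin_cases j <;> simp [hM, Matrix.mul_apply, Fin.sum_univ_two, -frobQ_apply]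
      · simpa [-frobQ_apply] using e1
      · simpa [-frobQ_apply] using e2
    have hwM : w.1ᵀ * M * w.1.map σ = M := by
      rw [hwdef, show (permGL F (Equiv.swap (0 : Fin 2) 1)).1 = permMat F (Equiv.swap (0 : Fin 2) 1) from rfl]
      ext i j
      fin_cases i <;> fin_cases j <;> simp [hM, permMat, Matrix.mul_apply, Fin.sum_univ_two, -frobQ_apply]
    intro A hA
    rcases memS.1 hA with h | h
    · exact hDM A h
    · rw [show A = A * w * w by rw [mul_assoc, hww, mul_one], Units.val_mul, Matrix.transpose_mul, Matrix.map_mul,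
        show w.1ᵀ * (A * w).1ᵀ * M * ((A * w).1.map σ * w.1.map σ) =
          w.1ᵀ * ((A * w).1ᵀ * M * (A * w).1.map σ) * w.1.map σ by simp only [Matrix.mul_assoc],
        hDM _ h, hwM]
  set c := MulAut.conj Pm with hc
  refine ⟨S0.map c.toMonoidHom, ?_, ?_, ?_, ?_, ?_, ?_⟩
  · rintro _ ⟨A, hA, rfl⟩
    rw [mem_unit]
    show (Pm * A * Pm⁻¹).1ᵀ * (Pm * A * Pm⁻¹).1.map σ = 1
    rw [Units.val_mul, Units.val_mul, Matrix.transpose_mul, Matrix.transpose_mul, Matrix.map_mul, Matrix.map_mul,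
      show (Pm⁻¹).1ᵀ * (A.1ᵀ * Pm.1ᵀ) * (Pm.1.map σ * A.1.map σ * (Pm⁻¹).1.map σ) =
        (Pm⁻¹).1ᵀ * (A.1ᵀ * (Pm.1ᵀ * Pm.1.map σ) * A.1.map σ) * (Pm⁻¹).1.map σ by simp only [Matrix.mul_assoc],
      hPM, hSM A hA, ← hPM,
      show (Pm⁻¹).1ᵀ * (Pm.1ᵀ * Pm.1.map σ) * (Pm⁻¹).1.map σ =
        (Pm.1 * (Pm⁻¹).1)ᵀ * (Pm.1 * (Pm⁻¹).1).map σ by
          rw [Matrix.transpose_mul, Matrix.map_mul]; simp only [Matrix.mul_assoc], Pm.mul_inv]
    simp
  · rw [Subgroup.card_map_of_injective (MulEquiv.injective _), hScard, val_card_unit hF hodd, Fintype.card_fin,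
      expoU_two (by omega) hodd, hq1]
    congr 1; omega
  · intro g hg
    obtain ⟨g0, rfl⟩ : ∃ g0, g = c g0 := ⟨c.symm g, (c.apply_symm_apply g).symm⟩
    have hg0 : ∀ x ∈ S0, g0 * x * g0⁻¹ ∈ S0 := fun x hx => by
      obtain ⟨y, hy, e⟩ := hg (c x) ⟨x, hx, rfl⟩
      rw [← map_inv, ← map_mul, ← map_mul] at e
      rw [← c.injective e]; exact hy
    obtain ⟨z, hz⟩ := hout _ (hg0 _ hidS) fun e => hr4 (by rw [conj_pow] at e; exact conj_eq_one_iff.1 e)
    have hz4 : (δ z) ^ 4 ≠ 1 := by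
      rw [hz]; exact fun e => hr4 (by rw [conj_pow] at e; exact conj_eq_one_iff.1 e)
    have hne := hdist x1 hr4
    have hne' := hdist z hz4
    have e : g0 * δ x1 = δ z * g0 := by rw [hz, inv_mul_cancel_right]
    rw [hδval, hδval] at e
    have em : ∀ i j, g0.1 i j * ((![(x1 : Fˣ), ((x1 : Fˣ) ^ q)⁻¹] j : Fˣ) : F) =
        ((![(z : Fˣ), ((z : Fˣ) ^ q)⁻¹] i : Fˣ) : F) * g0.1 i j := fun i j => by
      have := congrFun (congrFun (congrArg (fun g : GL (Fin 2) F => g.1) e) i) j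
      simpa [dg_val, Matrix.mul_diagonal, Matrix.diagonal_mul] using this
    -- `g0` is monomial
    obtain ⟨k, hk, hkd⟩ : ∃ k ∈ S0, ∃ d : Fin 2 → Fˣ, g0 * k = dg d := by
      have key : ∀ i j j', j ≠ j' → g0.1 i j ≠ 0 → g0.1 i j' = 0 := by
        intro i j j' hjj h1
        by_contra h3
        have e1 := mul_right_cancel₀ h1 ((mul_comm _ _).trans (em i j))
        have e3 := mul_right_cancel₀ h3 ((mul_comm _ _).trans (em i j'))
        have e4 := Units.ext (e1.trans e3.symm)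
        fin_cases j <;> fin_cases j' <;> simp at e4 hjj
        · exact hne e4
        · exact hne e4.symm
      have key' : ∀ i i' j, i ≠ i' → g0.1 i j ≠ 0 → g0.1 i' j = 0 := by
        intro i i' j hii h1
        by_contra h3
        have e1 := mul_right_cancel₀ h1 ((mul_comm _ _).trans (em i j))
        have e3 := mul_right_cancel₀ h3 ((mul_comm _ _).trans (em i' j))
        have e4 := Units.ext (e1.symm.trans e3)
        fin_cases i <;> fin_cases i' <;> simp at e4 hii
        · exact hne' e4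
        · exact hne' e4.symm
      have hdet : g0.1 0 0 * g0.1 1 1 - g0.1 0 1 * g0.1 1 0 ≠ 0 := by
        rw [← det_fin_two]; exact ((Matrix.isUnit_iff_isUnit_det _).1 g0.isUnit).ne_zero
      by_cases h00 : g0.1 0 0 = 0
      · rw [h00, zero_mul, zero_sub, neg_ne_zero, mul_ne_zero_iff] at hdet
        have h11 : g0.1 1 1 = 0 := key' 0 1 1 (by decide) hdet.1
        refine ⟨w, Or.inr (by rw [hww]; exact one_mem _), ![Units.mk0 _ hdet.1, Units.mk0 _ hdet.2], Units.ext ?_⟩
        rw [Units.val_mul, dg_val, hwdef,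
          show (permGL F (Equiv.swap (0 : Fin 2) 1)).1 = permMat F (Equiv.swap (0 : Fin 2) 1) from rfl]
        ext i j
        fin_cases i <;> fin_cases j <;> simp [permMat, Matrix.mul_apply, Fin.sum_univ_two, h00, h11]
      · have h01 := key 0 0 1 (by decide) h00
        have h10 := key' 0 1 0 (by decide) h00
        rw [h01, zero_mul, sub_zero, mul_ne_zero_iff] at hdet
        refine ⟨1, one_mem _, ![Units.mk0 _ hdet.1, Units.mk0 _ hdet.2], Units.ext ?_⟩
        rw [mul_one, dg_val]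
        ext i j
        fin_cases i <;> fin_cases j <;> simp [h01, h10]
    obtain ⟨d, hd⟩ := hkd
    have hwS : w ∈ S0 := Or.inr (by rw [hww]; exact one_mem _)
    have hn : g0 * k * w * (g0 * k)⁻¹ ∈ S0 := by
      rw [show g0 * k * w * (g0 * k)⁻¹ = g0 * (k * w * k⁻¹) * g0⁻¹ by group]
      exact hg0 _ (mul_mem (mul_mem hk hwS) (inv_mem hk))
    rw [hd, mul_assoc] at hn
    have e5 : dg d * (w * (dg d)⁻¹) = dg ![d 0 * (d 1)⁻¹, d 1 * (d 0)⁻¹] * w := by
      have h := dg_perm (fun i => (d ((Equiv.swap (0 : Fin 2) 1) i))⁻¹) (Equiv.swap (0 : Fin 2) 1)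
      simp only [Equiv.swap_apply_self] at h
      rw [← map_inv, hwdef, show d⁻¹ = fun i => (d i)⁻¹ from rfl, ← h, ← mul_assoc, ← map_mul]
      congr 2
      funext i
      fin_cases i <;> simp
    rw [e5] at hn
    rcases memS.1 hn with hn | hn
    · obtain ⟨y, hy⟩ := hn
      exact absurd ⟨(y : _), hy⟩ (fun hm : dg ![d 0 * (d 1)⁻¹, d 1 * (d 0)⁻¹] * w ∈ D => hwD (by
        obtain ⟨y, hy⟩ := hm
        have := congrFun (congrFun (congrArg (fun g : GL (Fin 2) F => g.1) hy) 0) 0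
        rw [hδval, hwdef] at this
        simp [dg_val, show (permGL F (Equiv.swap (0 : Fin 2) 1)).1 = permMat F (Equiv.swap (0 : Fin 2) 1) from rfl,
          permMat, Matrix.diagonal_mul] at this))
    rw [mul_assoc, hww, mul_one] at hn
    obtain ⟨y, hy⟩ := hn
    rw [hδval] at hy
    have ey := dg_inj hy
    have ey0 : (y : Fˣ) = d 0 * (d 1)⁻¹ := by simpa using congrFun ey 0
    have ey1 : ((y : Fˣ) ^ q)⁻¹ = d 1 * (d 0)⁻¹ := by simpa using congrFun ey 1
    have hyq : (y : Fˣ) ^ q = (y : Fˣ) := by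
      rw [← _root_.inv_inj, ey1, ey0, _root_.mul_inv_rev, inv_inv]
    -- a root of the ratio
    obtain ⟨o, ho⟩ : ∃ o, q + 1 = 2 * o := ⟨(q + 1) / 2, by omega⟩
    have hoo : Nat.Coprime o (orderOf (y : Fˣ)) := by
      obtain ⟨t, ht'⟩ := hPtwo _ y.2
      refine Nat.Coprime.coprime_dvd_right (orderOf_dvd_of_pow_eq_one ht') ?_
      exact Nat.Coprime.pow_right t (Nat.coprime_two_right.2 (Nat.odd_iff.2 (by omega)))
    obtain ⟨m, hm⟩ := exists_pow_eq_self_of_coprime hoo
    have hy1 : ((y : Fˣ) ^ m) ^ o = (y : Fˣ) := by rw [← pow_mul, mul_comm, pow_mul, hm]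
    obtain ⟨z0, hz0⟩ : IsSquare (((y : Fˣ) ^ m : Fˣ) : F) := by
      rw [FiniteField.isSquare_iff (by
        intro e
        have := FiniteField.even_card_of_char_two (F := F) e
        rw [hF, Nat.odd_iff.1 hodd.pow] at this
        omega) (Units.ne_zero _)]
      obtain ⟨t, ht'⟩ := hPtwo _ y.2
      have h1 : ((y : Fˣ) ^ m) ^ (q - 1) = 1 := by
        have h : (y : Fˣ) ^ (q - 1) = 1 := by
          have : (y : Fˣ) ^ (q - 1) * y = 1 * y := by
            rw [← pow_succ, show q - 1 + 1 = q by omega, one_mul, hyq]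
          exact mul_right_cancel this
        rw [← pow_mul, mul_comm, pow_mul, h, one_pow]
      rw [← Units.val_pow_eq_pow_val, hF]
      have e : q ^ 2 / 2 = (q - 1) * o := by
        rw [Nat.div_eq_of_lt_le]
        · obtain ⟨k, rfl⟩ : ∃ k, q = k + 1 := ⟨q - 1, by omega⟩
          simp only [Nat.add_sub_cancel]
          nlinarith
        · obtain ⟨k, rfl⟩ : ∃ k, q = k + 1 := ⟨q - 1, by omega⟩
          simp only [Nat.add_sub_cancel]
          nlinarith
      rw [e, pow_mul, h1, one_pow, Units.val_one]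
    have hz00 : z0 ≠ 0 := fun e => by
      rw [e, mul_zero] at hz0; exact Units.ne_zero _ hz0
    set u0 : Fˣ := Units.mk0 z0 hz00
    have hu0 : u0 ^ 2 = (y : Fˣ) ^ m := Units.ext (by simp [u0, sq, hz0])
    have hu0P : u0 ∈ (P : Subgroup Fˣ) := hPmem _ (by
      obtain ⟨t, ht'⟩ := hPtwo _ (pow_mem y.2 m)
      exact ⟨t + 1, by rw [pow_succ', pow_mul, hu0, ht']⟩)
    have hu0q : u0 ^ (q + 1) = (y : Fˣ) := by rw [ho, pow_mul, hu0, hy1]
    refine ⟨c (δ ⟨u0, hu0P⟩ * k⁻¹), ⟨_, mul_mem (Or.inl ⟨_, rfl⟩) (inv_mem hk), rfl⟩, d 0 * u0⁻¹, ?_⟩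
    have hsc : sc F (Fin 2) (d 0 * u0⁻¹) = c (sc F (Fin 2) (d 0 * u0⁻¹)) := by
      show _ = Pm * _ * Pm⁻¹
      rw [← sc_comm, mul_inv_cancel_right]
    rw [hsc, ← map_mul]
    congr 1
    rw [mul_assoc, ← sc_comm, ← mul_assoc, eq_mul_inv_iff_mul_eq, hd, hδval, ← dg_two_scalar
      (d := fun _ => d 0 * u0⁻¹) rfl, ← map_mul]
    congr 1
    funext i
    fin_cases i
    · simp
    · have h1 : (u0 ^ q)⁻¹ = u0 * (y : Fˣ)⁻¹ := by rw [← hu0q, pow_succ, _root_.mul_inv_rev, mul_inv_cancel_left]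
      simp [h1, ey0, mul_comm, mul_left_comm]
  · intro x hx
    obtain ⟨x0, rfl⟩ : ∃ x0, x = c x0 := ⟨c.symm x, (c.apply_symm_apply x).symm⟩
    have hιP : ι ∈ (P : Subgroup Fˣ) := hPmem _ ⟨2, hι4⟩
    have hcomm : ∀ A ∈ S0, GeneralLinearGroup.det A = 1 → x0 * A = A * x0 := fun A hA hd => by
      apply c.injective
      rw [map_mul, map_mul]
      exact hx _ ⟨A, hA, rfl⟩ (by show GeneralLinearGroup.det (Pm * A * Pm⁻¹) = 1; simp [hd])
    have e1 := hcomm (δ ⟨ι, hιP⟩) (Or.inl ⟨_, rfl⟩) (by rw [hδval, det_dg]; simp [hιq])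
    obtain ⟨t, ht'⟩ : ∃ t, (x1 : Fˣ) ^ 2 ^ t = 1 := hPtwo _ x1.2
    have hx1q : (x1 : Fˣ) * ((x1 : Fˣ) ^ q)⁻¹ = -1 := by
      have h1 := hsquare _ x1.2
      have h3 := congrArg Units.val h1
      rw [Units.val_pow_eq_pow_val, Units.val_one, sq, mul_self_eq_one_iff] at h3
      rcases h3 with h3 | h3
      · exfalso
        have h5 : (x1 : Fˣ) ^ (q - 1) = 1 := by
          have h6 : (x1 : Fˣ) * ((x1 : Fˣ) ^ q)⁻¹ = 1 := Units.ext h3
          rw [mul_inv_eq_one] at h6
          have : (x1 : Fˣ) ^ (q - 1) * x1 = 1 * x1 := by rw [← pow_succ, show q - 1 + 1 = q by omega, one_mul, ← h6]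
          exact mul_right_cancel this
        have h7 := orderOf_dvd_of_pow_eq_one h5
        rw [Subgroup.orderOf_coe, hx1] at h7
        have := (padicValNat_dvd_iff_le (by omega)).1 h7
        omega
      · exact Units.ext (by simpa using h3)
    have e2 := hcomm (δ x1 * w) (Or.inr (by rw [mul_assoc, hww, mul_one]; exact ⟨_, rfl⟩)) (by
      rw [map_mul, hδval, det_dg]
      simp only [Matrix.cons_val_zero, Matrix.cons_val_one, hx1q]
      apply Units.ext
      simp [hwdef, show (permGL F (Equiv.swap (0 : Fin 2) 1)).1 = permMat F (Equiv.swap (0 : Fin 2) 1) from rfl,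
        det_fin_two, permMat])
    have m1 := fun i j => congrFun (congrFun (congrArg (fun g : GL (Fin 2) F => g.1) e1) i) j
    have m2 := fun i j => congrFun (congrFun (congrArg (fun g : GL (Fin 2) F => g.1) e2) i) j
    simp only [Units.val_mul, hδval, dg_val, hwdef, Matrix.mul_diagonal, Matrix.diagonal_mul] at m1
    have hιne : (ι : F) ≠ (((ι ^ q)⁻¹ : Fˣ) : F) := by
      intro e
      have := Units.ext e
      rw [hιq, eq_inv_iff_mul_eq_one, hι] at this
      exact h2 (by linear_combination (by simpa using congrArg Units.val this : (-1 : F) = 1) * (-1))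
    have h01 : x0.1 0 1 = 0 := by
      have h := m1 0 1
      simp at h
      by_contra hne
      exact hιne (mul_left_cancel₀ hne (by simpa [mul_comm] using h.symm))
    have h10 : x0.1 1 0 = 0 := by
      have h := m1 1 0
      simp at h
      by_contra hne
      exact hιne (mul_left_cancel₀ hne (by simpa [mul_comm] using h))
    have h11 : x0.1 1 1 = x0.1 0 0 := by
      have h := m2 0 1
      simp only [Units.val_mul, hδval, dg_val, hwdef,
        show (permGL F (Equiv.swap (0 : Fin 2) 1)).1 = permMat F (Equiv.swap (0 : Fin 2) 1) from rfl] at h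
      simp [Matrix.mul_apply, Fin.sum_univ_two, permMat, h01] at h
      exact (mul_left_cancel₀ (Units.ne_zero (x1 : Fˣ)) (by linear_combination h)).symm
    have h00 : x0.1 0 0 ≠ 0 := fun e => by
      have hd : x0.1.det ≠ 0 := ((Matrix.isUnit_iff_isUnit_det _).1 x0.isUnit).ne_zero
      apply hd; rw [det_fin_two, e, h01]; simp
    refine ⟨Units.mk0 _ h00, ?_⟩
    show Pm * x0 * Pm⁻¹ = _
    have : x0 = sc F (Fin 2) (Units.mk0 _ h00) := by
      apply Units.ext; rw [sc_val]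
      ext i j; fin_cases i <;> fin_cases j <;> simp [h01, h10, h11]
    refine (congrArg (fun z => Pm * z * Pm⁻¹) this).trans ?_
    show Pm * _ * Pm⁻¹ = _
    rw [← sc_comm, mul_inv_cancel_right]
  · intro u hu1 hu
    obtain ⟨t, ht'⟩ := hu
    have hd2 : u ^ 2 = 1 := by
      have h3 := pow_gcd_eq_one.2 ⟨ht', hu1⟩
      obtain ⟨i, hi, hgi⟩ := (Nat.dvd_prime_pow Nat.prime_two).1 (Nat.gcd_dvd_left (2 ^ t) (q + 1))
      have hi1 : i ≤ 1 := hq1 ▸ (padicValNat_dvd_iff_le (by omega)).1 (hgi ▸ Nat.gcd_dvd_right _ _)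
      rw [hgi] at h3
      interval_cases i
      · rw [show u = 1 by simpa using h3]; simp
      · simpa using h3
    have h3 := congrArg Units.val hd2
    rw [Units.val_pow_eq_pow_val, Units.val_one, sq, mul_self_eq_one_iff] at h3
    rcases h3 with e | e
    · exact ⟨1, one_mem _, by rw [map_one]; exact Units.ext e.symm⟩
    · refine ⟨c w, ⟨w, Or.inr (by rw [hww]; exact one_mem _), rfl⟩, Units.ext ?_⟩
      show ((GeneralLinearGroup.det (Pm * w * Pm⁻¹) : Fˣ) : F) = u
      have hdw : GeneralLinearGroup.det w = -1 := Units.ext (by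
        simp [hwdef, show (permGL F (Equiv.swap (0 : Fin 2) 1)).1 = permMat F (Equiv.swap (0 : Fin 2) 1) from rfl,
          det_fin_two, permMat])
      simp [hdw, e]
  · have hιP : ι ∈ (P : Subgroup Fˣ) := hPmem _ ⟨2, hι4⟩
    refine ⟨c (δ ⟨ι, hιP⟩), ⟨_, Or.inl ⟨_, rfl⟩, rfl⟩, ?_, ?_⟩
    · show GeneralLinearGroup.det (Pm * δ ⟨ι, hιP⟩ * Pm⁻¹) = 1
      simp [hδval, det_dg, hιq]
    · rintro (h | h)
      · rw [← map_one c] at h
        have := congrFun (congrFun (congrArg (fun g : GL (Fin 2) F => g.1) (c.injective h)) 0) 0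
        simp [hδval, dg_val] at this
        exact hι1 this
      · have hsc : sc F (Fin 2) (-1) * 1 = c (sc F (Fin 2) (-1)) := by
          show _ = Pm * _ * Pm⁻¹
          rw [← sc_comm, mul_inv_cancel_right, mul_one]
        rw [hsc] at h
        have := congrFun (congrFun (congrArg (fun g : GL (Fin 2) F => g.1) (c.injective h)) 0) 0
        simp [hδval, dg_val, sc_val] at this
        exact hιneg (Units.ext (by simpa using this))

/-- Sylow 2-subgroups in every dimension a power of two, at least two -/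
theorem goodU_exists (hodd : Odd q) : ∀ s : ℕ, ∃ S : Subgroup (GL (Fin (2 ^ (s + 1))) F), GoodU hF S
  | 0 => by
    rcases (show q % 4 = 1 ∨ q % 4 = 3 by have := Nat.odd_iff.1 hodd; omega) with h | h
    · exact good_plus hF h
    · obtain ⟨S, hS⟩ := good_minus hF h
      exact ⟨_, hS.reindex hF finSumFinEquiv⟩
  | s + 1 => by
    obtain ⟨S, hS⟩ := goodU_exists hodd s
    have hexp := expoU_double (q := q) (two_le_q hF) hodd s
    have hG := hS.step hF (two_ne_zero_of_odd (by rw [hF]; exact hodd.pow)) hodd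
      ⟨2 ^ s, by rw [Fintype.card_fin, pow_succ]; ring⟩ (by rw [Fintype.card_fin, ← pow_succ']; exact hexp)
    exact ⟨_, hG.reindex hF ((finSumFinEquiv).trans (finCongr (by rw [pow_succ 2 (s + 1)]; ring)))⟩

end Cfsg.Agent.KnownA.PronormalUnitary
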