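import Cfsg.Agent.KnownA.Pronormal.CharTwo

/-!
Bruhat decompositions of unitary matrices, for the anti-diagonal Hermitian form.
-/

set_option autoImplicit false
set_option linter.unusedSectionVars false

namespace Cfsg.Agent.KnownA.PronormalUnitary

open Matrix Cfsg Cfsg.Agent.Linear.Unipotent Cfsg.Agent.KnownA.PronormalCharTwo

/-- data of a quadratic conjugation -/
structure Conj (F : Type*) [Field F] where
  /-- the conjugation -/
  c : F →+* F
  invol : ∀ x, c (c x) = x
  /-- an element of trace one -/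
  s : F
  trace_s : s + c s = 1

variable {F : Type*} [Field F] {n : ℕ} (C : Conj F)

local notation "G" => GL (Fin n) F
local notation "M" => Matrix (Fin n) (Fin n) F

/-- the adjoint for the anti-diagonal form -/
def adj (A : M) : M := Matrix.of fun i j => C.c (A j.rev i.rev)

theorem adj_apply (A : M) (i j : Fin n) : adj C A i j = C.c (A j.rev i.rev) := rfl

theorem adj_mul (A B : M) : adj C (A * B) = adj C B * adj C A := by
  ext i j
  simp only [adj_apply, Matrix.mul_apply, map_sum, map_mul]
  exact Fintype.sum_equiv Fin.revPerm _ _ fun k => by simp [mul_comm]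

theorem adj_one : adj C (1 : M) = 1 := by
  ext i j
  simp [adj_apply, Matrix.one_apply, eq_comm, Fin.rev_inj]

theorem adj_adj (A : M) : adj C (adj C A) = A := by
  ext i j
  simp [adj_apply, C.invol]

theorem adj_add (A B : M) : adj C (A + B) = adj C A + adj C B := by
  ext i j
  simp [adj_apply]

theorem adj_sub (A B : M) : adj C (A - B) = adj C A - adj C B := by
  ext i j
  simp [adj_apply]

theorem adj_smul (a : F) (A : M) : adj C (a • A) = C.c a • adj C A := by
  ext i j
  simp [adj_apply]

/-- the adjoint inverse -/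
def theta : GL (Fin n) F →* GL (Fin n) F where
  toFun g :=
    { val := adj C (g⁻¹ : G).1
      inv := adj C g.1
      val_inv := by rw [← adj_mul, g.mul_inv, adj_one]
      inv_val := by rw [← adj_mul, g.inv_mul, adj_one] }
  map_one' := Units.ext (by simp [adj_one])
  map_mul' a b := Units.ext (by simp [adj_mul])

theorem theta_val (g : G) : (theta C g).1 = adj C (g⁻¹ : G).1 := rfl

theorem theta_inv_val (g : G) : ((theta C g)⁻¹ : G).1 = adj C g.1 := rfl

theorem theta_theta (g : G) : theta C (theta C g) = g := Units.ext (by rw [theta_val, theta_inv_val, adj_adj])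

/-- the unitary matrices -/
def fixed : Subgroup (GL (Fin n) F) where
  carrier := {g | theta C g = g}
  one_mem' := map_one _
  mul_mem' {a b} (ha : theta C a = a) (hb : theta C b = b) := show theta C (a * b) = a * b by rw [map_mul, ha, hb]
  inv_mem' {a} (ha : theta C a = a) := show theta C a⁻¹ = a⁻¹ by rw [map_inv, ha]

theorem mem_fixed {g : G} : g ∈ fixed C ↔ theta C g = g := Iff.rfl

theorem mem_fixed_iff {g : G} : g ∈ fixed C ↔ adj C g.1 * g.1 = 1 := by
  rw [mem_fixed]
  constructor
  · intro h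
    rw [← theta_inv_val, h, g.inv_mul]
  · intro h
    have e : (theta C g)⁻¹ = g⁻¹ :=
      eq_inv_of_mul_eq_one_left (Units.ext (by rw [Units.val_mul, theta_inv_val, h, Units.val_one]))
    exact inv_injective e

theorem theta_dg (d : Fin n → Fˣ) :
    theta C (dg d) = dg (fun i => Units.map (C.c : F →* F) (d i.rev)⁻¹) := by
  apply Units.ext
  rw [theta_val, ← map_inv, dg_val, dg_val]
  ext i j
  rw [adj_apply]
  rcases eq_or_ne i j with rfl | h
  · simp
  · simp [Matrix.diagonal_apply_ne _ h, Fin.rev_inj, Ne.symm h]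

/-- the mirror of a permutation -/
def mirror (σ : Equiv.Perm (Fin n)) : Equiv.Perm (Fin n) := Fin.revPerm * σ * Fin.revPerm

theorem mirror_apply (σ : Equiv.Perm (Fin n)) (i : Fin n) : mirror σ i = (σ i.rev).rev := rfl

theorem theta_perm (σ : Equiv.Perm (Fin n)) : theta C (permGL F σ) = permGL F (mirror σ) := by
  apply Units.ext
  rw [theta_val, show ((permGL F σ)⁻¹ : G).1 = permMat F σ⁻¹ from rfl]
  ext i j
  show C.c (if σ⁻¹ i.rev = j.rev then 1 else 0) = if mirror σ j = i then 1 else 0
  rw [apply_ite C.c, map_one, map_zero]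
  refine if_congr ?_ rfl rfl
  rw [mirror_apply, Equiv.Perm.inv_eq_iff_eq, Fin.rev_eq_iff]
  exact eq_comm

theorem adj_upper {A : M} (hA : A.BlockTriangular id) : (adj C A).BlockTriangular id := by
  intro i j hij
  rw [adj_apply, hA (show id i.rev < id j.rev from Fin.rev_lt_rev.2 hij), map_zero]

theorem theta_unip {u : G} (hu : u ∈ unip F n) : theta C u ∈ unip F n := by
  have hi := inv_mem hu
  refine ⟨adj_upper C hi.1, fun i => ?_⟩
  rw [theta_val, adj_apply, hi.2, map_one]

/-- the monomial part of a Bruhat decomposition is unique -/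
theorem mono_unique {x w : G} (hx : x ∈ unip F n) (hw : w ∈ unip F n) {σ τ : Equiv.Perm (Fin n)}
    {d e : Fin n → Fˣ} (h : x * (dg e * permGL F τ) = dg d * permGL F σ * w) : σ = τ ∧ d = e := by
  have hentry : ∀ j, (e (τ j) : F) = (d (τ j) : F) * w.1 (σ⁻¹ (τ j)) j := by
    intro j
    have h1 := congrFun (congrFun (congrArg (fun g : G => g.1) h) (τ j)) j
    rw [dg_perm e τ, dg_perm d σ] at h1
    simp only [Units.val_mul, dg_val] at h1
    rw [show (permGL F τ).1 = permMat F τ from rfl, show (permGL F σ).1 = permMat F σ from rfl] at h1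
    rw [← Matrix.mul_assoc, Matrix.mul_diagonal, Matrix.mul_apply, Finset.sum_eq_single (τ j)
        (fun k _ hk => by simp [permMat, hk.symm]) (by simp),
      Matrix.mul_assoc, Matrix.mul_apply, Finset.sum_eq_single (σ⁻¹ (τ j)) ?_ (by simp)] at h1
    · rw [Matrix.diagonal_mul] at h1
      simp only [permMat, Equiv.Perm.coe_inv, Equiv.apply_symm_apply, if_true, hx.2] at h1
      simpa using h1
    · intro k _ hk
      rw [show permMat F σ (τ j) k = 0 from if_neg fun e' => hk (by rw [← e']; simp), zero_mul]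
  have hle : ∀ j, σ⁻¹ (τ j) ≤ j := by
    intro j
    by_contra hc
    have h0 := hentry j
    rw [hw.1 (show id j < id (σ⁻¹ (τ j)) from not_le.1 hc), mul_zero] at h0
    exact (e (τ j)).ne_zero h0
  have hsum : ∑ j, ((σ⁻¹ * τ) j : ℕ) = ∑ j : Fin n, (j : ℕ) :=
    Equiv.sum_comp (σ⁻¹ * τ) fun j : Fin n => (j : ℕ)
  have heq := (Finset.sum_eq_sum_iff_of_le (fun j _ => (show ((σ⁻¹ * τ) j : ℕ) ≤ j from hle j))).1 hsum
  have hστ : σ = τ := by
    ext j
    have := Fin.ext (heq j (Finset.mem_univ j))
    rw [Equiv.Perm.mul_apply, Equiv.Perm.inv_eq_iff_eq] at this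
    rw [this]
  subst hστ
  refine ⟨rfl, funext fun i => ?_⟩
  obtain ⟨j, rfl⟩ := σ.surjective i
  have := hentry j
  simp [hw.2] at this
  exact Units.ext this.symm

theorem mono_mul_upper (d : Fin n → Fˣ) (σ : Equiv.Perm (Fin n)) (e : Fin n → Fˣ) :
    dg d * permGL F σ * dg e = dg (d * fun j => e (σ⁻¹ j)) * permGL F σ := by
  have h := dg_perm (fun j => e (σ⁻¹ j)) σ
  simp only [Equiv.Perm.coe_inv, Equiv.symm_apply_apply] at h
  rw [map_mul, mul_assoc (dg d) (dg _) (permGL F σ), mul_assoc]
  congr 1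
  exact h.symm

theorem exists_bruhat_unip (g : G) : ∃ u ∈ unip F n, ∃ v ∈ unip F n, ∃ (d : Fin n → Fˣ) (σ : Equiv.Perm (Fin n)),
    g = u * (dg d * permGL F σ) * v := by
  obtain ⟨b, hb, b', hb', σ, rfl⟩ := exists_bruhat_gl g
  obtain ⟨d, u, hu, rfl⟩ := upper_decomp hb
  obtain ⟨e, v, hv, rfl⟩ := upper_decomp hb'
  refine ⟨_, unip_normal (b := dg d) (blockTriangular_diagonal _) hu, v, hv, d * fun j => e (σ⁻¹ j), σ, ?_⟩
  rw [← mono_mul_upper]; group

/-- `V = U ∩ m U m⁻¹` for a monomial matrix `m` -/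
def pattern (σ : Equiv.Perm (Fin n)) (A : M) : Prop :=
  ∀ i j, A i j ≠ 0 → i < j ∧ σ⁻¹ i < σ⁻¹ j

theorem pattern_conj {σ : Equiv.Perm (Fin n)} {d : Fin n → Fˣ} {x : G} (hx : x ∈ unip F n) :
    (dg d * permGL F σ)⁻¹ * x * (dg d * permGL F σ) ∈ unip F n ↔ pattern σ (x.1 - 1) := by
  have hval : ∀ i j, ((dg d * permGL F σ)⁻¹ * x * (dg d * permGL F σ) : G).1 i j =
      ((d (σ i))⁻¹ : Fˣ) * x.1 (σ i) (σ j) * d (σ j) := by
    intro i j
    rw [show (dg d * permGL F σ)⁻¹ * x * (dg d * permGL F σ) =
      permGL F σ⁻¹ * ((dg d)⁻¹ * x * dg d) * permGL F σ by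
      rw [show permGL F σ⁻¹ = (permGL F σ)⁻¹ from Units.ext rfl]; group]
    rw [← map_inv]
    simp only [Units.val_mul, dg_val]
    rw [show (permGL F σ).1 = permMat F σ from rfl, show (permGL F σ⁻¹).1 = permMat F σ⁻¹ from rfl,
      Matrix.mul_apply, Finset.sum_eq_single (σ j) (fun k _ hk => by simp [permMat, hk.symm]) (by simp),
      Matrix.mul_apply, Finset.sum_eq_single (σ i) (fun k _ hk => by
        rw [show permMat F σ⁻¹ i k = 0 from if_neg fun e => hk (by rw [← e]; simp), zero_mul]) (by simp)]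
    rw [Matrix.mul_diagonal, Matrix.diagonal_mul]
    simp [permMat]
  constructor
  · rintro h i j hij
    rw [Matrix.sub_apply] at hij
    rcases lt_trichotomy i j with h1 | rfl | h1
    · refine ⟨h1, ?_⟩
      rw [Matrix.one_apply_ne h1.ne, sub_zero] at hij
      by_contra hc
      rcases (not_lt.1 hc).lt_or_eq with h2 | h2
      · have := h.1 (show id (σ⁻¹ j) < id (σ⁻¹ i) from h2)
        rw [hval] at this
        simp [hij] at this
      · exact h1.ne (σ⁻¹.injective h2.symm)
    · exact absurd (by rw [hx.2, Matrix.one_apply_eq, sub_self]) hij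
    · exact absurd (by rw [hx.1 (show id j < id i from h1), Matrix.one_apply_ne h1.ne', sub_zero]) hij
  · intro h
    refine ⟨fun i j hji => ?_, fun i => ?_⟩
    · rw [hval]
      have h0 : x.1 (σ i) (σ j) = 0 := by
        by_contra h0
        have hne : σ i ≠ σ j := fun e => (ne_of_gt hji) (σ.injective e)
        have := (h (σ i) (σ j) (by rwa [Matrix.sub_apply, Matrix.one_apply_ne hne, sub_zero])).2
        simp at this
        exact lt_asymm this hji
      rw [h0, mul_zero, zero_mul]
    · rw [hval, hx.2, mul_one, Units.inv_mul]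

theorem exists_entry {A B : M} {i j : Fin n} (h : (A * B) i j ≠ 0) : ∃ k, A i k * B k j ≠ 0 := by
  by_contra hc
  push Not at hc
  exact h (by rw [Matrix.mul_apply]; exact Finset.sum_eq_zero fun k _ => hc k)

theorem pattern_smul {σ : Equiv.Perm (Fin n)} {A : M} (hA : pattern σ A) (a : F) : pattern σ (a • A) :=
  fun i j h => hA i j fun e => h (by rw [Matrix.smul_apply, e, smul_zero])

/-- Hermitian elements of `U ∩ m U m⁻¹` are norms. -/
theorem exists_norm_factor (σ : Equiv.Perm (Fin n)) (d : Fin n → Fˣ) :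
    ∀ (k : ℕ) (x : G), x ∈ unip F n → (dg d * permGL F σ)⁻¹ * x * (dg d * permGL F σ) ∈ unip F n →
      adj C x.1 = x.1 → (∀ i j : Fin n, i ≠ j → x.1 i j ≠ 0 → (i : ℕ) + (n - k) ≤ j) →
      ∃ y ∈ unip F n, (dg d * permGL F σ)⁻¹ * y * (dg d * permGL F σ) ∈ unip F n ∧
        x.1 = y.1 * adj C y.1 := by
  intro k
  induction k with
  | zero =>
    intro x hx _ _ hgap
    refine ⟨1, one_mem _, by group; exact one_mem _, ?_⟩
    rw [Units.val_one, adj_one, mul_one]
    ext i j
    rcases eq_or_ne i j with rfl | h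
    · rw [hx.2, Matrix.one_apply_eq]
    · rw [Matrix.one_apply_ne h]
      by_contra h0
      have := hgap i j h h0
      have := j.2
      omega
  | succ k ih =>
    intro x hx hxm hfix hgap
    set N := x.1 - 1 with hN
    have hadjN : adj C N = N := by rw [hN, adj_sub, adj_one, hfix]
    have hNpat := (pattern_conj hx).1 hxm
    have htri : (1 + C.s • N).BlockTriangular id := by
      refine blockTriangular_one.add ?_
      intro i j h
      by_contra h0
      exact lt_asymm ((pattern_smul hNpat C.s) i j h0).1 h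
    have hdiag : ∀ i, (1 + C.s • N) i i = 1 := by
      intro i
      rw [Matrix.add_apply, Matrix.one_apply_eq, Matrix.smul_apply, hN, Matrix.sub_apply, hx.2,
        Matrix.one_apply_eq, sub_self, smul_zero, add_zero]
    have hdet : (1 + C.s • N).det ≠ 0 := by
      rw [Matrix.det_of_isUpperTriangular htri, Finset.prod_eq_one fun i _ => hdiag i]
      exact one_ne_zero
    set y := GeneralLinearGroup.mkOfDetNeZero _ hdet
    have hyu : y ∈ unip F n := ⟨htri, hdiag⟩
    have hym : (dg d * permGL F σ)⁻¹ * y * (dg d * permGL F σ) ∈ unip F n :=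
      (pattern_conj hyu).2 (by show pattern σ (1 + C.s • N - 1); rw [add_sub_cancel_left]; exact pattern_smul hNpat C.s)
    have hzval : y.1 * adj C y.1 = x.1 + (C.s * C.c C.s) • (N * N) := by
      show (1 + C.s • N) * adj C (1 + C.s • N) = _
      rw [adj_add, adj_one, adj_smul, hadjN, Matrix.add_mul, Matrix.mul_add, one_mul, one_mul, Matrix.mul_add,
        mul_one, smul_mul_smul_comm, show C.c C.s • N = N - C.s • N by
          rw [← sub_eq_of_eq_add (C.trace_s.symm.trans (add_comm _ _)), sub_smul, one_smul]]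
      rw [hN]; abel
    -- the next approximation
    set x' := y⁻¹ * x * (theta C y) with hx'
    have hth : (theta C y)⁻¹ ∈ unip F n := inv_mem (theta_unip C hyu)
    have hadjpat : pattern σ (adj C y.1 - 1) := by
      show pattern σ (adj C (1 + C.s • N) - 1)
      rw [adj_add, adj_one, adj_smul, hadjN, add_sub_cancel_left]
      exact pattern_smul hNpat _
    have hthm : (dg d * permGL F σ)⁻¹ * (theta C y)⁻¹ * (dg d * permGL F σ) ∈ unip F n :=
      (pattern_conj hth).2 (by rw [theta_inv_val]; exact hadjpat)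
    have hx'u : x' ∈ unip F n := mul_mem (mul_mem (inv_mem hyu) hx) (theta_unip C hyu)
    have hx'm : (dg d * permGL F σ)⁻¹ * x' * (dg d * permGL F σ) ∈ unip F n := by
      have := mul_mem (mul_mem (inv_mem hym) hxm) (inv_mem hthm)
      convert this using 1
      rw [hx']; group
    have hx'fix : adj C x'.1 = x'.1 := by
      rw [hx', Units.val_mul, Units.val_mul, adj_mul, adj_mul, hfix, theta_val, adj_adj]
      rw [Matrix.mul_assoc]
    have hval : x'.1 = 1 - (C.s * C.c C.s) • ((y⁻¹ : G).1 * (N * N) * (theta C y).1) := by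
      rw [hx', Units.val_mul, Units.val_mul, show x.1 = y.1 * adj C y.1 - (C.s * C.c C.s) • (N * N) by
        rw [hzval, add_sub_cancel_right], Matrix.mul_sub, Matrix.sub_mul, ← Matrix.mul_assoc, y.inv_mul,
        one_mul, Matrix.mul_smul, Matrix.smul_mul, theta_val, ← adj_mul, y.inv_mul, adj_one]
    have hgap' : ∀ i j : Fin n, i ≠ j → x'.1 i j ≠ 0 → (i : ℕ) + (n - k) ≤ j := by
      intro i j hij h0
      rw [hval, Matrix.sub_apply, Matrix.one_apply_ne hij, zero_sub, neg_ne_zero, Matrix.smul_apply] at h0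
      obtain ⟨b, hb⟩ := exists_entry (right_ne_zero_of_smul h0)
      have hbj : b ≤ j := by
        by_contra hc
        exact hb (by rw [(theta_unip C hyu).1 (show id j < id b from not_le.1 hc), mul_zero])
      obtain ⟨a, ha⟩ := exists_entry (left_ne_zero_of_mul hb)
      have hia : i ≤ a := by
        by_contra hc
        exact ha (by rw [(inv_mem hyu : y⁻¹ ∈ unip F n).1 (show id a < id i from not_le.1 hc), zero_mul])
      obtain ⟨m, hm⟩ := exists_entry (right_ne_zero_of_mul ha)
      have hgapN : ∀ p q : Fin n, N p q ≠ 0 → (p : ℕ) + max 1 (n - (k + 1)) ≤ q := by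
        intro p q h1
        have hpq := (hNpat p q h1).1
        rw [hN, Matrix.sub_apply, Matrix.one_apply_ne hpq.ne, sub_zero] at h1
        have := hgap p q hpq.ne h1
        have : (p : ℕ) < q := hpq
        omega
      have h1 := hgapN a m (left_ne_zero_of_mul hm)
      have h3 := hgapN m b (right_ne_zero_of_mul hm)
      have : (i : ℕ) ≤ a := hia
      have : (b : ℕ) ≤ j := hbj
      omega
    obtain ⟨z, hz, hzm, hze⟩ := ih x' hx'u hx'm hx'fix hgap'
    refine ⟨y * z, mul_mem hyu hz, ?_, ?_⟩
    · have := mul_mem hym hzm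
      convert this using 1
      group
    · rw [Units.val_mul, adj_mul, Matrix.mul_assoc, ← Matrix.mul_assoc z.1, ← hze, hx', Units.val_mul,
        Units.val_mul, Matrix.mul_assoc, ← theta_inv_val, Units.mul_inv, mul_one, ← Matrix.mul_assoc,
        y.mul_inv, one_mul]

/-- The Bruhat decomposition of a unitary matrix. -/
theorem exists_bruhat_fixed {g : G} (hg : g ∈ fixed C) :
    ∃ u ∈ unip F n, ∃ v ∈ unip F n, ∃ (d : Fin n → Fˣ) (σ : Equiv.Perm (Fin n)),
      u ∈ fixed C ∧ v ∈ fixed C ∧ dg d * permGL F σ ∈ fixed C ∧ mirror σ = σ ∧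
      g = u * (dg d * permGL F σ) * v := by
  obtain ⟨u, hu, v, hv, d, σ, rfl⟩ := exists_bruhat_unip g
  set m := dg d * permGL F σ with hm
  have hth : theta C m = dg (fun i => Units.map (C.c : F →* F) (d i.rev)⁻¹) * permGL F (mirror σ) := by
    rw [hm, map_mul, theta_dg, theta_perm]
  set x := u⁻¹ * theta C u with hxdef
  set w := v * (theta C v)⁻¹ with hwdef
  have hxw : x * theta C m = m * w := by
    have h := mem_fixed C |>.1 hg
    rw [map_mul, map_mul] at h
    calc x * theta C m = u⁻¹ * (theta C u * theta C m * theta C v) * (theta C v)⁻¹ := by rw [hxdef]; group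
      _ = m * w := by rw [h, hwdef]; group
  have hxu : x ∈ unip F n := mul_mem (inv_mem hu) (theta_unip C hu)
  obtain ⟨hσ, hd⟩ := mono_unique hxu (mul_mem hv (inv_mem (theta_unip C hv))) (hth ▸ hxw)
  have hfix : theta C m = m := by rw [hth, ← hσ, ← hd]
  have hxm : m⁻¹ * x * m ∈ unip F n := by
    rw [hfix] at hxw
    rw [mul_assoc, hxw, inv_mul_cancel_left]
    exact mul_mem hv (inv_mem (theta_unip C hv))
  have hadj : adj C x.1 = x.1 := by
    rw [hxdef, Units.val_mul, adj_mul, theta_val, adj_adj]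
  obtain ⟨y, hy, hym, hxy⟩ := exists_norm_factor C σ d n x hxu hxm hadj (fun i j hij h0 => by
    have : (i : ℕ) ≤ j := by
      by_contra hc
      exact h0 (hxu.1 (show id j < id i from not_le.1 hc))
    omega)
  have hxy' : x = y * (theta C y)⁻¹ := Units.ext hxy
  have hu' : u * y ∈ fixed C := by
    rw [mem_fixed, map_mul]
    calc theta C u * theta C y = u * x * theta C y := by rw [hxdef]; group
      _ = u * y := by rw [hxy']; group
  have hmf : m ∈ fixed C := hfix
  refine ⟨u * y, mul_mem hu hy, m⁻¹ * y⁻¹ * m * v, mul_mem ?_ hv, d, σ, hu', ?_, hmf, hσ.symm, by rw [← hm]; group⟩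
  · rw [show m⁻¹ * y⁻¹ * m = (m⁻¹ * y * m)⁻¹ by group]
    exact inv_mem hym
  · rw [show m⁻¹ * y⁻¹ * m * v = (u * y * m)⁻¹ * (u * m * v) by group]
    exact mul_mem (inv_mem (mul_mem hu' hmf)) hg

end Cfsg.Agent.KnownA.PronormalUnitary
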