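import Cfsg.Agent.KnownA.Pronormal.UnitaryBruhat

/-!
In characteristic two, subgroups of odd index of a special unitary group of even dimension are pronormal.
-/

set_option autoImplicit false
set_option linter.unusedSectionVars false

namespace Cfsg.Agent.KnownA.PronormalUnitary

open Matrix Cfsg Cfsg.Agent.Linear.Unipotent Cfsg.Agent.KnownA.PronormalCharTwo Cfsg.Agent.FGS4.Pronormal

variable {F : Type*} [Field F] {n : ℕ} (C : Conj F)

local notation "G" => GL (Fin n) F
local notation "M" => Matrix (Fin n) (Fin n) F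

theorem adj_transvection (a b : Fin n) (x : F) :
    adj C (transvection a b x) = transvection b.rev a.rev (C.c x) := by
  ext i j
  simp only [adj_apply, transvection, Matrix.add_apply, Matrix.one_apply, Matrix.single_apply, map_add,
    apply_ite C.c, map_one, map_zero]
  congr 1
  · exact if_congr (by rw [Fin.rev_inj]; exact eq_comm) rfl rfl
  · exact if_congr (by rw [Fin.rev_eq_iff, Fin.rev_eq_iff]; exact and_comm) rfl rfl

theorem el_comm {a b c e : Fin n} (hab : a ≠ b) (hce : c ≠ e) (hbc : b ≠ c) (hea : e ≠ a) (x y : F) :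
    Commute (el a b hab x : G) (el c e hce y) := by
  apply Units.ext
  rw [Units.val_mul, Units.val_mul, el_val, el_val, transvection, transvection]
  simp only [Matrix.mul_add, Matrix.add_mul, Matrix.mul_one, Matrix.one_mul,
    Matrix.single_mul_single_of_ne x a b c hbc y, Matrix.single_mul_single_of_ne y c e a hea x]
  abel

theorem mirror_of_fixed {d : Fin n → Fˣ} {σ : Equiv.Perm (Fin n)} (h : dg d * permGL F σ ∈ fixed C) :
    mirror σ = σ := by
  have h' := (mem_fixed C).1 h
  rw [map_mul, theta_dg, theta_perm] at h'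
  exact ((mono_unique (one_mem _) (one_mem _) (by rw [one_mul, mul_one]; exact h')).1).symm

theorem torus_decomp {τ : Fin n → Fˣ} {u : G} (hu : u ∈ unip F n) (h : dg τ * u ∈ fixed C) :
    dg τ ∈ fixed C ∧ u ∈ fixed C := by
  have h' := (mem_fixed C).1 h
  rw [map_mul] at h'
  have hp1 : permGL F (1 : Equiv.Perm (Fin n)) = 1 := Units.ext permMat_one
  have key := mono_unique (σ := (1 : Equiv.Perm (Fin n))) (τ := 1) (one_mem _)
    (mul_mem hu (inv_mem (theta_unip C hu))) (d := τ) (e := fun i => Units.map (C.c : F →* F) (τ i.rev)⁻¹)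
    (by rw [hp1, mul_one, mul_one, one_mul, ← theta_dg, ← mul_assoc, ← h', mul_inv_cancel_right])
  have h1 : theta C (dg τ) = dg τ := by rw [theta_dg, ← key.2]
  refine ⟨h1, ?_⟩
  rw [h1] at h'
  exact mul_left_cancel h'

theorem torus_rev {τ : Fin n → Fˣ} (h : dg τ ∈ fixed C) (i : Fin n) :
    (τ i.rev : F) = ((C.c (τ i : F)))⁻¹ := by
  have h' := (mem_fixed C).1 h
  rw [theta_dg] at h'
  have := congrFun (congrFun (congrArg (fun g : G => g.1) h') i.rev) i.rev
  simp [dg_val] at this
  exact this.symm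

section Two

variable [CharP F 2] (hev : ∀ i : Fin n, i.rev ≠ i)

/-- the unipotent unitary group -/
def uni' : Subgroup (GL (Fin n) F) := unip F n ⊓ fixed C

theorem mem_uni' {g : G} (h1 : g ∈ unip F n) (h2 : g ∈ fixed C) : g ∈ uni' C := ⟨h1, h2⟩

theorem long_fixed {a : Fin n} (h : a ≠ a.rev) {x : F} (hx : C.c x = x) : el a a.rev h x ∈ fixed C := by
  rw [mem_fixed_iff, el_val, adj_transvection, Fin.rev_rev, hx,
    transvection_mul_transvection_same (h := h), CharTwo.add_self_eq_zero, transvection_zero]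

theorem short_fixed {a b : Fin n} (h : a ≠ b) (hb : b ≠ a.rev) (hr : b.rev ≠ a.rev) (ha : a.rev ≠ a)
    (hb' : b ≠ b.rev) (x : F) : el a b h x * el b.rev a.rev hr (C.c x) ∈ fixed C := by
  have hc := el_comm (F := F) h hr hb' ha x (C.c x)
  rw [mem_fixed_iff]
  have e1 : adj C (el a b h x * el b.rev a.rev hr (C.c x) : G).1 = (el a b h x * el b.rev a.rev hr (C.c x) : G).1 := by
    rw [Units.val_mul, adj_mul, el_val, el_val, adj_transvection, adj_transvection, Fin.rev_rev, Fin.rev_rev,
      C.invol]
  rw [e1, ← Units.val_mul, mul_assoc, ← mul_assoc (el b.rev a.rev hr (C.c x)), ← hc.eq, mul_assoc,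
    ← mul_assoc (el a b h x)]
  rw [Units.val_mul, Units.val_mul, Units.val_mul, el_val, el_val, transvection_mul_transvection_same (h := h),
    transvection_mul_transvection_same (h := hr), CharTwo.add_self_eq_zero, CharTwo.add_self_eq_zero,
    transvection_zero, transvection_zero, mul_one]

include hev in
/-- Diagonal unitary matrices normalise overgroups of the unipotent group. -/
theorem twist {H : Subgroup G} (hU : uni' C ≤ H) {τ : Fin n → Fˣ} (hτ : dg τ ∈ fixed C) :
    ∀ (k : ℕ) (σ : Equiv.Perm (Fin n)) (d : Fin n → Fˣ), (∑ _i : Fin n, n * n) - weight σ ≤ k →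
      dg d * permGL F σ ∈ fixed C → dg d * permGL F σ ∈ H → dg (fun j => τ (σ j) * (τ j)⁻¹) ∈ H := by
  intro k
  induction k using Nat.strong_induction_on with
  | _ k ih =>
    intro σ d hk hmf hm
    by_cases hσ : σ = 1
    · subst hσ
      rw [show (fun j => τ ((1 : Equiv.Perm (Fin n)) j) * (τ j)⁻¹) = 1 by funext j; simp, map_one]
      exact one_mem H
    obtain ⟨a, b, hab, hba⟩ := descent hσ
    have hmir := mirror_of_fixed C hmf
    have hσrev : ∀ i, σ i.rev = (σ i).rev := fun i => by
      conv_lhs => rw [← hmir]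
      rw [mirror_apply, Fin.rev_rev]
    -- pulling upper root elements down
    have hpull : ∀ {x : G}, x ∈ fixed C →
        dg d * permGL F σ * x * (dg d * permGL F σ)⁻¹ ∈ unip F n → x ∈ H := by
      intro x hx hx'
      have := mul_mem (mul_mem (inv_mem hm) (hU (mem_uni' C hx' (mul_mem (mul_mem hmf hx) (inv_mem hmf))))) hm
      rwa [show (dg d * permGL F σ)⁻¹ * (dg d * permGL F σ * x * (dg d * permGL F σ)⁻¹) * (dg d * permGL F σ) = x
        by group] at this
    have hdown : ∀ {p q : Fin n} (hpq : p ≠ q), σ p < σ q → ∀ c : F,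
        dg d * permGL F σ * el p q hpq c * (dg d * permGL F σ)⁻¹ ∈ unip F n := by
      intro p q hpq hlt c
      rw [mul_assoc (dg d), perm_el, ← mul_assoc, dg_el, mul_assoc _ (dg d), mul_inv_cancel_right]
      exact el_mem_unip hlt _
    -- it is enough to find a torus element and a swap in `H`
    suffices hkey : ∃ (s : Equiv.Perm (Fin n)), (∀ j, s (s j) = j) ∧ weight σ < weight (σ * s) ∧
        permGL F s ∈ H ∧ permGL F s ∈ fixed C ∧ dg (fun j => τ (s j) * (τ j)⁻¹) ∈ H by
      obtain ⟨s, hinv, hlt, hsH, hsF, hsτ⟩ := hkey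
      have hle := weight_le (σ * s)
      have hrec := ih ((∑ _i : Fin n, n * n) - weight (σ * s)) (by omega) (σ * s) d le_rfl
        (by rw [← permGL_mul, ← mul_assoc]; exact mul_mem hmf hsF)
        (by rw [← permGL_mul, ← mul_assoc]; exact mul_mem hm hsH)
      have hconj : dg (fun j => τ (σ j) * (τ (s j))⁻¹) ∈ H := by
        have hm2 := mul_mem (mul_mem hsH hrec) (inv_mem hsH)
        have e := dg_perm (fun j => τ (σ j) * (τ (s j))⁻¹) s
        have e2 : (fun j => τ (σ (s j)) * (τ (s (s j)))⁻¹) = fun j => τ ((σ * s) j) * (τ j)⁻¹ := by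
          funext j; rw [hinv]; rfl
        rw [e2] at e
        rwa [← e, mul_inv_cancel_right] at hm2
      have hfin := mul_mem hconj hsτ
      rw [← map_mul] at hfin
      convert hfin using 2
      funext j
      rw [Pi.mul_apply, mul_assoc, inv_mul_cancel_left]
    by_cases hlong : b = a.rev
    · subst hlong
      have hup : ∀ c, C.c c = c → el a a.rev hab.ne c ∈ H := fun c hc =>
        hU ⟨el_mem_unip hab c, long_fixed C hab.ne hc⟩
      have hlow : ∀ c, C.c c = c → el a.rev a hab.ne' c ∈ H := fun c hc => by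
        refine hpull ?_ (hdown hab.ne' hba c)
        have := long_fixed C (a := a.rev) (by rw [Fin.rev_rev]; exact hab.ne') hc
        simpa [Fin.rev_rev] using this
      have hw : ∀ l : Fˣ, C.c l = l → dg (Function.update (Function.update 1 a l) a.rev l⁻¹) *
          permGL F (Equiv.swap a a.rev) ∈ H ∧ dg (Function.update (Function.update 1 a l) a.rev l⁻¹) *
          permGL F (Equiv.swap a a.rev) ∈ fixed C := by
        intro l hl
        have hl' : C.c ((l⁻¹ : Fˣ) : F) = ((l⁻¹ : Fˣ) : F) := by rw [Units.val_inv_eq_inv_val, map_inv₀, hl]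
        rw [← weyl_eq hab.ne l]
        refine ⟨mul_mem (mul_mem (hup _ hl) (hlow _ hl')) (hup _ hl), mul_mem (mul_mem (long_fixed C hab.ne hl) ?_)
          (long_fixed C hab.ne hl)⟩
        have := long_fixed C (a := a.rev) (by rw [Fin.rev_rev]; exact hab.ne') hl'
        simpa [Fin.rev_rev] using this
      have hs := hw 1 (by simp)
      rw [inv_one, show Function.update (Function.update (1 : Fin n → Fˣ) a 1) a.rev 1 = 1 by simp, map_one,
        one_mul] at hs
      set l : Fˣ := τ a.rev * (τ a)⁻¹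
      have hl : C.c l = l := by
        simp only [l, Units.val_mul, Units.val_inv_eq_inv_val, map_mul, map_inv₀, torus_rev C hτ a, C.invol]
        rw [mul_comm]
      refine ⟨Equiv.swap a a.rev, fun j => Equiv.swap_apply_self _ _ _, weight_swap hab hba, hs.1, hs.2, ?_⟩
      have := mul_mem (hw l hl).1 (inv_mem hs.1)
      rw [mul_inv_cancel_right] at this
      convert this using 2
      funext j
      rcases eq_or_ne j a with rfl | hja
      · rw [Equiv.swap_apply_left, Function.update_of_ne hab.ne, Function.update_self]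
      · rcases eq_or_ne j a.rev with rfl | hjb
        · rw [Equiv.swap_apply_right, Function.update_self]
          simp [l, _root_.mul_inv_rev]
        · rw [Equiv.swap_apply_of_ne_of_ne hja hjb, Function.update_of_ne hjb, Function.update_of_ne hja,
            mul_inv_cancel]
          rfl
    have hr : b.rev ≠ a.rev := fun e => hab.ne (Fin.rev_inj.1 e).symm
    have haa : a.rev ≠ a := hev a
    have hbb : b ≠ b.rev := (hev b).symm
    have hbr : a ≠ b.rev := fun e => hlong (by rw [e, Fin.rev_rev])
    have hrlt : b.rev < a.rev := Fin.rev_lt_rev.2 hab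
    have hσlt : σ a.rev < σ b.rev := by rw [hσrev, hσrev]; exact Fin.rev_lt_rev.2 hba
    have hup : ∀ c, el a b hab.ne c * el b.rev a.rev hr (C.c c) ∈ H := fun c =>
      hU ⟨mul_mem (el_mem_unip hab c) (el_mem_unip hrlt _), short_fixed C hab.ne hlong hr haa hbb c⟩
    have hlowF : ∀ c, el b a hab.ne' c * el a.rev b.rev hr.symm (C.c c) ∈ fixed C := fun c =>
      short_fixed C hab.ne' hbr hr.symm hbb.symm haa.symm c
    have hlow : ∀ c, el b a hab.ne' c * el a.rev b.rev hr.symm (C.c c) ∈ H := by
      intro c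
      refine hpull (hlowF c) ?_
      rw [show dg d * permGL F σ * (el b a hab.ne' c * el a.rev b.rev hr.symm (C.c c)) * (dg d * permGL F σ)⁻¹ =
        (dg d * permGL F σ * el b a hab.ne' c * (dg d * permGL F σ)⁻¹) *
        (dg d * permGL F σ * el a.rev b.rev hr.symm (C.c c) * (dg d * permGL F σ)⁻¹) by group]
      exact mul_mem (hdown _ hba c) (hdown _ hσlt _)
    set s := Equiv.swap a b * Equiv.swap b.rev a.rev with hsdef
    have hsb : ∀ j, Equiv.swap b.rev a.rev j = j ∨ Equiv.swap a b j = j := by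
      intro j
      by_cases h1 : j = b.rev
      · subst h1; exact Or.inr (Equiv.swap_apply_of_ne_of_ne hbr.symm hbb.symm)
      by_cases h2 : j = a.rev
      · subst h2; exact Or.inr (Equiv.swap_apply_of_ne_of_ne haa (Ne.symm hlong))
      exact Or.inl (Equiv.swap_apply_of_ne_of_ne h1 h2)
    let dA : Fˣ → Fin n → Fˣ := fun l => Function.update (Function.update 1 a l) b l⁻¹
    let dB : Fˣ → Fin n → Fˣ := fun l =>
      Function.update (Function.update 1 b.rev (Units.map (C.c : F →* F) l)) a.rev (Units.map (C.c : F →* F) l)⁻¹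
    have hw : ∀ l : Fˣ, dg (dA l * dB l) * permGL F s ∈ H ∧ dg (dA l * dB l) * permGL F s ∈ fixed C := by
      intro l
      have hcl : ((Units.map (C.c : F →* F) l) : F) = C.c (l : F) := rfl
      have hcl' : (((Units.map (C.c : F →* F) l)⁻¹ : Fˣ) : F) = C.c ((l⁻¹ : Fˣ) : F) := by
        rw [← map_inv]; rfl
      have e : dg (dA l * dB l) * permGL F s = (el a b hab.ne (l : F) * el b.rev a.rev hr (C.c (l : F))) *
          (el b a hab.ne' ((l⁻¹ : Fˣ) : F) * el a.rev b.rev hr.symm (C.c ((l⁻¹ : Fˣ) : F))) *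
          (el a b hab.ne (l : F) * el b.rev a.rev hr (C.c (l : F))) := by
        have h1 := weyl_eq hab.ne l
        have h2 := weyl_eq hr (Units.map (C.c : F →* F) l)
        rw [hcl, hcl'] at h2
        have hc1 : Commute (el b.rev a.rev hr (C.c (l : F))) (el b a hab.ne' ((l⁻¹ : Fˣ) : F)) :=
          el_comm hr hab.ne' (Ne.symm hlong) hbr _ _
        have hc2 : Commute (el b.rev a.rev hr (C.c (l : F)) * el a.rev b.rev hr.symm (C.c ((l⁻¹ : Fˣ) : F)))
            (el a b hab.ne (l : F)) :=
          (el_comm hr hab.ne haa hbb _ _).mul_left (el_comm hr.symm hab.ne hbr.symm hlong _ _)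
        calc dg (dA l * dB l) * permGL F s
            = (el a b hab.ne (l : F) * el b a hab.ne' ((l⁻¹ : Fˣ) : F) * el a b hab.ne (l : F)) *
              (el b.rev a.rev hr (C.c (l : F)) * el a.rev b.rev hr.symm (C.c ((l⁻¹ : Fˣ) : F)) *
                el b.rev a.rev hr (C.c (l : F))) := by
              rw [h1, h2, hsdef, ← permGL_mul, ← mul_assoc, ← mul_assoc, mono_mul_upper]
              congr 2
              show dg (dA l * dB l) = dg (dA l * fun j => dB l ((Equiv.swap a b)⁻¹ j))
              congr 1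
              funext j
              simp only [Pi.mul_apply, Equiv.swap_inv]
              congr 1
              simp only [dB]
              rcases eq_or_ne j a with rfl | hja
              · rw [Equiv.swap_apply_left]
                simp [Function.update_of_ne, hbr, haa.symm, hlong, hbb]
              · rcases eq_or_ne j b with rfl | hjb
                · rw [Equiv.swap_apply_right]
                  simp [Function.update_of_ne, hbr, haa.symm, hlong, hbb]
                · rw [Equiv.swap_apply_of_ne_of_ne hja hjb]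
          _ = _ := by
              simp only [mul_assoc]
              congr 1
              rw [← mul_assoc (el b.rev a.rev hr (C.c (l : F))) (el b a hab.ne' _), hc1.eq, mul_assoc]
              congr 1
              rw [← mul_assoc (el b.rev a.rev hr (C.c (l : F))) (el a.rev b.rev hr.symm _),
                ← mul_assoc (el a b hab.ne (l : F)) (el b.rev a.rev hr _ * el a.rev b.rev hr.symm _), ← hc2.eq]
              simp only [mul_assoc]
      rw [e]
      exact ⟨mul_mem (mul_mem (hup _) (hlow _)) (hup _),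
        mul_mem (mul_mem (short_fixed C hab.ne hlong hr haa hbb _) (hlowF _)) (short_fixed C hab.ne hlong hr haa hbb _)⟩
    have hs := hw 1
    rw [show dA 1 * dB 1 = 1 by simp [dA, dB], map_one, one_mul] at hs
    refine ⟨s, fun j => ?_, ?_, hs.1, hs.2, ?_⟩
    · have hcomm : Equiv.swap a b * Equiv.swap b.rev a.rev = Equiv.swap b.rev a.rev * Equiv.swap a b :=
        Equiv.Perm.Disjoint.commute fun j => (hsb j).symm
      show (s * s) j = j
      rw [hsdef]
      nth_rewrite 2 [hcomm]
      simp [mul_assoc]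
    · have h1 := weight_swap hab hba
      refine h1.trans (lt_of_lt_of_eq (weight_swap (σ := σ * Equiv.swap a b) hrlt ?_) (by rw [hsdef, mul_assoc]))
      rw [Equiv.Perm.mul_apply, Equiv.Perm.mul_apply, Equiv.swap_apply_of_ne_of_ne hbr.symm hbb.symm,
        Equiv.swap_apply_of_ne_of_ne haa (Ne.symm hlong)]
      exact hσlt
    · have := mul_mem (hw (τ b * (τ a)⁻¹)).1 (inv_mem hs.1)
      rw [mul_inv_cancel_right] at this
      convert this using 2
      funext j
      rw [hsdef, Equiv.Perm.mul_apply, Pi.mul_apply]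
      simp only [dA, dB]
      by_cases h1 : j = a
      · subst h1
        rw [Equiv.swap_apply_of_ne_of_ne hbr haa.symm, Equiv.swap_apply_left]
        simp [Function.update_of_ne, Function.update_self, hab.ne, hbr, haa.symm]
      by_cases h2 : j = b
      · subst h2
        rw [Equiv.swap_apply_of_ne_of_ne hbb hlong, Equiv.swap_apply_right]
        simp [Function.update_of_ne, Function.update_self, hbb, hlong, _root_.mul_inv_rev]
      by_cases h3 : j = b.rev
      · subst h3
        rw [Equiv.swap_apply_left, Equiv.swap_apply_of_ne_of_ne haa (Ne.symm hlong)]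
        simp only [Function.update_of_ne hr, Function.update_of_ne h1, Function.update_of_ne h2, Function.update_self,
          Pi.one_apply, one_mul]
        apply Units.ext
        simp [torus_rev C hτ, mul_comm]
      by_cases h4 : j = a.rev
      · subst h4
        rw [Equiv.swap_apply_right, Equiv.swap_apply_of_ne_of_ne hbr.symm hbb.symm]
        simp only [Function.update_of_ne h1, Function.update_of_ne h2, Function.update_self, Pi.one_apply, one_mul]
        apply Units.ext
        simp [torus_rev C hτ, mul_comm]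
      rw [Equiv.swap_apply_of_ne_of_ne h3 h4, Equiv.swap_apply_of_ne_of_ne h1 h2]
      simp [Function.update_of_ne, h1, h2, h3, h4]

include hev in
theorem torus_normalizes' {H : Subgroup G} (hU : uni' C ≤ H) {τ : Fin n → Fˣ} (hτ : dg τ ∈ fixed C) {x : G}
    (hx : x ∈ H) (hxf : x ∈ fixed C) : dg τ * x * (dg τ)⁻¹ ∈ H := by
  obtain ⟨u, hu, v, hv, d, σ, huf, hvf, hmf, -, rfl⟩ := exists_bruhat_fixed C hxf
  have huH := hU ⟨hu, huf⟩
  have hvH := hU ⟨hv, hvf⟩
  have hmH : dg d * permGL F σ ∈ H := by
    have := mul_mem (mul_mem (inv_mem huH) hx) (inv_mem hvH)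
    rwa [show u⁻¹ * (u * (dg d * permGL F σ) * v) * v⁻¹ = dg d * permGL F σ by group] at this
  have htw := twist C hev hU hτ _ σ d le_rfl hmf hmH
  have key : dg τ * (dg d * permGL F σ) * (dg τ)⁻¹ ∈ H := by
    have h1 := dg_perm τ σ
    have e1 : dg τ * (dg d * permGL F σ) * (dg τ)⁻¹ = dg d * permGL F σ * dg (fun j => τ (σ j) * (τ j)⁻¹) := by
      rw [← mul_assoc, ← map_mul, mul_comm τ d, map_mul, mul_assoc (dg d), h1, ← map_inv, mul_assoc,
        mul_assoc, mul_assoc, ← map_mul]
      rfl
    rw [e1]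
    exact mul_mem hmH htw
  have hcu : ∀ {w : G}, w ∈ unip F n → w ∈ fixed C → dg τ * w * (dg τ)⁻¹ ∈ H := fun hw hwf =>
    hU (mem_uni' C (unip_normal (b := dg τ) (blockTriangular_diagonal _) hw) (mul_mem (mul_mem hτ hwf) (inv_mem hτ)))
  have := mul_mem (mul_mem (hcu hu huf) key) (hcu hv hvf)
  rwa [show dg τ * u * (dg τ)⁻¹ * (dg τ * (dg d * permGL F σ) * (dg τ)⁻¹) * (dg τ * v * (dg τ)⁻¹) =
    dg τ * (u * (dg d * permGL F σ) * v) * (dg τ)⁻¹ by group] at this

include hev in
theorem normalizer_uni {g : G} (hgf : g ∈ fixed C) (hg : ∀ u ∈ uni' C, g * u * g⁻¹ ∈ uni' C) :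
    g ∈ upperTriangularGL n F := by
  obtain ⟨u, hu, v, hv, d, σ, huf, hvf, hmf, hmir, rfl⟩ := exists_bruhat_fixed C hgf
  set m := dg d * permGL F σ with hmdef
  have hm : ∀ x ∈ uni' C, m * x * m⁻¹ ∈ unip F n := by
    intro x hx
    have := mul_mem (mul_mem (inv_mem hu) (hg (v⁻¹ * x * v) (mem_uni' C (mul_mem (mul_mem (inv_mem hv) hx.1) hv)
      (mul_mem (mul_mem (inv_mem hvf) hx.2) hvf))).1) hu
    rwa [show u⁻¹ * (u * m * v * (v⁻¹ * x * v) * (u * m * v)⁻¹) * u = m * x * m⁻¹ by group] at this
  suffices hσ : σ = 1 by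
    have h1 : permGL F (1 : Equiv.Perm (Fin n)) = 1 := Units.ext permMat_one
    rw [hmdef, hσ, h1, mul_one]
    exact mul_mem (mul_mem (show u ∈ upperTriangularGL n F from hu.1) (blockTriangular_diagonal _)) hv.1
  by_contra hσ
  obtain ⟨a, b, hab, hba⟩ := descent hσ
  have hmove : ∀ {p q : Fin n} (hpq : p ≠ q) (c : F), m * el p q hpq c * m⁻¹ =
      el (σ p) (σ q) (fun e => hpq (σ.injective e)) ((d (σ p) : F) * c * ((d (σ q))⁻¹ : Fˣ)) := by
    intro p q hpq c
    rw [hmdef, mul_assoc (dg d), perm_el, ← mul_assoc, dg_el, mul_assoc _ (dg d), mul_inv_cancel_right]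
  by_cases hlong : b = a.rev
  · subst hlong
    have := (hm _ ⟨el_mem_unip hab 1, long_fixed C hab.ne (map_one _)⟩)
    rw [hmove] at this
    have h0 := this.1 (show id (σ a.rev) < id (σ a) from hba)
    rw [el_val, transvection, Matrix.add_apply, Matrix.one_apply_ne (ne_of_gt hba), Matrix.single_apply,
      if_pos ⟨rfl, rfl⟩, zero_add] at h0
    simp at h0
  have hr : b.rev ≠ a.rev := fun e => hab.ne (Fin.rev_inj.1 e).symm
  have := hm _ ⟨mul_mem (el_mem_unip hab 1) (el_mem_unip (Fin.rev_lt_rev.2 hab) _),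
    short_fixed C hab.ne hlong hr (hev a) (hev b).symm 1⟩
  rw [show m * (el a b hab.ne 1 * el b.rev a.rev hr (C.c 1)) * m⁻¹ =
    (m * el a b hab.ne 1 * m⁻¹) * (m * el b.rev a.rev hr (C.c 1) * m⁻¹) by group, hmove, hmove] at this
  have h0 := this.1 (show id (σ b) < id (σ a) from hba)
  have hσrev : ∀ i, σ i.rev = (σ i).rev := fun i => by
    conv_lhs => rw [← hmir]
    rw [mirror_apply, Fin.rev_rev]
  have hne : σ a ≠ σ b.rev := fun e => hlong (by rw [σ.injective e, Fin.rev_rev])
  rw [Units.val_mul, el_val, el_val, transvection, transvection] at h0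
  simp [Matrix.add_mul, Matrix.mul_add, Matrix.add_apply, Matrix.one_apply, ne_of_gt hba, Matrix.single_apply,
    hne, hne.symm, Matrix.single_mul_single_of_ne _ _ _ _ (fun e : σ b = σ b.rev => (hev b) (σ.injective e).symm)] at h0

variable [Finite F]

include hev in
/-- pronormality of odd index subgroups of a special unitary group in characteristic two -/
theorem pronormal_unitary {Γ : Type*} [Group Γ] [Finite Γ] (f : Γ →* G) (hf : Function.Injective f)
    (hfix : ∀ x, f x ∈ fixed C) (hsurj : ∀ g ∈ fixed C, g.1.det = 1 → ∃ x, f x = g)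
    (H : Subgroup Γ) (hH : Odd H.index) : Cfsg.IsPronormal H := by
  haveI := Fact.mk Nat.prime_two
  set U := (unip F n).comap f with hUdef
  have hUf : ∀ u ∈ uni' C, ∃ v ∈ U, f v = u := by
    intro u hu
    obtain ⟨v, rfl⟩ := hsurj u hu.2 (by
      rw [Matrix.det_of_isUpperTriangular hu.1.1]
      exact Finset.prod_eq_one fun i _ => hu.1.2 i)
    exact ⟨v, hu.1, rfl⟩
  have hN : ∀ g ∈ Subgroup.normalizer (U : Set Γ), f g ∈ upperTriangularGL n F := by
    intro g hg
    refine normalizer_uni C hev (hfix g) fun u hu => ?_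
    obtain ⟨v, hv, rfl⟩ := hUf u hu
    rw [← map_inv, ← map_mul, ← map_mul]
    exact ⟨(Subgroup.mem_normalizer_iff.1 hg v).1 hv, hfix _⟩
  obtain ⟨Q, hUQ⟩ := (unip_pgroup.comap_of_injective f hf).exists_le_sylow
  have hQU : (Q : Subgroup Γ) = U := by
    by_contra hne
    haveI := Q.2.isNilpotent
    have hlt : U.subgroupOf (Q : Subgroup _) < ⊤ :=
      lt_top_iff_ne_top.2 fun e => hne (le_antisymm (Subgroup.subgroupOf_eq_top.1 e) hUQ)
    obtain ⟨x, hx, hxU⟩ := SetLike.exists_of_lt (Group.normalizerCondition_of_isNilpotent _ hlt)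
    apply hxU
    rw [Subgroup.mem_subgroupOf]
    have hxN : (x : Γ) ∈ Subgroup.normalizer (U : Set Γ) := by
      refine Subgroup.mem_normalizer_iff.2 fun y => ⟨fun hy => ?_, fun hy => ?_⟩
      · exact (Subgroup.mem_normalizer_iff.1 hx ⟨y, hUQ hy⟩).1 hy
      · have hyQ : y ∈ (Q : Subgroup Γ) := by
          have := mul_mem (mul_mem (inv_mem x.2) (hUQ hy)) x.2
          rwa [show (x : Γ)⁻¹ * ((x : Γ) * y * (x : Γ)⁻¹) * x = y by group] at this
        exact (Subgroup.mem_normalizer_iff.1 hx ⟨y, hyQ⟩).2 hy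
    obtain ⟨t, ht⟩ := Q.2 x
    exact two_element_unip (hN _ hxN) (by rw [← map_pow, show (x : Γ) ^ 2 ^ t = 1 from congrArg Subtype.val ht, map_one])
  obtain ⟨P, hP⟩ := PronormalReduce.exists_sylow_le H hH
  obtain ⟨c, hc⟩ := MulAction.exists_smul_eq Γ P Q
  have hUH : U ≤ cmap c H := by
    rw [← hQU, ← hc, Sylow.coe_subgroup_smul]
    exact Subgroup.map_mono hP
  rw [← cmap_inv_cmap c H]
  refine isPronormal_cmap _ (PronormalReduce.criterion (cmap c H) Q (hQU ▸ hUH) fun g hg => ⟨1, one_mem _, ?_⟩)
  rw [cmap_one]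
  obtain ⟨τ, u, hu, e⟩ := upper_decomp (hN g (hQU ▸ hg))
  obtain ⟨hτ, huf⟩ := torus_decomp C hu (e ▸ hfix g)
  set H' := cmap c H with hH'
  have hu' : uni' C ≤ H'.map f := fun v hv => by
    obtain ⟨w, hw, rfl⟩ := hUf v hv
    exact ⟨w, hUH hw, rfl⟩
  refine Subgroup.eq_of_le_of_card_ge ?_ (Subgroup.card_map_of_injective (MulAut.conj g).injective).ge
  rintro _ ⟨y, hy, rfl⟩
  have huH := hu' ⟨hu, huf⟩
  have h1 := torus_normalizes' C hev hu' hτ (mul_mem (mul_mem huH ⟨y, hy, rfl⟩) (inv_mem huH))
    (mul_mem (mul_mem huf (hfix y)) (inv_mem huf))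
  rw [show dg τ * (u * f y * u⁻¹) * (dg τ)⁻¹ = (dg τ * u) * f y * (dg τ * u)⁻¹ by group, ← e,
    ← map_inv, ← map_mul, ← map_mul] at h1
  obtain ⟨z, hz, he⟩ := h1
  have := hf he
  subst this
  exact hz

end Two

end Cfsg.Agent.KnownA.PronormalUnitary
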