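import Cfsg.Agent.KnownA.Pronormal.UnitaryBase
import Cfsg.Agent.KnownA.Pronormal.UnitaryCharTwo
import Cfsg.Agent.KnownA.Pronormal.Main
import Cfsg.Agent.Forms.Instances

/-!
Subgroups of odd index in `PSU(2^w, q)` are pronormal.
-/

set_option autoImplicit false
set_option linter.unusedSectionVars false

namespace Cfsg.Agent.KnownA.PronormalUnitary

open Matrix Cfsg.Agent.Forms Cfsg.Agent.KnownA.PronormalLinear

variable {F : Type*} [Field F] [Fintype F] {q n : ℕ} (hF : Fintype.card F = q ^ 2)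

/-- the special unitary group inside the general linear group -/
def suGL (n : ℕ) (F : Type*) [Field F] (q : ℕ) : Cfsg.SU n F q →* GL (Fin n) F :=
  Matrix.SpecialLinearGroup.toGL.comp (Cfsg.SU n F q).subtype

theorem suGL_injective : Function.Injective (suGL n F q) := fun _ _ e =>
  Subtype.ext (Subtype.ext (congrArg Units.val e))

theorem suGL_mem (x : Cfsg.SU n F q) :
    suGL n F q x ∈ unit (frobQ hF) (Fin n) ∧ GeneralLinearGroup.det (suGL n F q x) = 1 :=
  ⟨(mem_GU_iff hF).1 x.2, Units.ext x.1.2⟩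

theorem suGL_surj {g : GL (Fin n) F} (hg : g ∈ unit (frobQ hF) (Fin n)) (hd : GeneralLinearGroup.det g = 1) :
    ∃ x, suGL n F q x = g :=
  ⟨⟨⟨g.1, congrArg Units.val hd⟩, fun u v => (mem_GU_iff hF).2 hg u v⟩, Units.ext rfl⟩

include hF in
theorem pronormal_odd (w : ℕ) (hw : 2 ≤ w) (hodd : Odd q)
    (H : Subgroup (Cfsg.PSU (2 ^ w) F q)) (hH : Odd H.index) : Cfsg.IsPronormal H := by
  obtain ⟨s, rfl⟩ : ∃ s, w = s + 1 + 1 := ⟨w - 2, by omega⟩
  obtain ⟨S, hS⟩ := goodU_exists hF hodd s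
  let e : Fin (2 ^ (s + 1)) ⊕ Fin (2 ^ (s + 1)) ≃ Fin (2 ^ (s + 1 + 1)) :=
    finSumFinEquiv.trans (finCongr (by rw [pow_succ 2 (s + 1)]; ring))
  let r := glReindex F e
  have hn : 1 ≤ 2 ^ (s + 1 + 1) := Nat.one_le_two_pow
  obtain ⟨T, t1, t2, t3⟩ := selfnorm_unitary hF (two_ne_zero_of_odd (by rw [hF]; exact hodd.pow)) hodd hS
    ⟨s, Fintype.card_fin _⟩
    (by rw [Fintype.card_fin, ← pow_succ']; exact expoU_double (two_le_q hF) hodd s)
    (r.symm.toMonoidHom.comp (suGL _ F q)) (r.symm.injective.comp suGL_injective)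
    (fun x => by
      obtain ⟨h1, h2⟩ := suGL_mem hF x
      refine ⟨(glReindex_mem_unit (frobQ hF) e).1 ?_, ?_⟩
      · show r (r.symm (suGL _ F q x)) ∈ _
        rwa [r.apply_symm_apply]
      · rw [← glReindex_det e]
        show GeneralLinearGroup.det (r (r.symm (suGL _ F q x))) = 1
        rwa [r.apply_symm_apply])
    (fun g hg hd => by
      obtain ⟨x, hx⟩ := suGL_surj hF ((glReindex_mem_unit (frobQ hF) e).2 hg) ((glReindex_det e g).trans hd)
      exact ⟨x, by show r.symm (suGL _ F q x) = g; rw [hx]; exact r.symm_apply_apply g⟩)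
    (by rw [card_unit_reindex _ e, card_unit hF, Fintype.card_fin, Forms.card_SU hF hn, Forms.card_GU hF])
  have hZ : IsPGroup 2 ↥(Subgroup.center (Cfsg.SU (2 ^ (s + 1 + 1)) F q)) := by
    have := Fact.mk Nat.prime_two
    have h2 : 2 ≤ 2 ^ (s + 1 + 1) := le_self_pow₀ one_le_two (by omega)
    obtain ⟨i, -, hi⟩ := (Nat.dvd_prime_pow Nat.prime_two).1 (Nat.gcd_dvd_left (2 ^ (s + 1 + 1)) (q + 1))
    exact IsPGroup.of_card (n := i) ((Forms.card_center_SU hF h2).trans hi)
  obtain ⟨v1, v2, v3⟩ := PronormalReduce.selfnorm_map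
    (f := QuotientGroup.mk' (Subgroup.center (Cfsg.SU (2 ^ (s + 1 + 1)) F q))) (QuotientGroup.mk'_surjective _)
    (by rw [QuotientGroup.ker_mk']; exact hZ) t1 t2 t3
  exact PronormalReduce.pronormal_of_selfnorm v1 v2 v3 H hH

/-- the form data -/
theorem exists_conj : ∃ C : Conj F, C.c = frobQ hF := by
  obtain ⟨t, ht⟩ := exists_add_sigma_eq_one (frobQ hF) (frobQ_ne_id hF) (frobQ_frobQ hF)
  exact ⟨⟨frobQ hF, frobQ_frobQ hF, t, ht⟩, rfl⟩

theorem adj_eq (C : Conj F) (A : Matrix (Fin n) (Fin n) F) :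
    adj C A = Linear.Unipotent.permMat F Fin.revPerm * (A.map C.c)ᵀ * Linear.Unipotent.permMat F Fin.revPerm := by
  ext i j
  rw [adj_apply, Matrix.mul_apply, Finset.sum_eq_single j.rev, Matrix.mul_apply, Finset.sum_eq_single i.rev]
  · simp [Linear.Unipotent.permMat]
  · intro k _ hk
    rw [show Linear.Unipotent.permMat F Fin.revPerm i k = 0 from
      if_neg fun e => hk (by rw [← e]; simp), zero_mul]
  · simp
  · intro k _ hk
    rw [show Linear.Unipotent.permMat F Fin.revPerm k j = 0 from if_neg fun e => hk (by rw [← e]; simp), mul_zero]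
  · simp

include hF in
theorem pronormal_even [CharP F 2] (hev : ∀ i : Fin n, i.rev ≠ i) (H : Subgroup (Cfsg.PSU n F q))
    (hH : Odd H.index) : Cfsg.IsPronormal H := by
  obtain ⟨C, hC⟩ := exists_conj hF
  set t := C.s with htdef
  have ht : t + C.c t = 1 := C.trace_s
  have two : ∀ x : F, x + x = 0 := CharTwo.add_self_eq_zero
  -- an isotropic basis
  let Pm : Matrix (Fin n) (Fin n) F := Matrix.of fun i j =>
    if j < j.rev then (if i = j then 1 else 0) + (if i = j.rev then 1 else 0)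
    else (if i = j.rev then t else 0) + (if i = j then t + 1 else 0)
  set J : Matrix (Fin n) (Fin n) F := Linear.Unipotent.permMat F Fin.revPerm with hJ
  have hJJ : J * J = 1 := by
    rw [hJ, Linear.Unipotent.permMat_mul, show (Fin.revPerm : Equiv.Perm (Fin n)) * Fin.revPerm = 1 by ext i; simp,
      Linear.Unipotent.permMat_one]
  have hPJ : (Pm.map C.c)ᵀ * Pm = J := by
    ext i j
    rw [Matrix.mul_apply]
    have hsupp : ∀ k, k ≠ j → k ≠ j.rev → Pm k j = 0 := fun k h1 h2 => by simp [Pm, h1, h2]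
    have hne := (hev j).symm
    rw [Fintype.sum_eq_add j j.rev hne fun k hk => by rw [hsupp k hk.1 hk.2, mul_zero]]
    simp only [hJ, Linear.Unipotent.permMat, Matrix.transpose_apply, Matrix.map_apply, Fin.revPerm_apply]
    have hc1 : C.c (t + 1) = t := by
      rw [map_add, map_one, show C.c t = 1 - t from eq_sub_of_add_eq' ht, CharTwo.sub_eq_add]
      linear_combination two (1 : F)
    by_cases hij : i = j
    · subst hij
      by_cases hlt : i < i.rev
      · simp [Pm, hlt, hne, hne.symm, two]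
      · simp [Pm, hlt, hne, hne.symm, hc1]
        linear_combination t * ht + two t
    by_cases hij' : i = j.rev
    · subst hij'
      by_cases hlt : j < j.rev
      · have hlt' : ¬ j.rev < j := lt_asymm hlt
        simp [Pm, hlt, hlt', hne, hne.symm, hc1, Fin.rev_rev]
        linear_combination ht
      · have hlt' : j.rev < j := lt_of_le_of_ne (not_lt.1 hlt) hne.symm
        simp [Pm, hlt, hlt', hne, hne.symm, hc1, Fin.rev_rev]
        linear_combination two t
    have h1 : j ≠ i.rev := fun e => hij' (by rw [e, Fin.rev_rev])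
    simp [Pm, hij, Ne.symm hij, hij', Ne.symm hij', h1, Fin.rev_inj]
  have hPdet : Pm.det ≠ 0 := fun e => by
    have h := congrArg Matrix.det hPJ
    rw [Matrix.det_mul, e, mul_zero] at h
    have h' := congrArg Matrix.det hJJ
    rw [Matrix.det_mul, ← h, mul_zero, Matrix.det_one] at h'
    exact zero_ne_one h'
  let P : GL (Fin n) F := GeneralLinearGroup.mkOfDetNeZero Pm hPdet
  have hPv : P.1 = Pm := rfl
  have key : ∀ g : GL (Fin n) F, g ∈ unit (frobQ hF) (Fin n) ↔ P⁻¹ * g * P ∈ fixed C := by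
    intro g
    have hPi : ((P⁻¹).1.map C.c)ᵀ * J * (P⁻¹).1 = 1 := by
      rw [← hPJ, ← hPv, show ((P⁻¹).1.map C.c)ᵀ * ((P.1.map C.c)ᵀ * P.1) * (P⁻¹).1 =
        ((P.1 * (P⁻¹).1).map C.c)ᵀ * (P.1 * (P⁻¹).1) by
          rw [Matrix.map_mul, Matrix.transpose_mul]; simp only [Matrix.mul_assoc], P.mul_inv]
      simp
    have e : ((P⁻¹ * g * P).1.map C.c)ᵀ * J * (P⁻¹ * g * P).1 =
        (Pm.map C.c)ᵀ * ((g.1.map C.c)ᵀ * g.1) * Pm := by
      rw [Units.val_mul, Units.val_mul, Matrix.map_mul, Matrix.map_mul, Matrix.transpose_mul, Matrix.transpose_mul,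
        hPv, show (Pm.map C.c)ᵀ * ((g.1.map C.c)ᵀ * ((P⁻¹).1.map C.c)ᵀ) * J * ((P⁻¹).1 * g.1 * Pm) =
          (Pm.map C.c)ᵀ * ((g.1.map C.c)ᵀ * (((P⁻¹).1.map C.c)ᵀ * J * (P⁻¹).1) * g.1) * Pm by
          simp only [Matrix.mul_assoc], hPi, Matrix.mul_one]
    have hswap : ∀ A : Matrix (Fin n) (Fin n) F, Aᵀ * A.map C.c = 1 ↔ (A.map C.c)ᵀ * A = 1 := fun A => by
      constructor <;> intro h <;> have h2 := congrArg (fun M : Matrix (Fin n) (Fin n) F => Mᵀ) h <;>
        simpa [Matrix.transpose_mul] using h2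
    rw [mem_unit, ← hC, hswap, mem_fixed_iff, adj_eq, ← hJ]
    constructor
    · intro h
      rw [h, Matrix.mul_one, hPJ] at e
      rw [Matrix.mul_assoc J, Matrix.mul_assoc J, e, hJJ]
    · intro h
      have h2 : ((P⁻¹ * g * P).1.map C.c)ᵀ * J * (P⁻¹ * g * P).1 = J := by
        have := congrArg (fun M => J * M) h
        simp only [← Matrix.mul_assoc, hJJ, Matrix.one_mul, Matrix.mul_one] at this
        exact this
      rw [e] at h2
      have hPJ' := hPJ
      rw [← Matrix.mul_one (Pm.map C.c)ᵀ] at hPJ'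
      have hu : IsUnit Pm := P.isUnit
      have hu' : IsUnit (Pm.map C.c)ᵀ := by
        rw [Matrix.isUnit_iff_isUnit_det, Matrix.det_transpose, show (Pm.map C.c).det = C.c Pm.det from
          (RingHom.map_det C.c Pm).symm]
        exact (isUnit_iff_ne_zero.2 (fun e => hPdet ((map_eq_zero _).1 e)))
      exact hu'.mul_left_cancel (hu.mul_right_cancel (h2.trans hPJ'.symm))
  let f : Cfsg.SU n F q →* GL (Fin n) F := (MulAut.conj P⁻¹).toMonoidHom.comp (suGL n F q)
  have hfv : ∀ x, f x = P⁻¹ * suGL n F q x * P := fun x => by simp [f]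
  refine PronormalReduce.pronormal_of_comap (f := QuotientGroup.mk' _) (QuotientGroup.mk'_surjective _)
    (pronormal_unitary C hev f (fun a b h => suGL_injective ((MulAut.conj P⁻¹).injective h))
      (fun x => by rw [hfv]; exact (key _).1 (suGL_mem hF x).1)
      (fun g hg hd => ?_) _ ?_)
  · have h1 : P * g * P⁻¹ ∈ unit (frobQ hF) (Fin n) := (key _).2 (by
      rwa [show P⁻¹ * (P * g * P⁻¹) * P = g by group])
    obtain ⟨x, hx⟩ := suGL_surj hF h1 (by
      have : GeneralLinearGroup.det g = 1 := Units.ext hd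
      simp [this])
    exact ⟨x, by rw [hfv, hx]; group⟩
  · rwa [Subgroup.index_comap_of_surjective _ (QuotientGroup.mk'_surjective _)]

include hF in
theorem pronormal_psu (w : ℕ) (hw : 2 ≤ w) (H : Subgroup (Cfsg.PSU (2 ^ w) F q)) (hH : Odd H.index) :
    Cfsg.IsPronormal H := by
  rcases Nat.even_or_odd q with he | ho
  · haveI : CharP F 2 := ringChar.of_eq (FiniteField.even_card_iff_char_two.2 (by
      rw [hF]; exact Nat.even_iff.1 (he.pow_of_ne_zero (by norm_num))))
    refine pronormal_even hF (fun i e => ?_) H hH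
    have h := congrArg Fin.val e
    rw [Fin.val_rev] at h
    obtain ⟨v, rfl⟩ : ∃ v, w = v + 1 := ⟨w - 1, by omega⟩
    have := pow_succ' 2 v
    omega
  · exact pronormal_odd hF w hw ho H hH

end Cfsg.Agent.KnownA.PronormalUnitary
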