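import Cfsg.Agent.KnownA.Pronormal.SylowGL
import Cfsg.Agent.Forms.UnitaryOrder

/-!
Sylow 2-subgroups of unitary groups of dimension a power of two, and their normalisers.
-/

set_option autoImplicit false
set_option linter.unusedSectionVars false

namespace Cfsg.Agent.KnownA.PronormalUnitary

open Matrix Cfsg.Agent.KnownA.PronormalLinear Cfsg.Agent.Forms Finset

/-- the exponent of two in the order of `GU_n(q)`, `q` odd -/
def expoU (q n : ℕ) : ℕ :=
  ∑ j ∈ range n, padicValNat 2 (if Even j then q ^ (j + 1) + 1 else q ^ (j + 1) - 1)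

theorem val_odd_plus {q : ℕ} (hodd : Odd q) (k : ℕ) :
    padicValNat 2 (q ^ (2 * k + 1) + 1) = padicValNat 2 (q + 1) := by
  have := Fact.mk Nat.prime_two
  set a : ℕ := ∑ i ∈ range k, q ^ (2 * i + 1) with ha
  set b : ℕ := ∑ i ∈ range k, q ^ (2 * i + 2) with hb
  have key : ∀ k, (q ^ (2 * k + 1) + 1) + (q + 1) * ∑ i ∈ range k, q ^ (2 * i + 1) =
      (q + 1) * (1 + ∑ i ∈ range k, q ^ (2 * i + 2)) := by
    intro k
    induction k with
    | zero => simp
    | succ k ih => rw [sum_range_succ, sum_range_succ]; ring_nf; ring_nf at ih; linarith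
  have hle : a ≤ 1 + b := by
    have h := key k
    rw [← ha, ← hb] at h
    have : (q + 1) * a ≤ (q + 1) * (1 + b) := by omega
    exact Nat.le_of_mul_le_mul_left this (Nat.succ_pos q)
  have e : q ^ (2 * k + 1) + 1 = (q + 1) * (1 + b - a) := by
    have h := key k
    rw [← ha, ← hb] at h
    rw [Nat.mul_sub, ← h]; omega
  have hpar : ∀ e : ℕ → ℕ, (∑ i ∈ range k, q ^ (e i)) % 2 = k % 2 := fun e => by
    rw [sum_nat_mod, sum_congr rfl (fun i _ => (Nat.odd_iff.1 (hodd.pow (n := e i)))),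
      sum_const, card_range, smul_eq_mul, mul_one]
  have hodd' : ¬ 2 ∣ 1 + b - a := by
    have h1 := hpar (fun i => 2 * i + 1)
    have h2 := hpar (fun i => 2 * i + 2)
    omega
  rw [e, padicValNat.mul (by omega) (fun h => hodd' (by rw [h]; exact dvd_zero _)),
    padicValNat.eq_zero_of_not_dvd hodd', add_zero]

theorem expoU_pow {q : ℕ} (hq : 1 < q) (hodd : Odd q) (s : ℕ) :
    expoU q (2 ^ (s + 1)) + 1 = 2 ^ s * (2 * padicValNat 2 (q + 1) + padicValNat 2 (q - 1) + 1) := by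
  have e : ∀ k : ℕ, padicValNat 2 (if Even (2 * k) then q ^ (2 * k + 1) + 1 else q ^ (2 * k + 1) - 1) +
      padicValNat 2 (if Even (2 * k + 1) then q ^ (2 * k + 1 + 1) + 1 else q ^ (2 * k + 1 + 1) - 1) =
      padicValNat 2 (q + 1) + (padicValNat 2 (q + 1) + padicValNat 2 (q - 1) + padicValNat 2 (k + 1)) := fun k => by
    rw [if_pos (even_two_mul k), if_neg (Nat.not_even_iff_odd.2 ⟨k, rfl⟩), val_odd_plus hodd, val_even hq hodd]
  rw [expoU, pow_succ', sum_pairs, sum_congr rfl (fun k _ => e k),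
    sum_add_distrib, sum_add_distrib, sum_const, sum_const, card_range, smul_eq_mul, smul_eq_mul, mul_add,
    mul_add, mul_one]
  have := sum_val_two_pow s
  linarith

theorem expoU_double {q : ℕ} (hq : 1 < q) (hodd : Odd q) (s : ℕ) :
    expoU q (2 ^ (s + 1 + 1)) = 2 * expoU q (2 ^ (s + 1)) + 1 := by
  have h1 := expoU_pow hq hodd s
  have h2 := expoU_pow hq hodd (s + 1)
  rw [pow_succ' 2 s, mul_assoc, ← h1] at h2
  omega

theorem expoU_one (q : ℕ) : expoU q 1 = padicValNat 2 (q + 1) := by simp [expoU]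

theorem expoU_two {q : ℕ} (hq : 1 < q) (hodd : Odd q) :
    expoU q 2 = 2 * padicValNat 2 (q + 1) + padicValNat 2 (q - 1) := by
  have := expoU_pow hq hodd 0
  norm_num at this
  omega

section Defs

variable {F : Type*} [Field F] {n n' m : Type*} [Fintype n] [DecidableEq n] [Fintype n'] [DecidableEq n']
  [Fintype m] [DecidableEq m] (σ : F →+* F)

/-- unitary matrices for the identity form -/
def unit (n : Type*) [Fintype n] [DecidableEq n] : Subgroup (GL n F) where
  carrier := {g | g.1ᵀ * g.1.map σ = 1}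
  one_mem' := by simp
  mul_mem' {a b} (ha : a.1ᵀ * a.1.map σ = 1) (hb : b.1ᵀ * b.1.map σ = 1) := by
    show (a * b : GL n F).1ᵀ * (a * b : GL n F).1.map σ = 1
    rw [Units.val_mul, Matrix.transpose_mul, Matrix.map_mul, Matrix.mul_assoc, ← Matrix.mul_assoc a.1ᵀ, ha,
      Matrix.one_mul, hb]
  inv_mem' {a} (ha : a.1ᵀ * a.1.map σ = 1) := by
    show (a⁻¹ : GL n F).1ᵀ * (a⁻¹ : GL n F).1.map σ = 1
    calc (a⁻¹ : GL n F).1ᵀ * (a⁻¹ : GL n F).1.map σ
        = (a⁻¹ : GL n F).1ᵀ * (a.1ᵀ * a.1.map σ) * (a⁻¹ : GL n F).1.map σ := by rw [ha, Matrix.mul_one]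
      _ = (a.1 * (a⁻¹ : GL n F).1)ᵀ * (a.1 * (a⁻¹ : GL n F).1).map σ := by
        rw [Matrix.transpose_mul, Matrix.map_mul]; simp only [Matrix.mul_assoc]
      _ = 1 := by rw [a.mul_inv]; simp

theorem mem_unit {g : GL n F} : g ∈ unit σ n ↔ g.1ᵀ * g.1.map σ = 1 := Iff.rfl

theorem det_unit {g : GL n F} (hg : g ∈ unit σ n) :
    (GeneralLinearGroup.det g : F) * σ (GeneralLinearGroup.det g : F) = 1 := by
  have h := congrArg Matrix.det (mem_unit σ |>.1 hg)
  rw [Matrix.det_mul, Matrix.det_transpose, Matrix.det_one] at h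
  have e : (g.1.map σ).det = σ g.1.det := (RingHom.map_det σ g.1).symm
  rw [e] at h
  exact h

theorem sc_mem_unit [Nonempty n] {l : Fˣ} : sc F n l ∈ unit σ n ↔ (l : F) * σ l = 1 := by
  rw [mem_unit, sc_val, Matrix.transpose_smul, Matrix.transpose_one]
  constructor
  · intro h
    obtain ⟨i⟩ := ‹Nonempty n›
    have := congrFun (congrFun h i) i
    simpa [Matrix.mul_apply, Matrix.one_apply] using this
  · intro h
    ext i j
    simp [Matrix.one_apply, apply_ite σ, h]

theorem blk_mem_unit {a b : GL m F} (ha : a ∈ unit σ m) (hb : b ∈ unit σ m) : blk (a, b) ∈ unit σ (m ⊕ m) := by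
  rw [mem_unit] at ha hb ⊢
  rw [blk_val, fromBlocks_transpose, fromBlocks_map, fromBlocks_multiply]
  simp [ha, hb]

theorem wB_mem_unit : wB F m ∈ unit σ (m ⊕ m) := by
  rw [mem_unit, wB_val, fromBlocks_transpose, fromBlocks_map, fromBlocks_multiply]
  simp

theorem wr_le_unit {S : Subgroup (GL m F)} (hS : S ≤ unit σ m) : wr S ≤ unit σ (m ⊕ m) := by
  rintro _ ⟨a, ha, b, hb, rfl | rfl⟩
  · exact blk_mem_unit σ (hS ha) (hS hb)
  · exact mul_mem (blk_mem_unit σ (hS ha) (hS hb)) (wB_mem_unit σ)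

theorem glReindex_mem_unit (e : n ≃ n') {g : GL n F} : glReindex F e g ∈ unit σ n' ↔ g ∈ unit σ n := by
  rw [mem_unit, mem_unit]
  show (Matrix.reindexAlgEquiv F F e g.1)ᵀ * (Matrix.reindexAlgEquiv F F e g.1).map σ = 1 ↔ _
  rw [← map_one (Matrix.reindexAlgEquiv F F e), ← (Matrix.reindexAlgEquiv F F e).injective.eq_iff (a := g.1ᵀ * g.1.map σ),
    map_mul]
  exact Iff.rfl

theorem card_unit_reindex (e : n ≃ n') : Nat.card (unit σ n (F := F)) = Nat.card (unit σ n' (F := F)) :=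
  Nat.card_congr ((glReindex F e).toEquiv.subtypeEquiv fun _ => (glReindex_mem_unit σ e).symm)

end Defs

section Sylow

variable {G : Type*} [Group G] [Finite G]

theorem sylow_mem {U S : Subgroup G} (hSU : S ≤ U) (hc : Nat.card ↥S = 2 ^ padicValNat 2 (Nat.card ↥U))
    {x : G} (hx : x ∈ U) (hp : ∃ t, x ^ 2 ^ t = 1) (hcomm : ∀ s, x * s = s * x) : x ∈ S := by
  have := Fact.mk Nat.prime_two
  have : IsPGroup 2 ↥(S ⊔ Subgroup.zpowers x) := by
    obtain ⟨t, ht⟩ := hp
    have hxp : IsPGroup 2 ↥(Subgroup.zpowers x) := by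
      obtain ⟨i, -, hi⟩ := (Nat.dvd_prime_pow Nat.prime_two).1 (orderOf_dvd_of_pow_eq_one ht)
      exact IsPGroup.of_card (n := i) (by rw [Nat.card_zpowers, hi])
    have : (Subgroup.zpowers x).Normal := ⟨fun y hy g => by
      obtain ⟨i, rfl⟩ := hy
      exact ⟨i, by show x ^ i = g * x ^ i * g⁻¹; rw [← (Commute.zpow_left (hcomm g) i).eq, mul_inv_cancel_right]⟩⟩
    exact (IsPGroup.of_card hc).to_sup_of_normal_right hxp
  obtain ⟨j, hj⟩ := IsPGroup.iff_card.1 this
  have hle : S ≤ S ⊔ Subgroup.zpowers x := le_sup_left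
  have heq : Nat.card ↥(S ⊔ Subgroup.zpowers x) ≤ Nat.card ↥S := by
    rw [hj, hc]
    refine Nat.pow_le_pow_right (by norm_num) ?_
    have hd : 2 ^ j ∣ Nat.card ↥U := hj ▸ Subgroup.card_dvd_of_le (sup_le hSU (Subgroup.zpowers_le.2 hx))
    exact (padicValNat_dvd_iff_le Nat.card_pos.ne').1 hd
  exact (Subgroup.eq_of_le_of_card_ge hle heq) ▸ (le_sup_right : Subgroup.zpowers x ≤ _) (Subgroup.mem_zpowers x)

end Sylow

variable {F : Type*} [Field F] [Fintype F] {q : ℕ} (hF : Fintype.card F = q ^ 2)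

local notation "U" => unit (frobQ hF)

theorem herm_eq (n : ℕ) (u v : Fin n → F) :
    Cfsg.hermForm n F q u v = u ⬝ᵥ fun i => frobQ hF (v i) := rfl

theorem mem_GU_iff {n : ℕ} {g : GL (Fin n) F} : g ∈ Cfsg.GU n F q ↔ g ∈ U (Fin n) := by
  have key : ∀ u v : Fin n → F, Cfsg.hermForm n F q (g.1 *ᵥ u) (g.1 *ᵥ v) =
      u ⬝ᵥ ((g.1ᵀ * g.1.map (frobQ hF)) *ᵥ fun i => frobQ hF (v i)) := by
    intro u v
    rw [herm_eq hF, ← Matrix.mulVec_mulVec, Matrix.dotProduct_mulVec u, Matrix.vecMul_transpose]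
    congr 1
    funext i
    simp [Matrix.mulVec, dotProduct, map_sum, map_mul]
  constructor
  · intro h
    rw [mem_unit]
    ext i j
    have h1 : Cfsg.hermForm n F q (g.1 *ᵥ Pi.single i 1) (g.1 *ᵥ Pi.single j 1) =
      Cfsg.hermForm n F q (Pi.single i 1) (Pi.single j 1) := h (Pi.single i 1) (Pi.single j 1)
    rw [key, herm_eq hF] at h1
    have e : (fun k => frobQ hF ((Pi.single j 1 : Fin n → F) k)) = Pi.single j 1 := by
      funext k; rcases eq_or_ne k j with rfl | hk <;> simp [*, -frobQ_apply]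
    rw [e, single_one_dotProduct, single_one_dotProduct, Matrix.mulVec_single_one] at h1
    rw [Matrix.one_apply]
    simpa [Pi.single_apply] using h1
  · intro h u v
    show Cfsg.hermForm n F q (g.1 *ᵥ u) (g.1 *ᵥ v) = _
    rw [key, (mem_unit _).1 h, Matrix.one_mulVec, herm_eq hF]

theorem card_unit (n : Type*) [Fintype n] [DecidableEq n] :
    Nat.card (U n) = Nat.card (Cfsg.GU (Fintype.card n) F q) := by
  rw [card_unit_reindex _ (Fintype.equivFin n)]
  exact Nat.card_congr (Equiv.subtypeEquivRight fun _ => (mem_GU_iff hF).symm)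

include hF in
theorem odd_q (hodd : Odd (Fintype.card F)) : Odd q := by
  rw [hF, Nat.odd_pow_iff (by norm_num)] at hodd
  exact hodd

theorem val_card_unit (hodd : Odd q) (n : Type*) [Fintype n] [DecidableEq n] :
    padicValNat 2 (Nat.card (U n)) = expoU q (Fintype.card n) := by
  have := Fact.mk Nat.prime_two
  have hq := two_le_q hF
  have hne : ∀ j : ℕ, (if Even j then q ^ (j + 1) + 1 else q ^ (j + 1) - 1) ≠ 0 := fun j => by
    have := Nat.one_lt_pow (show j + 1 ≠ 0 by omega) (show 1 < q by omega)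
    split_ifs <;> omega
  rw [card_unit hF, Forms.card_GU hF, padicValNat.mul (pow_ne_zero _ (by omega)) (prod_ne_zero_iff.2 fun i _ => hne i),
    padicValNat.eq_zero_of_not_dvd (by rw [← even_iff_two_dvd, Nat.not_even_iff_odd]; exact hodd.pow), zero_add,
    expoU]
  generalize Fintype.card n = N
  induction N with
  | zero => simp
  | succ N ih => rw [prod_range_succ, sum_range_succ, padicValNat.mul (prod_ne_zero_iff.2 fun i _ => hne i) (hne N), ih]

theorem normOne_iff {l : Fˣ} : (l : F) * frobQ hF l = 1 ↔ l ^ (q + 1) = 1 := by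
  rw [frobQ_apply, ← pow_succ', ← Units.val_pow_eq_pow_val, Units.val_eq_one]

/-- what is carried along the doubling -/
structure GoodU {n : Type*} [Fintype n] [DecidableEq n] (S : Subgroup (GL n F)) : Prop where
  sub : S ≤ U n
  card : Nat.card ↥S = 2 ^ padicValNat 2 (Nat.card (U n))
  norm : ∀ g : GL n F, (∀ a ∈ S, g * a * g⁻¹ ∈ S) → ∃ s ∈ S, ∃ l : Fˣ, g = s * sc F n l
  cent : ∀ x : GL n F, (∀ c ∈ S, GeneralLinearGroup.det c = 1 → x * c = c * x) → ∃ l : Fˣ, x = sc F n l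
  dets : ∀ u : Fˣ, u ^ (q + 1) = 1 → (∃ t, u ^ 2 ^ t = 1) → ∃ s ∈ S, GeneralLinearGroup.det s = u
  nontriv : ∃ c ∈ S, GeneralLinearGroup.det c = 1 ∧ ¬ PM c 1

variable {n n' m : Type*} [Fintype n] [DecidableEq n] [Fintype n'] [DecidableEq n'] [Fintype m] [DecidableEq m]

theorem scalar_memU [Nonempty n] {S : Subgroup (GL n F)} (hsub : S ≤ U n)
    (hc : Nat.card ↥S = 2 ^ padicValNat 2 (Nat.card (U n))) {l : Fˣ} (h1 : l ^ (q + 1) = 1)
    (hl : ∃ t, l ^ 2 ^ t = 1) : sc F n l ∈ S := by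
  obtain ⟨t, ht⟩ := hl
  exact sylow_mem hsub hc ((sc_mem_unit _).2 ((normOne_iff hF).2 h1)) ⟨t, by rw [← map_pow, ht, map_one]⟩
    fun s => sc_comm l s

theorem neg_one_norm (hodd : Odd q) : (-1 : Fˣ) ^ (q + 1) = 1 :=
  (hodd.add_one).neg_one_pow

theorem GoodU.reindex {S : Subgroup (GL n F)} (hS : GoodU hF S) (e : n ≃ n') :
    GoodU hF (S.map (glReindex F e).toMonoidHom) := by
  set f := glReindex F e
  have hmem : ∀ x, x ∈ S.map f.toMonoidHom ↔ f.symm x ∈ S := fun x => Subgroup.mem_map_equiv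
  have hsc : ∀ l : Fˣ, f.symm (sc F n' l) = sc F n l := fun l => by rw [← glReindex_sc e l, MulEquiv.symm_apply_apply]
  refine ⟨?_, ?_, ?_, ?_, ?_, ?_⟩
  · rintro _ ⟨a, ha, rfl⟩
    exact (glReindex_mem_unit _ e).2 (hS.sub ha)
  · have e1 : Nat.card ↥(S.map f.toMonoidHom) = Nat.card ↥S := Nat.card_congr (f.subgroupMap S).symm.toEquiv
    rw [e1, hS.card, card_unit_reindex _ e]
  · intro g hg
    obtain ⟨s, hs, l, e'⟩ := hS.norm (f.symm g) fun a ha => by
      have := (hmem _).1 (hg (f a) ⟨a, ha, rfl⟩)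
      simpa using this
    exact ⟨f s, ⟨s, hs, rfl⟩, l, by rw [← glReindex_sc e l, ← map_mul, ← e', MulEquiv.apply_symm_apply]⟩
  · intro x hx
    obtain ⟨l, e'⟩ := hS.cent (f.symm x) fun c hc hd => by
      have := hx (f c) ⟨c, hc, rfl⟩ (by rw [glReindex_det, hd])
      apply f.injective
      simpa using this
    exact ⟨l, by rw [← glReindex_sc e l, ← e', MulEquiv.apply_symm_apply]⟩
  · intro u hu1 hu
    obtain ⟨s, hs, e'⟩ := hS.dets u hu1 hu
    exact ⟨f s, ⟨s, hs, rfl⟩, by rw [glReindex_det, e']⟩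
  · obtain ⟨c, hc, hd, hne⟩ := hS.nontriv
    refine ⟨f c, ⟨c, hc, rfl⟩, by rw [glReindex_det, hd], fun h => hne ?_⟩
    rcases h with h | h
    · exact Or.inl (f.injective (by rw [h, map_one]))
    · exact Or.inr (f.injective (by rw [h, map_mul, map_one, glReindex_sc]))

section Doubling

variable [Nonempty m] {S : Subgroup (GL m F)}

theorem card_wr_unit (hodd : Odd q) (hc : Nat.card ↥S = 2 ^ padicValNat 2 (Nat.card (U m)))
    (hexp : expoU q (2 * Fintype.card m) = 2 * expoU q (Fintype.card m) + 1) :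
    Nat.card ↥(wr S) = 2 ^ padicValNat 2 (Nat.card (U (m ⊕ m))) := by
  rw [card_wr, hc, val_card_unit hF hodd, val_card_unit hF hodd, Fintype.card_sum, ← two_mul (Fintype.card m), hexp]
  ring

theorem GoodU.step (h2 : (2 : F) ≠ 0) (hodd : Odd q) (hS : GoodU hF S) (hm : Even (Fintype.card m))
    (hexp : expoU q (2 * Fintype.card m) = 2 * expoU q (Fintype.card m) + 1) : GoodU hF (wr S) := by
  have hneg := scalar_memU hF hS.sub hS.card (neg_one_norm hodd) ⟨1, by simp⟩
  obtain ⟨c, hc, hcd, hcne⟩ := hS.nontriv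
  refine ⟨wr_le_unit _ hS.sub, card_wr_unit hF hodd hS.card hexp, fun g hg => ?_, fun x hx => ?_,
    fun u hu1 hu => ?_, ?_⟩
  · have hg' : ∀ y ∈ wr S, g⁻¹ * y * g ∈ wr S := by
      intro y hy
      have he : (wr S).map (MulAut.conj g).toMonoidHom = wr S :=
        Subgroup.eq_of_le_of_card_ge (by rintro _ ⟨a, ha, rfl⟩; exact hg a ha)
          (Subgroup.card_map_of_injective (MulAut.conj g).injective).ge
      rw [← he] at hy
      obtain ⟨a, ha, rfl⟩ := hy
      rw [show g⁻¹ * (MulAut.conj g).toMonoidHom a * g = a by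
        show g⁻¹ * (g * a * g⁻¹) * g = a; group]
      exact ha
    exact normalizer_wr h2 (fun _ => True) hS.norm (fun x hx => hS.cent x fun a ha _ => hx a ha trivial)
      (fun x hx => hS.cent x fun a ha _ => hx a ha trivial) ⟨c, hc, trivial, hcne⟩
      (fun a ha => ⟨1, one_mem _, trivial⟩) (fun a ha => ⟨1, one_mem _, trivial⟩) hneg trivial trivial
      (fun _ _ _ _ => trivial) (fun y hy _ => ⟨hg y hy, trivial⟩) (fun y hy _ => ⟨hg' y hy, trivial⟩)
  · have hz : GeneralLinearGroup.det (zB F m) = 1 := by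
      rw [zB, det_blk, det_sc, map_one, mul_one, hm.neg_one_pow]
    obtain ⟨a, b, rfl⟩ := eq_blk_of_comm h2 (hx _ (blk_mem_wr hneg (one_mem _)) hz)
    obtain ⟨la, rfl⟩ := hS.cent a fun d hd hdd => by
      have := hx _ (blk_mem_wr hd (one_mem _)) (by rw [det_blk, hdd, map_one, mul_one])
      rw [← map_mul, ← map_mul, Prod.mk_mul_mk, Prod.mk_mul_mk] at this
      exact (blk_inj this).1
    obtain ⟨lb, rfl⟩ := hS.cent b fun d hd hdd => by
      have := hx _ (blk_mem_wr (one_mem _) hd) (by rw [det_blk, hdd, map_one, mul_one])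
      rw [← map_mul, ← map_mul, Prod.mk_mul_mk, Prod.mk_mul_mk] at this
      exact (blk_inj this).2
    have := hx _ wB_mem_wr (det_wB hm)
    rw [wB_blk] at this
    have e := (blk_inj (mul_right_cancel this)).1
    exact ⟨la, by rw [sc_blk, ← e]⟩
  · obtain ⟨s, hs, hd⟩ := hS.dets u hu1 hu
    exact ⟨blk (s, 1), blk_mem_wr hs (one_mem _), by rw [det_blk, hd, map_one, mul_one]⟩
  · refine ⟨blk (c, 1), blk_mem_wr hc (one_mem _), by rw [det_blk, hcd, map_one, mul_one], fun h => hcne ?_⟩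
    rcases h with h | h
    · rw [← map_one blk, Prod.one_eq_mk] at h
      exact Or.inl (blk_inj h).1
    · rw [mul_one, sc_neg_one_blk] at h
      exact Or.inr (by rw [mul_one]; exact (blk_inj h).1)

/-- a self-normalising Sylow 2-subgroup of a special unitary group -/
theorem selfnorm_unitary (h2 : (2 : F) ≠ 0) (hodd : Odd q) (hS : GoodU hF S)
    (hm : ∃ j, Fintype.card m = 2 ^ (j + 1))
    (hexp : expoU q (2 * Fintype.card m) = 2 * expoU q (Fintype.card m) + 1)
    {Γ : Type*} [Group Γ] [Finite Γ] (f : Γ →* GL (m ⊕ m) F) (hf : Function.Injective f)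
    (hfix : ∀ x, f x ∈ U (m ⊕ m) ∧ GeneralLinearGroup.det (f x) = 1)
    (hfr : ∀ g ∈ U (m ⊕ m), GeneralLinearGroup.det g = 1 → ∃ x, f x = g)
    (hΓ : (q + 1) * Nat.card Γ = Nat.card (U (m ⊕ m))) :
    ∃ T : Subgroup Γ, IsPGroup 2 ↥T ∧ ¬ 2 ∣ T.index ∧ Subgroup.normalizer (T : Set Γ) ≤ T := by
  classical
  have := Fact.mk Nat.prime_two
  obtain ⟨j, hj⟩ := hm
  have hmev : Even (Fintype.card m) := ⟨2 ^ j, by rw [hj, pow_succ]; ring⟩
  have hcard := card_wr_unit hF hodd hS.card hexp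
  have hsub := wr_le_unit (frobQ hF) hS.sub
  have hp : IsPGroup 2 ↥(wr S) := IsPGroup.of_card hcard
  have hdetone : ∀ s ∈ wr S, GeneralLinearGroup.det s ^ (q + 1) = 1 := fun s hs =>
    (normOne_iff hF).1 (det_unit _ (hsub hs))
  have hdet2 : ∀ {k : Type _} [Fintype k] [DecidableEq k] {R : Subgroup (GL k F)}, IsPGroup 2 ↥R → ∀ s ∈ R,
      ∃ t, GeneralLinearGroup.det s ^ 2 ^ t = 1 := by
    intro k _ _ R hR s hs
    obtain ⟨t, ht⟩ := hR ⟨s, hs⟩
    exact ⟨t, by rw [← map_pow, show s ^ 2 ^ t = 1 from congrArg Subtype.val ht, map_one]⟩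
  refine ⟨(wr S).comap f, hp.comap_of_injective f hf, ?_, ?_⟩
  · set T := (wr S).comap f
    let d : ↥(wr S) →* Fˣ := GeneralLinearGroup.det.comp (wr S).subtype
    have hk : Nat.card ↥d.ker = Nat.card ↥T := by
      let k : ↥T → ↥d.ker := fun A => ⟨⟨f A.1, A.2⟩, (hfix A.1).2⟩
      refine (Nat.card_eq_of_bijective k ⟨fun A B e => Subtype.ext (hf (congrArg (fun y : ↥d.ker => y.1.1) e)), ?_⟩).symm
      rintro ⟨⟨x, hx⟩, hd⟩
      obtain ⟨A, hA⟩ := hfr x (hsub hx) hd
      exact ⟨⟨A, by show f A ∈ wr S; rw [hA]; exact hx⟩, Subtype.ext (Subtype.ext hA)⟩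
    have hS' := Subgroup.card_eq_card_quotient_mul_card_subgroup d.ker
    rw [Nat.card_congr (QuotientGroup.quotientKerEquivRange d).toEquiv, hk] at hS'
    have hr : Nat.card ↥d.range ∣ q + 1 := by
      rw [← card_normOne hF]
      refine Subgroup.card_dvd_of_le ?_
      rintro _ ⟨x, rfl⟩
      exact hdetone x.1 x.2
    obtain ⟨r, hr⟩ := hr
    obtain ⟨i, hi⟩ := Subgroup.card_dvd_of_le hsub
    intro h
    have e : i = r * T.index := by
      refine Nat.eq_of_mul_eq_mul_left (show 0 < Nat.card ↥d.range * Nat.card ↥T from Nat.mul_pos Nat.card_pos Nat.card_pos) ?_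
      rw [← T.card_mul_index, hr, hi, hS'] at hΓ
      rw [← hΓ]; ring
    obtain ⟨r', hr'⟩ := (h.mul_left r)
    rw [← e] at hr'
    rw [hr', hcard, ← mul_assoc, ← pow_succ] at hi
    exact pow_succ_padicValNat_not_dvd (Nat.card_pos (α := U (m ⊕ m))).ne' ⟨r', hi⟩
  · intro g hg
    have hdets : ∀ a ∈ S, ∃ b ∈ S, GeneralLinearGroup.det a * GeneralLinearGroup.det b = 1 := fun a ha => by
      obtain ⟨t, ht⟩ := hdet2 (IsPGroup.of_card hS.card) a ha
      obtain ⟨b, hb, e⟩ := hS.dets (GeneralLinearGroup.det a)⁻¹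
        (by rw [_root_.inv_pow, (normOne_iff hF).1 (det_unit _ (hS.sub ha)), inv_one])
        ⟨t, by rw [_root_.inv_pow, ht, inv_one]⟩
      exact ⟨b, hb, by rw [e, mul_inv_cancel]⟩
    obtain ⟨c, hc, hcd, hcne⟩ := hS.nontriv
    have hg1 : ∀ x ∈ wr S, GeneralLinearGroup.det x = 1 →
        (f g * x * (f g)⁻¹ ∈ wr S ∧ GeneralLinearGroup.det (f g * x * (f g)⁻¹) = 1) ∧
        ((f g)⁻¹ * x * f g ∈ wr S ∧ GeneralLinearGroup.det ((f g)⁻¹ * x * f g) = 1) := by
      intro x hx hd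
      obtain ⟨A, rfl⟩ := hfr x (hsub hx) hd
      refine ⟨⟨?_, by simp [hd, (hfix g).2]⟩, ⟨?_, by simp [hd, (hfix g).2]⟩⟩
      · rw [← map_inv, ← map_mul, ← map_mul]
        exact (Subgroup.mem_normalizer_iff.1 hg A).1 hx
      · rw [← map_inv, ← map_mul, ← map_mul]
        exact (Subgroup.mem_normalizer_iff''.1 hg A).1 hx
    have hneg := scalar_memU hF hS.sub hS.card (neg_one_norm hodd) ⟨1, by simp⟩
    obtain ⟨s, hs, l, e⟩ := normalizer_wr h2 (fun x => GeneralLinearGroup.det x = 1) hS.norm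
      (fun x hx => hS.cent x fun a ha hd => hx a ha (by rw [det_blk, hd, map_one, mul_one]))
      (fun x hx => hS.cent x fun a ha hd => hx a ha (by rw [det_blk, hd, map_one, one_mul]))
      ⟨c, hc, by rw [det_blk, hcd, map_one, mul_one], hcne⟩
      (fun a ha => by obtain ⟨b, hb, e⟩ := hdets a ha; exact ⟨b, hb, by rw [det_blk, e]⟩)
      (fun b hb => by obtain ⟨a, ha, e⟩ := hdets b hb; exact ⟨a, ha, by rw [det_blk, mul_comm, e]⟩)
      hneg (by rw [zB, det_blk, det_sc, map_one, mul_one, hmev.neg_one_pow]) (det_wB hmev)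
      (fun s _ x hx => by simp [hx]) (fun x hx hd => (hg1 x hx hd).1) (fun x hx hd => (hg1 x hx hd).2)
    have hl1 : l ^ (q + 1) = 1 := by
      refine (normOne_iff hF).1 ((sc_mem_unit (frobQ hF) (n := m ⊕ m)).1 ?_)
      have := mul_mem (inv_mem (hsub hs)) (hfix g).1
      rwa [e, inv_mul_cancel_left] at this
    have hd1 := (hfix g).2
    rw [e, map_mul, det_sc, Fintype.card_sum, hj] at hd1
    obtain ⟨t, ht⟩ := hdet2 hp s hs
    have hl : ∃ t', l ^ 2 ^ t' = 1 := by
      refine ⟨j + 1 + 1 + t, ?_⟩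
      have := congrArg (fun u : Fˣ => u ^ 2 ^ t) hd1
      simp only [mul_pow, one_pow, ht, one_mul, ← pow_mul] at this
      rw [← this]
      congr 1
      rw [pow_add, pow_succ 2 (j + 1)]
      ring
    show f g ∈ wr S
    rw [e]
    exact mul_mem hs (scalar_memU hF hsub hcard hl1 hl)

end Doubling

end Cfsg.Agent.KnownA.PronormalUnitary
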